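import Mathlib
import Cfsg.Agent.H75.Flags
import Cfsg.Agent.H11.Irr

/-!
# The Jacobi–Trudi identity and the partition-indexed characters of `GL n` and `Sym n`
-/

set_option autoImplicit false

namespace Cfsg.Agent.H75

open Matrix Cfsg MvPolynomial
open scoped MatrixGroups

section Sym

variable (n : ℕ)

/-- Generating series of the complete homogeneous symmetric polynomials. -/
noncomputable def hSer : PowerSeries (MvPolynomial (Fin n) ℤ) :=
  ∏ j : Fin n, PowerSeries.mk fun m => (X j : MvPolynomial (Fin n) ℤ) ^ m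

/-- Complete homogeneous symmetric polynomials. -/
noncomputable def hPol (m : ℕ) : MvPolynomial (Fin n) ℤ := PowerSeries.coeff m (hSer n)

theorem hPol_eq (m : ℕ) :
    hPol n m = ∑ l ∈ Finset.finsuppAntidiag (Finset.univ : Finset (Fin n)) m, monomial l 1 := by
  rw [hPol, hSer, PowerSeries.coeff_prod]
  refine Finset.sum_congr rfl fun l _ => ?_
  simp only [PowerSeries.coeff_mk]
  rw [monomial_eq, C_1, one_mul, Finsupp.prod_fintype _ _ (by simp)]

theorem hPol_zero : hPol n 0 = 1 := by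
  rw [hPol_eq]; simp

variable {n}

theorem coeff_prod_hPol (α β : Fin n → ℕ) :
    coeff (Finsupp.equivFunOnFinite.symm α) (∏ t, hPol n (β t)) = Nat.card (ContTab α β) := by
  simp only [hPol_eq]
  rw [Finset.prod_univ_sum, coeff_sum]
  have : ∀ N : Fin n → Fin n →₀ ℕ, ∏ t, (monomial (N t) (1 : ℤ) : MvPolynomial (Fin n) ℤ) =
      monomial (∑ t, N t) 1 := fun N => (monomial_sum_one _ _).symm
  simp only [this, coeff_monomial]
  rw [Finset.sum_boole, Nat.cast_inj, ← Nat.card_eq_finsetCard]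
  refine Nat.card_congr
    { toFun := fun N => ⟨fun s t => N.1 t s, ?_⟩
      invFun := fun N => ⟨fun t => Finsupp.equivFunOnFinite.symm fun s => N.1 s t, ?_⟩
      left_inv := fun N => by ext; simp
      right_inv := fun N => by ext; simp }
  · obtain ⟨N, hN⟩ := N
    simp only [Finset.mem_filter, Fintype.mem_piFinset, Finset.mem_finsuppAntidiag] at hN
    refine ⟨fun s => ?_, fun t => (hN.1 t).1⟩
    have := DFunLike.congr_fun hN.2 s
    simpa [Finsupp.finsetSum_apply] using this
  · obtain ⟨N, h1, h2⟩ := N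
    simp only [Finset.mem_filter, Fintype.mem_piFinset, Finset.mem_finsuppAntidiag]
    refine ⟨fun t => ⟨by simpa using h2 t, Finset.subset_univ _⟩, ?_⟩
    ext s
    simpa [Finsupp.finsetSum_apply] using h1 s

/-- The polynomial `∏_{j ≠ i} (1 - x_j t)`. -/
noncomputable def ePol (i : Fin n) : Polynomial (MvPolynomial (Fin n) ℤ) :=
  ∏ j ∈ Finset.univ.erase i, (1 - Polynomial.C (X j) * Polynomial.X)

theorem natDegree_ePol (i : Fin n) : (ePol i).natDegree < n := by
  refine (Polynomial.natDegree_prod_le _ _).trans_lt ?_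
  refine (Finset.sum_le_card_nsmul _ _ 1 fun j _ => ?_).trans_lt ?_
  · compute_degree
  · have := i.pos
    simp only [Finset.mem_univ, Finset.card_erase_of_mem, Finset.card_univ, Fintype.card_fin,
      smul_eq_mul, mul_one]
    omega

theorem one_sub_mul_mk {R : Type*} [CommRing R] (x : R) :
    (1 - PowerSeries.C x * PowerSeries.X) * PowerSeries.mk (fun m => x ^ m) = 1 := by
  ext m
  rw [sub_mul, one_mul, mul_assoc, map_sub, PowerSeries.coeff_C_mul]
  rcases m with _ | m
  · simp
  · simp [PowerSeries.coeff_succ_X_mul, pow_succ', PowerSeries.coeff_one]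

theorem ePol_mul_hSer (i : Fin n) :
    (ePol i : PowerSeries (MvPolynomial (Fin n) ℤ)) * hSer n =
      PowerSeries.mk fun m => (X i : MvPolynomial (Fin n) ℤ) ^ m := by
  have h : (ePol i : PowerSeries (MvPolynomial (Fin n) ℤ)) =
      ∏ j ∈ Finset.univ.erase i, (1 - PowerSeries.C (X j) * PowerSeries.X) := by
    rw [ePol, ← Polynomial.coeToPowerSeries.ringHom_apply, map_prod]
    simp
  rw [h, hSer, ← Finset.mul_prod_erase _ _ (Finset.mem_univ i), mul_left_comm,
    ← Finset.prod_mul_distrib]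
  simp [one_sub_mul_mk]

theorem X_pow_eq_sum (i : Fin n) (m : ℕ) :
    (X i : MvPolynomial (Fin n) ℤ) ^ m =
      ∑ r : Fin n, (if r.val ≤ m then hPol n (m - r) else 0) * (ePol i).coeff r := by
  have h := congrArg (PowerSeries.coeff m) (ePol_mul_hSer i)
  rw [PowerSeries.coeff_mk, PowerSeries.coeff_mul,
    Finset.Nat.sum_antidiagonal_eq_sum_range_succ_mk] at h
  rw [← h, Fin.sum_univ_eq_sum_range
    (fun r => (if r ≤ m then hPol n (m - r) else 0) * (ePol i).coeff r) n]
  have h1 : ∑ r ∈ Finset.range n, (if r ≤ m then hPol n (m - r) else 0) * (ePol i).coeff r =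
      ∑ r ∈ Finset.range (n + m + 1), (if r ≤ m then hPol n (m - r) else 0) * (ePol i).coeff r := by
    refine Finset.sum_subset (Finset.range_subset_range.2 (by omega)) fun r _ hr => ?_
    rw [Polynomial.coeff_eq_zero_of_natDegree_lt, mul_zero]
    have := natDegree_ePol i
    simp only [Finset.mem_range] at hr
    omega
  rw [h1]
  refine (Finset.sum_congr rfl fun r hr => ?_).trans
    (Finset.sum_subset (Finset.range_subset_range.2 (by omega : m + 1 ≤ n + m + 1))
      fun r _ hr => ?_)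
  · rw [if_pos (by simpa [Nat.lt_succ_iff] using hr), mul_comm, Polynomial.coeff_coe]
    rfl
  · rw [if_neg (by simpa [Nat.lt_succ_iff] using hr), zero_mul]

/-- The alternant. -/
noncomputable def alt (l : Fin n → ℕ) : MvPolynomial (Fin n) ℤ :=
  (Matrix.of fun j i : Fin n => (X i : MvPolynomial (Fin n) ℤ) ^ l j).det

/-- The Jacobi–Trudi determinant. -/
noncomputable def jt (l : Fin n → ℕ) : MvPolynomial (Fin n) ℤ :=
  (Matrix.of fun j r : Fin n => if r.val ≤ l j then hPol n (l j - r) else 0).det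

theorem alt_eq_jt_mul_aux (l : Fin n → ℕ) :
    alt l = jt l * (Matrix.of fun r i : Fin n => (ePol i).coeff r).det := by
  rw [alt, jt, ← det_mul]
  congr 1
  ext j i : 2
  rw [Matrix.mul_apply, of_apply, X_pow_eq_sum]
  rfl

theorem jt_delta : jt (fun j : Fin n => j.val) = 1 := by
  rw [jt, det_of_isLowerTriangular]
  · simp [hPol_zero]
  · intro i j hij
    have : i < j := hij
    rw [of_apply, if_neg (by rw [Fin.lt_def] at this; omega)]

/-- The Jacobi–Trudi identity. -/
theorem alt_eq_alt_mul_jt (l : Fin n → ℕ) : alt l = alt (fun j : Fin n => j.val) * jt l := by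
  rw [alt_eq_jt_mul_aux l, alt_eq_jt_mul_aux, jt_delta, one_mul, mul_comm]

theorem alt_eq_sum (l : Fin n → ℕ) :
    alt l = ∑ σ : Equiv.Perm (Fin n),
      monomial (Finsupp.equivFunOnFinite.symm fun i => l (σ i)) ((Equiv.Perm.sign σ : ℤ)) := by
  rw [alt, det_apply']
  refine Finset.sum_congr rfl fun σ _ => ?_
  rw [monomial_eq, Finsupp.prod_fintype _ _ (by simp)]
  simp

theorem jt_eq_sum (l : Fin n → ℕ) :
    jt l = ∑ κ : Equiv.Perm (Fin n), if ∀ i, (κ i).val ≤ l i then
      C (Equiv.Perm.sign κ : ℤ) * ∏ i, hPol n (l i - κ i) else 0 := by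
  rw [jt, ← det_transpose, det_apply']
  refine Finset.sum_congr rfl fun σ _ => ?_
  simp only [transpose_apply, of_apply, Finset.prod_ite_zero, Finset.mem_univ, true_imp_iff]
  split_ifs <;> simp

theorem coeff_alt {l l' : Fin n → ℕ} (hl : StrictMono l) (hl' : StrictMono l') :
    coeff (Finsupp.equivFunOnFinite.symm l') (alt l) = if l' = l then 1 else 0 := by
  rw [alt_eq_sum, coeff_sum, Finset.sum_eq_single 1]
  · simp [coeff_monomial, eq_comm]
  · intro σ _ hσ
    rw [coeff_monomial, if_neg]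
    intro h
    have h1 : (fun i => l (σ i)) = l' := Finsupp.equivFunOnFinite.symm.injective h
    have h2 : StrictMono σ := fun i j hij => hl.lt_iff_lt.1 (by
      have := hl' hij
      rw [← h1] at this
      exact this)
    exact hσ (Equiv.ext fun i => h2.apply_eq)
  · simp

/-- Orthonormality of the Jacobi–Trudi sums for the contingency table pairing. -/
theorem jt_orthonormal {l l' : Fin n → ℕ} (hl : StrictMono l) (hl' : StrictMono l') :
    (∑ κ : Equiv.Perm (Fin n), ∑ κ' : Equiv.Perm (Fin n),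
      if (∀ i, (κ i).val ≤ l i) ∧ ∀ i, (κ' i).val ≤ l' i then
        (Equiv.Perm.sign κ : ℤ) * (Equiv.Perm.sign κ' : ℤ) *
          (Nat.card (ContTab (fun i => l i - κ i) fun i => l' i - κ' i) : ℤ) else 0) =
      if l = l' then 1 else 0 := by
  rw [← coeff_alt hl' hl, alt_eq_alt_mul_jt, alt_eq_sum, Finset.sum_mul, coeff_sum]
  refine Finset.sum_congr rfl fun κ _ => ?_
  rw [coeff_monomial_mul']
  by_cases hκ : ∀ i, (κ i).val ≤ l i
  · rw [if_pos (by intro i; simpa using hκ i), jt_eq_sum, coeff_sum, Finset.mul_sum]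
    refine Finset.sum_congr rfl fun κ' _ => ?_
    by_cases hκ' : ∀ i, (κ' i).val ≤ l' i
    · rw [if_pos ⟨hκ, hκ'⟩, if_pos hκ', coeff_C_mul, ← coeff_prod_hPol, mul_assoc]
      congr 3
      ext i
      simp
    · rw [if_neg (fun h => hκ' h.2), if_neg hκ']
      simp
  · rw [if_neg (fun h => hκ fun i => by simpa using h i)]
    simp [hκ]

end Sym

section Chars

variable {n : ℕ} {G : Type*} [Group G]

/-- The Jacobi–Trudi alternating sum of a family of functions indexed by compositions. -/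
noncomputable def jtSum (π : (Fin n → ℕ) → G → ℂ) (ν : Fin n → ℕ) : G → ℂ :=
  ∑ κ : Equiv.Perm (Fin n), if ∀ i : Fin n, (κ i).val ≤ ν i + i.val then
    ((Equiv.Perm.sign κ : ℤ) : ℂ) • π (fun i => ν i + i.val - (κ i).val) else 0

theorem sum_shift {ν : Fin n → ℕ} {κ : Equiv.Perm (Fin n)}
    (h : ∀ i : Fin n, (κ i).val ≤ ν i + i.val) :
    ∑ i, (ν i + i.val - (κ i).val) = ∑ i, ν i := by
  have h1 : ∑ i, (ν i + i.val - (κ i).val) + ∑ i, (κ i).val = ∑ i, ν i + ∑ i : Fin n, i.val := by
    rw [← Finset.sum_add_distrib, ← Finset.sum_add_distrib]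
    exact Finset.sum_congr rfl fun i _ => Nat.sub_add_cancel (h i)
  rw [Equiv.sum_comp κ (fun i => i.val)] at h1
  omega

theorem strictMono_add {ν : Fin n → ℕ} (h : Monotone ν) : StrictMono fun i : Fin n => ν i + i.val :=
  fun _ _ hij => add_lt_add_of_le_of_lt (h hij.le) hij

theorem classInner_jtSum [Fintype G] (π : (Fin n → ℕ) → G → ℂ)
    (hπ : ∀ α β : Fin n → ℕ, ∑ i, α i = n → ∑ i, β i = n →
      classInner (π α) (π β) = Nat.card (ContTab α β))
    {ν ν' : Fin n → ℕ} (hν : Monotone ν) (hs : ∑ i, ν i = n) (hν' : Monotone ν')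
    (hs' : ∑ i, ν' i = n) :
    classInner (jtSum π ν) (jtSum π ν') = if ν = ν' then 1 else 0 := by
  have h := congrArg (Int.cast : ℤ → ℂ) (jt_orthonormal (strictMono_add hν) (strictMono_add hν'))
  have e : ((fun i : Fin n => ν i + i.val) = fun i : Fin n => ν' i + i.val) ↔ ν = ν' := by
    simp [funext_iff]
  simp only [e] at h
  push_cast at h
  rw [← h, jtSum, jtSum, H11.classInner_sum_left]
  refine Finset.sum_congr rfl fun κ _ => ?_
  rw [H11.classInner_sum_right]
  refine Finset.sum_congr rfl fun κ' _ => ?_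
  by_cases h1 : ∀ i : Fin n, (κ i).val ≤ ν i + i.val
  · by_cases h2 : ∀ i : Fin n, (κ' i).val ≤ ν' i + i.val
    · rw [if_pos h1, if_pos h2, if_pos ⟨h1, h2⟩, H11.classInner_smul_left,
        H11.classInner_smul_right, hπ _ _ ((sum_shift h1).trans hs) ((sum_shift h2).trans hs'),
        map_intCast, mul_assoc]
    · rw [if_neg h2, H11.classInner_zero_right, if_neg (fun h => h2 h.2)]
  · rw [if_neg h1, H11.classInner_zero_left, if_neg (fun h => h1 h.1)]

theorem isGen_jtSum [Finite G] (π : (Fin n → ℕ) → G → ℂ) (hπ : ∀ α, IsCharacter G (π α))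
    (ν : Fin n → ℕ) : IsGeneralizedCharacter G (jtSum π ν) := by
  refine H11.isGen_sum _ _ fun κ _ => ?_
  split_ifs
  · exact H11.isGen_intCast_smul (H11.isGen_of_isCharacter (hπ _)) _
  · exact H11.isGen_zero

theorem qint_sub {q m j : ℕ} (h : j ≤ m) :
    ((∑ l ∈ Finset.range m, q ^ l : ℕ) : ℂ) - ((∑ l ∈ Finset.range j, q ^ l : ℕ) : ℂ) =
      (q : ℂ) ^ j * ((∑ l ∈ Finset.range (m - j), q ^ l : ℕ) : ℂ) := by
  obtain ⟨d, rfl⟩ := Nat.exists_eq_add_of_le h
  rw [Finset.sum_range_add, Nat.add_sub_cancel_left]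
  push_cast
  simp [pow_add, Finset.mul_sum]

theorem qfac_mul_pow {q m k : ℕ} (h : k ≤ m) :
    (qfac q m : ℂ) * (q : ℂ) ^ (∑ j ∈ Finset.range k, j) = qfac q (m - k) *
      ∏ j ∈ Finset.range k, (((∑ l ∈ Finset.range m, q ^ l : ℕ) : ℂ) -
        ((∑ l ∈ Finset.range j, q ^ l : ℕ) : ℂ)) := by
  induction k with
  | zero => simp
  | succ k ih =>
    rw [Finset.sum_range_succ, pow_add, ← mul_assoc, ih (by omega), Finset.prod_range_succ,
      qint_sub (by omega : k ≤ m), show m - k = (m - (k + 1)) + 1 by omega, qfac,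
      Finset.prod_range_succ, ← qfac]
    push_cast
    ring

theorem sum_sum_range (n : ℕ) :
    ∑ k ∈ Finset.range n, ∑ j ∈ Finset.range k, j = n * (n - 1) * (n - 2) / 6 := by
  have h : ∀ n : ℕ, 6 * ∑ k ∈ Finset.range (n + 2), ∑ j ∈ Finset.range k, j =
      (n + 2) * (n + 1) * n := by
    intro n
    induction n with
    | zero => simp [Finset.sum_range_succ]
    | succ n ih =>
      rw [Finset.sum_range_succ]
      have := two_mul_sum_range_add (n + 2)
      nlinarith
  rcases n with _ | _ | n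
  · simp
  · simp
  · have := h n
    simp only [show n + 1 + 1 = n + 2 from rfl, show n + 2 - 1 = n + 1 from rfl,
      show n + 2 - 2 = n from rfl]
    omega

/-- The degree formula. -/
theorem jtSum_degree (π : (Fin n → ℕ) → G → ℂ) (q : ℕ)
    (hπ : ∀ α : Fin n → ℕ, ∑ i, α i = n → π α 1 * ∏ i, (qfac q (α i) : ℂ) = qfac q n)
    {ν : Fin n → ℕ} (hs : ∑ i, ν i = n) :
    jtSum π ν 1 * (q : ℂ) ^ (n * (n - 1) * (n - 2) / 6) * ∏ i : Fin n, (qfac q (ν i + i.val) : ℂ) =
      qfac q n * ∏ i : Fin n, ∏ j ∈ Finset.Ioi i,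
        (((∑ l ∈ Finset.range (ν j + j.val), q ^ l : ℕ) : ℂ) -
          ((∑ l ∈ Finset.range (ν i + i.val), q ^ l : ℕ) : ℂ)) := by
  set y : ℕ → ℂ := fun m => ((∑ l ∈ Finset.range m, q ^ l : ℕ) : ℂ) with hy
  have hv := Matrix.det_eval_matrixOfPolynomials_eq_det_vandermonde
    (fun i : Fin n => y (ν i + i.val))
    (fun k : Fin n => ∏ j ∈ Finset.range k.val, (Polynomial.X - Polynomial.C (y j)))
    (fun k => by rw [Polynomial.natDegree_finsetProd_X_sub_C_eq_card]; simp)
    (fun k => Polynomial.monic_prod_X_sub_C _ _)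
  rw [det_vandermonde] at hv
  change _ = _ * ∏ i : Fin n, ∏ j ∈ Finset.Ioi i, (y (ν j + j.val) - y (ν i + i.val))
  rw [hv, ← det_transpose, det_apply', jtSum, Finset.sum_apply, Finset.sum_mul, Finset.sum_mul,
    Finset.mul_sum]
  refine Finset.sum_congr rfl fun κ _ => ?_
  simp only [transpose_apply, of_apply, Polynomial.eval_prod, Polynomial.eval_sub,
    Polynomial.eval_X, Polynomial.eval_C]
  by_cases h : ∀ i : Fin n, (κ i).val ≤ ν i + i.val
  · rw [if_pos h, ← hπ _ ((sum_shift h).trans hs), ← sum_sum_range,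
      ← Fin.sum_univ_eq_sum_range (fun k => ∑ j ∈ Finset.range k, j) n,
      ← Equiv.sum_comp κ, ← Finset.prod_pow_eq_pow_sum, mul_assoc, ← Finset.prod_mul_distrib]
    simp only [fun i => (mul_comm _ _).trans (qfac_mul_pow (q := q) (h i)),
      Finset.prod_mul_distrib, Pi.smul_apply, smul_eq_mul]
    ring
  · rw [if_neg h]
    push Not at h
    obtain ⟨i, hi⟩ := h
    have : ∏ i : Fin n, ∏ j ∈ Finset.range (κ i).val, (y (ν i + i.val) - y j) = 0 :=
      Finset.prod_eq_zero (Finset.mem_univ i)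
        (Finset.prod_eq_zero (Finset.mem_range.2 hi) (sub_self _))
    rw [this]
    simp

theorem jtSum_degree_pos (π : (Fin n → ℕ) → G → ℂ) {q : ℕ} (hq : 0 < q)
    (hπ : ∀ α : Fin n → ℕ, ∑ i, α i = n → π α 1 * ∏ i, (qfac q (α i) : ℂ) = qfac q n)
    {ν : Fin n → ℕ} (hν : Monotone ν) (hs : ∑ i, ν i = n) : 0 < (jtSum π ν 1).re := by
  have h := jtSum_degree π q hπ hs
  set y : ℕ → ℝ := fun m => ((∑ l ∈ Finset.range m, q ^ l : ℕ) : ℝ) with hy
  have hy' : StrictMono y := by
    refine strictMono_nat_of_lt_succ fun m => ?_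
    simp only [hy, Finset.sum_range_succ, Nat.cast_lt]
    have := pow_pos hq m
    omega
  set A : ℝ := (q : ℝ) ^ (n * (n - 1) * (n - 2) / 6) * ∏ i : Fin n, (qfac q (ν i + i.val) : ℝ)
    with hA
  set B : ℝ := qfac q n * ∏ i : Fin n, ∏ j ∈ Finset.Ioi i, (y (ν j + j.val) - y (ν i + i.val))
    with hB
  have hApos : 0 < A := mul_pos (pow_pos (by exact_mod_cast hq) _)
    (Finset.prod_pos fun i _ => by exact_mod_cast qfac_pos _)
  have hBpos : 0 < B := mul_pos (by exact_mod_cast qfac_pos _)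
    (Finset.prod_pos fun i _ => Finset.prod_pos fun j hj =>
      sub_pos.2 (hy' (strictMono_add hν (Finset.mem_Ioi.1 hj))))
  have h2 : jtSum π ν 1 * (A : ℂ) = (B : ℂ) := by
    rw [hA, hB, hy]
    push_cast at h ⊢
    rw [← h, ← mul_assoc]
  have h3 := congrArg Complex.re h2
  simp only [Complex.mul_re, Complex.ofReal_re, Complex.ofReal_im, mul_zero, sub_zero] at h3
  exact (mul_pos_iff_of_pos_right hApos).1 (h3 ▸ hBpos)

end Chars

section GLn

variable {n : ℕ} {F : Type*} [Field F]

theorem unipotentCharacterGL_eq (ν : Fin n → ℕ) :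
    unipotentCharacterGL n F ν = jtSum (fun α => fixedPointCharacter (parabolicGL n F α)) ν := by
  funext g
  rw [unipotentCharacterGL, jtSum, Finset.sum_apply]
  refine Finset.sum_congr rfl fun κ _ => ?_
  split_ifs <;> simp

theorem parabolic_degree [Finite F] (α : Fin n → ℕ) (hα : ∑ i, α i = n) :
    fixedPointCharacter (parabolicGL n F α) 1 * ∏ i, (qfac (Nat.card F) (α i) : ℂ) =
      qfac (Nat.card F) n := by
  rw [fixedPointCharacter_eq_permChar, H11.permChar_one]
  exact_mod_cast index_parabolicGL hα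

theorem classInner_unipotentCharacterGL [Fintype (GL (Fin n) F)] {ν ν' : Fin n → ℕ}
    (hν : Monotone ν) (hs : ∑ i, ν i = n) (hν' : Monotone ν') (hs' : ∑ i, ν' i = n) :
    classInner (unipotentCharacterGL n F ν) (unipotentCharacterGL n F ν') =
      if ν = ν' then 1 else 0 := by
  rw [unipotentCharacterGL_eq, unipotentCharacterGL_eq]
  exact classInner_jtSum _ (fun _ _ => classInner_parabolicGL) hν hs hν' hs'

theorem isIrr_unipotentCharacterGL [Finite F] {ν : Fin n → ℕ} (hν : Monotone ν)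
    (hs : ∑ i, ν i = n) : IsIrrCharacter (GL (Fin n) F) (unipotentCharacterGL n F ν) := by
  have := Fintype.ofFinite (GL (Fin n) F)
  refine H11.isIrrCharacter_of_isGen ?_ (by rw [classInner_unipotentCharacterGL hν hs hν hs]; simp) ?_
  · rw [unipotentCharacterGL_eq]
    exact isGen_jtSum _ (fun α => H11.isCharacter_permChar _) ν
  · rw [unipotentCharacterGL_eq]
    exact (jtSum_degree_pos _ Nat.card_pos parabolic_degree hν hs).le

end GLn

end Cfsg.Agent.H75
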