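import Cfsg.Agent.H35.S4Defs
import Cfsg.Agent.H27.EndKit

/-! Standard subgroups of type `Sp₄(q)`: `t` is not fused into `L`, and fusion in `N(⟨t⟩ U)`. -/

set_option autoImplicit false

namespace Cfsg.Agent.H75.S4A

open Cfsg Cfsg.Agent.H63 Cfsg.Agent.H63.SL Cfsg.Agent.H35.S4 Subgroup
open Cfsg.Agent.H27.End (mem_C mem_C1 comm_of_C conj_mem mem_N_of_conj comm_mem_left)
open scoped commutatorElement

universe u v

variable {G : Type u} [Group G]

/-- The elements of `⟨t⟩ H` for an involution `t` centralizing `H`. -/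
theorem mem_hat {H : Subgroup G} {t g : G} (h2 : t * t = 1) (hc : ∀ h ∈ H, Commute t h) :
    g ∈ zpowers t ⊔ H ↔ g ∈ H ∨ t * g ∈ H := by
  have e : ∀ a, t * a ∈ H → t * (t * a) = a := fun a _ => by rw [← mul_assoc, h2, one_mul]
  have cm : ∀ a, t * a ∈ H → Commute t a := fun a h => e a h ▸ (Commute.refl t).mul_right (hc _ h)
  let J : Subgroup G :=
    { carrier := {g | g ∈ H ∨ t * g ∈ H}
      one_mem' := .inl (one_mem _)
      mul_mem' := by
        rintro a b (ha | ha) (hb | hb)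
        · exact .inl (mul_mem ha hb)
        · exact .inr (by rw [← mul_assoc, (hc a ha).eq, mul_assoc]; exact mul_mem ha hb)
        · exact .inr (by rw [← mul_assoc]; exact mul_mem ha hb)
        · refine .inl ?_
          have := mul_mem ha hb
          rwa [(cm a ha).eq, mul_assoc, e b hb] at this
      inv_mem' := by
        rintro a (ha | ha)
        · exact .inl (inv_mem ha)
        · refine .inr ?_
          have := inv_mem ha
          rwa [(cm a ha).eq, mul_inv_rev, inv_eq_of_mul_eq_one_right h2] at this }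
  refine ⟨fun h => (sup_le (zpowers_le.2 (.inr (h2 ▸ one_mem H))) (fun _ h => .inl h) :
    zpowers t ⊔ H ≤ J) h, ?_⟩
  rintro (h | h)
  · exact mem_sup_right h
  · exact e g h ▸ mul_mem (mem_sup_left (mem_zpowers t)) (mem_sup_right h)

variable {F : Type v} [Field F] {L : Subgroup G} {x : ZMod 8 → F → G} {t : G}

theorem xsq (h : Pin2 x) (i : ZMod 8) (a : F) : x i a * x i a = 1 := by
  have h0 : x i 0 = 1 := by simpa using (h.add i 0 0).symm
  rw [← h.add, ← two_mul, h.two, zero_mul, h0]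

theorem A3_comm (h : Pin2 x) (i : ZMod 8) : A3 x i ≤ C[A3 x i] := by
  have c0 : ∀ i a b, Commute (x i a) (x i b) := fun i a b => by
    rw [Commute, SemiconjBy, ← h.add, ← h.add, add_comm]
  have c1 := h.c1 (i - 1)
  have c2 := h.c2 (i - 1)
  rw [sub_add_cancel] at c1
  rw [show i - 1 + 2 = i + 1 by ring] at c2
  have k : ∀ {j l : ZMod 8}, (∀ a b, Commute (x j a) (x l b)) → XR x j ≤ C[XR x l] := fun H =>
    (closure_le _).2 (by
      rintro _ ⟨a, rfl⟩
      exact le_centralizer_iff.1 ((closure_le _).2 (by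
        rintro _ ⟨b, rfl⟩
        exact mem_C fun _ hy => by
          obtain ⟨n, rfl⟩ := hy
          exact ((H a b).symm.zpow_right n))) (mem_zpowers _))
  refine sup_le (sup_le ?_ ?_) ?_ <;>
    refine le_centralizer_iff.1 (sup_le (sup_le (k ?_) (k ?_)) (k ?_))
  exacts [c0 _, fun a b => (c1 b a).symm, fun a b => (c2 b a).symm, c1, c0 _,
    fun a b => (h.c1 i b a).symm, c2, h.c1 i, c0 _]

theorem A3_sq (h : Pin2 x) (kp : KP L x) (i : ZMod 8) {g : G} (hg : g ∈ A3 x i) : g * g = 1 := by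
  obtain ⟨a, b, c, rfl⟩ := (kp.memA i g).1 hg
  have m1 : x (i - 1) a ∈ A3 x i := mem_sup_left (mem_sup_left ((kp.memX _ _).2 ⟨_, rfl⟩))
  have m2 : x i b ∈ A3 x i := mem_sup_left (mem_sup_right ((kp.memX _ _).2 ⟨_, rfl⟩))
  have m3 : x (i + 1) c ∈ A3 x i := mem_sup_right ((kp.memX _ _).2 ⟨_, rfl⟩)
  rw [← pow_two, (comm_of_C (A3_comm h i (mul_mem m1 m2)) m3).mul_pow,
    (comm_of_C (A3_comm h i m1) m2).mul_pow, pow_two, pow_two, pow_two, xsq h, xsq h, xsq h,
    one_mul, one_mul]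

theorem Z_cent (h : Pin2 x) : Zp x ≤ C[Up x] :=
  le_centralizer_iff.1 (sup_le
    ((A3_comm h 2).trans (centralizer_le (sup_le (le_sup_right.trans le_sup_left) le_sup_right :
      Zp x ≤ A3 x 2)))
    ((A3_comm h 3).trans (centralizer_le (le_sup_left : Zp x ≤ A3 x 3))))

theorem tt (tc : Tc L t) : t * t = 1 := by rw [← pow_two, ← tc.t2, pow_orderOf_eq_one]

theorem t_notMem (hM : Mod L x) (tc : Tc L t) : t ∉ L := fun h => by
  have := tc.t2
  rw [mem_bot.1 (hM.zL ▸ ⟨h, tc.tc⟩ : t ∈ (⊥ : Subgroup G)), orderOf_one] at this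
  exact absurd this (by decide)

variable [Finite G] (hM : Mod L x) (kp : KP L x) (kn : KN L x) (tc : Tc L t)
include hM kp kn tc

theorem key {g : G} (h1 : Commute (g * t * g⁻¹) t) (h2 : g * t * g⁻¹ ∈ C[Up x]) {w : G}
    (hw : w ∈ zpowers t ⊔ Up x) : g⁻¹ * w * g ∈ zpowers t ⊔ L := by
  have k : ∀ i, A3 x i ≤ Up x → zpowers t ⊔ A3 x i ≤
      (zpowers t ⊔ L).comap (MulAut.conj g⁻¹).toMonoidHom := fun i hi => by
    have hc : ∀ a ∈ A3 x i, Commute t a := fun a ha => comm_of_C tc.tc (kp.syl.le (hi ha))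
    refine (kn.big t tc (cj g⁻¹ (zpowers t ⊔ A3 x i)) ?_ ?_ ?_).elim fun l ⟨hl, h⟩ w hw => ?_
    rotate_right
    · have h3 : cj l (cj g⁻¹ (zpowers t ⊔ A3 x i)) ≤ zpowers t ⊔ L := by
        rcases h with h | h <;> rw [h] <;> refine sup_le_sup_left (le_trans ?_ kp.syl.le) _
        exacts [le_sup_left, le_sup_right]
      have h4 := conj_mem (le_normalizer (mem_sup_right (inv_mem hl)))
        (h3 (mem_map_of_mem _ (mem_map_of_mem _ hw)))
      simpa [mul_assoc] using h4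
    · rintro _ ⟨w, hw, rfl⟩
      have : Commute w (g * t * g⁻¹) := (sup_le (zpowers_le.2 (mem_C1.2 h1.symm))
        (fun a ha => mem_C1.2 (comm_of_C h2 (hi ha)).symm) : _ ≤ C1[g * t * g⁻¹]) hw |> mem_C1.1
      simpa [mul_assoc] using mem_C1.2 (this.map (MulAut.conj g⁻¹))
    · rintro _ ⟨w, hw, rfl⟩
      rw [← map_mul, show w * w = 1 from ?_, map_one]
      rcases (mem_hat (tt tc) hc).1 hw with h | h
      · exact A3_sq hM.pin kp i h
      · have h5 := A3_sq hM.pin kp i h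
        have h6 := (hc _ h).mul_pow 2
        rwa [← mul_assoc, tt tc, one_mul, pow_two, pow_two, pow_two, tt tc, h5, one_mul] at h6
    · rw [cj, card_map_of_injective (MulAut.conj g⁻¹).injective,
        H8.card_eq_card_mul_relIndex (le_sup_right : A3 x i ≤ _), kp.cardA, mul_comm]
      refine Nat.mul_le_mul_left _ ((Nat.two_le_iff _).2 ⟨index_ne_zero_of_finite, fun e => ?_⟩)
      exact t_notMem hM tc (kp.syl.le (hi (relIndex_eq_one.1 e (mem_sup_left (mem_zpowers t)))))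
  have := (sup_le (le_sup_left.trans (k 2 le_sup_left)) (sup_le (le_sup_right.trans
    (k 2 le_sup_left)) (le_sup_right.trans (k 3 le_sup_right))) : zpowers t ⊔ Up x ≤ _) hw
  simpa using this

theorem noL : ∀ d ∈ Dt t, d ∉ L := by
  rintro _ ⟨g, rfl⟩ hd
  have hc : ∀ a ∈ L, Commute t a := fun a ha => comm_of_C tc.tc ha
  obtain ⟨l, hl, hz⟩ := kn.cls _ hd (by rw [conj_mul, tt tc, mul_one, mul_inv_cancel])
  rw [show l * (g * t * g⁻¹) * l⁻¹ = l * g * t * (l * g)⁻¹ by group] at hz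
  generalize l * g = n at hz
  have ZU : Zp x ≤ Up x := kp.der ▸ commutator_le.2 fun a ha b hb =>
    comm_mem_left (le_normalizer hb) ha
  have k := fun w hw => (mem_hat (tt tc) hc).1 (key hM kp kn tc (hc _ (kp.syl.le (ZU hz))).symm
    (Z_cent hM.pin hz) (w := w) (mem_sup_right hw))
  have dec : ∀ a, a ∈ L ∨ t * a ∈ L → ∃ l ∈ L, ∃ s, (∀ b ∈ L, Commute s b) ∧ Commute s t ∧
      (s = 1 ∨ s = t) ∧ a = s * l := by
    rintro a (h | h)
    · exact ⟨a, h, 1, fun _ _ => Commute.one_left _, Commute.one_left _, .inl rfl, (one_mul a).symm⟩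
    · exact ⟨_, h, t, hc, Commute.refl t, .inr rfl, by rw [← mul_assoc, tt tc, one_mul]⟩
  have : ⁅Up x, Up x⁆ ≤ L.comap (MulAut.conj n⁻¹).toMonoidHom := commutator_le.2 fun a ha b hb => by
    rw [mem_comap, map_commutatorElement]
    obtain ⟨a', ha', s, s1, s2, -, e⟩ := dec _ (k a ha)
    obtain ⟨b', hb', r, r1, -, r3, e'⟩ := dec _ (k b hb)
    have sr : Commute s r := by rcases r3 with rfl | rfl; exacts [Commute.one_right _, s2]
    have e2 : ⁅s * a', r * b'⁆ = ⁅a', b'⁆ := by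
      have h1 : s * a' * (r * b') * (s * a')⁻¹ = r * (a' * b' * a'⁻¹) := by
        rw [← conj_mul, (sr.mul_left (r1 _ ha').symm).eq, mul_inv_cancel_right, mul_inv_rev,
          mul_assoc s, mul_assoc s, ← mul_assoc (a' * b'), ← mul_assoc s,
          (s1 _ (mul_mem (mul_mem ha' hb') (inv_mem ha'))).eq, mul_inv_cancel_right]
      rw [commutatorElement_def, h1, mul_inv_rev, mul_assoc r, ← mul_assoc _ b'⁻¹, ← mul_assoc r,
        ← commutatorElement_def, (r1 _ (comm_mem_left (le_normalizer hb') ha')).eq,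
        mul_inv_cancel_right]
    have := comm_mem_left (le_normalizer hb') ha'
    rw [← e2, ← e, ← e'] at this
    simpa using this
  have h := this (kp.der ▸ hz : n * t * n⁻¹ ∈ _)
  exact t_notMem hM tc (by simpa [mul_assoc] using h)

theorem nw : NW x t := by
  rintro z hz ⟨g, e⟩
  have hc : ∀ a ∈ L, Commute t a := fun a ha => comm_of_C tc.tc ha
  have hU : ∀ a ∈ Up x, Commute t a := fun a ha => hc a (kp.syl.le ha)
  have ZU : Zp x ≤ Up x := kp.der ▸ commutator_le.2 fun a ha b hb =>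
    comm_mem_left (le_normalizer hb) ha
  have k := fun w hw => (mem_hat (tt tc) hc).1 (key hM kp kn tc (g := g)
    (e ▸ (Commute.refl t).mul_left (hU z (ZU hz)).symm)
    (e ▸ mul_mem (mem_C hU) (Z_cent hM.pin hz)) (w := w) hw)
  have p : IsPGroup 2 ↥(zpowers t ⊔ Up x) :=
    (H27.End.isPGroup_zpowers (H27.End.is2_of_sq (tt tc))).to_sup_of_normal_right' kp.syl.isPGroup
      (zpowers_le.2 (centralizer_le_normalizer _ (mem_C hU)))
  obtain ⟨l, hl, h⟩ := kp.syl.exists_conj_le ((H8.isPGroup_conj_smul p g⁻¹).to_inf_left (K := L))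
    inf_le_right
  have h' : ∀ w ∈ zpowers t ⊔ Up x, g⁻¹ * w * g ∈ L → l * (g⁻¹ * w * g) * l⁻¹ ∈ Up x :=
    fun w hw h1 => h (H8.conj_mem_conj_smul.2 ⟨H8.mem_conj_smul.2 (by simpa [mul_assoc]), h1⟩)
  have lt : l * t * l⁻¹ = t := by rw [← (hc l hl).eq, mul_inv_cancel_right]
  refine ⟨(l * g⁻¹)⁻¹, inv_mem (mem_N_of_conj fun w hw => ?_), ?_⟩
  · rw [show l * g⁻¹ * w * (l * g⁻¹)⁻¹ = l * (g⁻¹ * w * g) * l⁻¹ by group]
    refine (mem_hat (tt tc) hU).2 ((k w hw).imp (h' w hw) fun h1 => ?_)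
    have e1 : t * (g⁻¹ * w * g) = g⁻¹ * (t * z * w) * g := by rw [e]; group
    rw [← lt, conj_mul, e1]
    exact h' _ (mul_mem (mul_mem (mem_sup_left (mem_zpowers t)) (mem_sup_right (ZU hz))) hw)
      (e1 ▸ h1)
  · rw [e, ← lt]
    have : l * t * l⁻¹ = t := lt
    calc _ = g * t * g⁻¹ := by group
      _ = _ := by rw [this]

omit hM kp kn tc in
theorem stA1 : StA1Stmt.{u, v} := fun _ _ hM kp kn _ tc => ⟨noL hM kp kn tc, nw hM kp kn tc⟩

end Cfsg.Agent.H75.S4A
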