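import Mathlib
import Cfsg.Agent.H75.ModCl
import Cfsg.Agent.H11.PermChar
import Cfsg.Agent.S0250
import Cfsg.Agent.S0299
import Cfsg.Agent.S0305
import Cfsg.Agent.S0306
import Cfsg.Agent.S2566

/-!
# Groups with a character of Steinberg type
-/

set_option autoImplicit false

namespace Cfsg.Agent.H75

open scoped commutatorElement

universe u v

/-- `G` has an irreducible character of degree `|G|_p` vanishing on the `p`-singular elements. -/
def HasSt (p : ℕ) (G : Type*) [Group G] : Prop :=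
  ∃ χ : G → ℂ, IsIrrCharacter G χ ∧ χ 1 = (p ^ (Nat.card G).factorization p : ℕ) ∧
    ∀ g, p ∣ orderOf g → χ g = 0

section

variable {p : ℕ} [hp : Fact p.Prime] {G : Type*} {H : Type*} [Group G] [Group H] [Finite G]

theorem HasSt.sylow (h : HasSt p G) : ∃ χ : G → ℂ, IsIrrCharacter G χ ∧ ∀ P : Sylow p G,
    χ 1 = Nat.card P ∧ ∀ x : G, x ∈ P → x ≠ 1 → χ x = 0 := by
  obtain ⟨χ, h1, h2, h3⟩ := h
  exact ⟨χ, h1, fun P => ⟨by rw [h2, P.card_eq_multiplicity], fun x hx hx1 =>
    h3 x (H17.dvd_orderOf_of_mem_pGroup P.isPGroup' hx hx1)⟩⟩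

theorem Model.hasSt {Γ : Type u} [Group Γ] [Finite Γ] (M : Model.{u, v} p Γ) : HasSt p Γ := by
  obtain ⟨χ, h1, h2, h3, -⟩ := M.exists_st
  exact ⟨χ, h1, by rw [h2, M.card_U], h3⟩

theorem HasSt.of_surj (h : HasSt p H) (π : G →* H) (hπ : Function.Surjective π)
    (hk : ∀ g, π g = 1 → ¬ p ∣ orderOf g) : HasSt p G := by
  have := Finite.of_surjective π hπ
  obtain ⟨χ, h1, h2, h3⟩ := h
  refine ⟨fun g => χ (π g), H11.isIrrCharacter_comp_of_surjective h1 π hπ, ?_, fun g hg => h3 _ ?_⟩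
  · have h4 : ¬ p ∣ Nat.card π.ker := fun h => by
      obtain ⟨x, hx⟩ := exists_prime_orderOf_dvd_card' p h
      exact hk x x.2 (by rw [Subgroup.orderOf_coe, hx])
    beta_reduce
    rw [map_one, h2, ← π.ker.index_mul_card, Subgroup.index_ker, MonoidHom.range_eq_top.2 hπ,
      Subgroup.card_top, Nat.factorization_mul Nat.card_pos.ne' Nat.card_pos.ne', Finsupp.add_apply,
      Nat.factorization_eq_zero_of_not_dvd h4, add_zero]
  · by_contra h
    have h5 := hk (g ^ orderOf (π g)) (by rw [map_pow, pow_orderOf_eq_one])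
    have h6 : orderOf g ∣ orderOf (π g) * orderOf (g ^ orderOf (π g)) :=
      orderOf_dvd_of_pow_eq_one (by rw [pow_mul, pow_orderOf_eq_one])
    exact ((Nat.Prime.dvd_mul hp.out).1 (hg.trans h6)).elim h h5

theorem HasSt.of_equiv (h : HasSt p H) (e : G ≃* H) : HasSt p G :=
  h.of_surj e e.surjective fun g hg => by
    rw [(map_eq_one_iff e e.injective).1 hg, orderOf_one]
    exact hp.out.not_dvd_one

theorem HasSt.of_subsingleton [Subsingleton G] : HasSt p G :=
  ⟨fun _ => 1, H11.isIrrCharacter_one, by simp [Nat.card_unique], fun g hg => by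
    rw [Subsingleton.elim g 1, orderOf_one] at hg
    exact absurd hg hp.out.not_dvd_one⟩

theorem HasSt.prod [Finite H] (h : HasSt p G) (h' : HasSt p H) : HasSt p (G × H) := by
  obtain ⟨χ, h1, h2, h3⟩ := h
  obtain ⟨ψ, h4, h5, h6⟩ := h'
  refine ⟨fun x => χ x.1 * ψ x.2, H11.isIrrCharacter_prod_mul h1 h4, ?_, fun g hg => ?_⟩
  · beta_reduce
    rw [Prod.fst_one, Prod.snd_one, h2, h5, Nat.card_prod,
      Nat.factorization_mul Nat.card_pos.ne' Nat.card_pos.ne', Finsupp.add_apply, pow_add,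
      Nat.cast_mul]
  · rw [Prod.orderOf] at hg
    beta_reduce
    rcases (Nat.Prime.dvd_mul hp.out).1 (hg.trans (Nat.lcm_dvd_mul _ _)) with h | h
    · rw [h3 _ h, zero_mul]
    · rw [h6 _ h, mul_zero]

end

theorem subsingleton_of_dihedral {G : Type*} [Group G] {n : ℕ} (e : G ≃* DihedralGroup n) :
    Subsingleton (commutator G ⧸ Subgroup.center (commutator G)) := by
  have h1 : ∀ g ∈ commutator G, ∃ i, e g = .r i := fun g hg => by
    have : commutator (DihedralGroup n) ≤ (⟨⟨⟨Set.range .r, by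
        rintro _ _ ⟨i, rfl⟩ ⟨j, rfl⟩; exact ⟨_, rfl⟩⟩, ⟨0, rfl⟩⟩, by
        rintro _ ⟨i, rfl⟩; exact ⟨_, rfl⟩⟩ : Subgroup (DihedralGroup n)) := by
      refine Subgroup.commutator_le.2 ?_
      rintro (i | i) - (j | j) - <;> exact ⟨_, rfl⟩
    obtain ⟨i, hi⟩ := this ((H28.mem_commutator_equiv e g).2 hg)
    exact ⟨i, hi.symm⟩
  refine QuotientGroup.subsingleton_iff.2 (eq_top_iff.2 fun x _ => Subgroup.mem_center_iff.2 fun y =>
    Subtype.ext (e.injective ?_))
  obtain ⟨i, hi⟩ := h1 x x.2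
  obtain ⟨j, hj⟩ := h1 y y.2
  simp [hi, hj, add_comm]

section Exc

open S2566 Equiv

local notation "O4" => isometryGroup (ZMod 2) (quadFormPlus 2 (ZMod 2))

/-- The subgroup of index two of `O₄⁺(2)`. -/
def exF : Perm (Fin 3) × Perm (Fin 3) →* O4 := homL.noncommCoprod homR hom_comm

theorem exF_inj : Function.Injective exF := by
  rw [injective_iff_map_eq_one]
  rintro ⟨σ, τ⟩ h
  obtain ⟨rfl, rfl⟩ := hom_inj σ τ h
  rfl

theorem trO_mul_self : trO * trO = 1 := Subtype.ext (Units.ext tr_mul_tr)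

theorem trO_exF (x : Perm (Fin 3) × Perm (Fin 3)) : trO * exF x * trO⁻¹ = exF x.swap := by
  have h1 : ∀ σ, trO * homR σ * trO⁻¹ = homL σ := fun σ => by
    rw [← hom_conj, inv_eq_of_mul_eq_one_right trO_mul_self]
    calc _ = (trO * trO) * homL σ * (trO * trO) := by group
      _ = _ := by rw [trO_mul_self, one_mul, mul_one]
  change trO * (homL x.1 * homR x.2) * trO⁻¹ = homL x.2 * homR x.1
  rw [← h1 x.2, ← hom_conj x.1, (hom_comm x.1 x.2).eq]
  group

theorem exF_cases (g : O4) : ∃ x, g = exF x ∨ g = exF x * trO := by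
  have h3 : Nat.card exF.range = 36 := by
    rw [← Nat.card_congr (MonoidHom.ofInjective exF_inj).toEquiv, Nat.card_prod, Nat.card_perm,
      Nat.card_fin]
    decide
  have h4 := exF.range.index_mul_card
  rw [h3, S2566.result.1] at h4
  have h5 : trO ∉ exF.range := by
    rintro ⟨x, hx⟩
    have h6 := trO_exF (swap 0 1, 1)
    rw [← hx, ← map_inv, ← map_mul, ← map_mul] at h6
    have h7 := congrArg Prod.snd (exF_inj h6)
    simp at h7
    exact absurd h7 (by decide)
  by_cases hg : g ∈ exF.range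
  · obtain ⟨x, rfl⟩ := hg
    exact ⟨x, Or.inl rfl⟩
  · obtain ⟨x, hx⟩ := (Subgroup.mul_mem_iff_of_index_two (by omega : exF.range.index = 2)
      (a := g) (b := trO)).2 (iff_of_false hg h5)
    exact ⟨x, Or.inr (by rw [hx, mul_assoc, trO_mul_self, mul_one])⟩

theorem exF_comm {g : O4} (hg : g ∈ commutator O4) :
    ∃ x, Perm.sign x.1 = Perm.sign x.2 ∧ exF x = g := by
  have : commutator O4 ≤ ((Perm.sign.comp (MonoidHom.fst _ _)).eqLocus
      (Perm.sign.comp (MonoidHom.snd _ _))).map exF := by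
    have hs : ∀ a b : ℤˣ, a * b * a * b = 1 := by decide
    have hs' : ∀ a b : ℤˣ, a * (a * b) = b := by decide
    have hm : ∀ z : Perm (Fin 3) × Perm (Fin 3), Perm.sign z.1 = Perm.sign z.2 →
      z ∈ (Perm.sign.comp (MonoidHom.fst _ _)).eqLocus (Perm.sign.comp (MonoidHom.snd _ _)) :=
      fun _ h => h
    refine Subgroup.commutator_le.2 fun a _ b _ => ?_
    obtain ⟨x, rfl | rfl⟩ := exF_cases a <;> obtain ⟨y, rfl | rfl⟩ := exF_cases b
    · refine ⟨⁅x, y⁆, hm _ ?_, map_commutatorElement ..⟩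
      simp [commutatorElement_def, hs]
    · refine ⟨x * y * x⁻¹.swap * y⁻¹, hm _ ?_, ?_⟩
      · simp [mul_comm, mul_left_comm, hs']
      · simp only [map_mul, map_inv, ← trO_exF, commutatorElement_def]
        group
    · refine ⟨x * y.swap * x⁻¹ * y⁻¹, hm _ ?_, ?_⟩
      · simp [mul_comm, mul_left_comm, hs']
      · simp only [map_mul, map_inv, ← trO_exF, commutatorElement_def]
        group
    · refine ⟨x * (y * x⁻¹).swap * y⁻¹, hm _ ?_, ?_⟩
      · simp [mul_comm, mul_left_comm, hs']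
      · simp only [map_mul, map_inv, ← trO_exF, commutatorElement_def]
        group
  exact this hg

theorem hasSt_exc : HasSt 2 (POmega (ZMod 2) (quadFormPlus 2 (ZMod 2))) := by
  have h1 : commutator O4 ≤ exF.range := fun g hg => by
    obtain ⟨x, -, rfl⟩ := exF_comm hg
    exact ⟨x, rfl⟩
  let π : commutator O4 →* Perm (Fin 3) := (MonoidHom.fst _ _).comp
    ((MonoidHom.ofInjective exF_inj).symm.toMonoidHom.comp (Subgroup.inclusion h1))
  have h2 : ∀ (g : commutator O4) x, exF x = g → π g = x.1 := fun g x h => by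
    refine congrArg Prod.fst ((MonoidHom.ofInjective exF_inj).symm_apply_eq.2 (Subtype.ext h.symm))
  have h3 : Function.Surjective π := fun σ => by
    refine ⟨⟨⁅exF (σ, 1), trO⁆, Subgroup.commutator_mem_commutator trivial trivial⟩,
      (h2 _ ((σ, 1) * (σ, 1)⁻¹.swap) ?_).trans (by simp)⟩
    simp only [map_mul, map_inv, ← trO_exF, commutatorElement_def]
    group
  have h4 : Subgroup.center (commutator O4) ≤ π.ker := fun z hz => by
    have h5 : ∀ τ : Perm (Fin 3), (∀ σ, σ * τ = τ * σ) → τ = 1 := by decide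
    refine h5 _ fun σ => ?_
    obtain ⟨g, rfl⟩ := h3 σ
    rw [← map_mul, ← map_mul, Subgroup.mem_center_iff.1 hz]
  obtain ⟨e⟩ := S0250.result (F := ZMod 2) (by simp)
  obtain ⟨M, -⟩ := exists_modelSL (K := ZMod 2) 2 (n := 2) le_rfl
  refine (M.hasSt.of_equiv e.symm).of_surj (QuotientGroup.lift _ π h4)
    (fun σ => ?_) fun g hg => ?_
  · obtain ⟨g, rfl⟩ := h3 σ
    exact ⟨g, rfl⟩
  · obtain ⟨g, rfl⟩ := QuotientGroup.mk_surjective g
    obtain ⟨x, h5, h6⟩ := exF_comm g.2
    have h7 : x.1 = 1 := (h2 g x h6).symm.trans hg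
    have h8 : ∀ τ : Perm (Fin 3), Perm.sign (1 : Perm (Fin 3)) = Perm.sign τ → τ ^ 3 = 1 := by
      decide
    have h9 : g ^ 3 = 1 := Subtype.ext (by
      rw [Subgroup.coe_pow, ← h6, ← map_pow, show x ^ 3 = 1 from
        Prod.ext (by simp [h7]) (h8 _ (h7 ▸ h5)), map_one, Subgroup.coe_one])
    intro h
    exact absurd (h.trans (orderOf_dvd_of_pow_eq_one (by rw [← QuotientGroup.mk_pow, h9]; rfl)))
      (by decide)

end Exc

variable {F : Type u} [Field F] [Fintype F] (p : ℕ) [hp : Fact p.Prime] [CharP F p]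

theorem hasSt_plus {m : ℕ} (hm : 1 ≤ m) : HasSt p (POmega F (quadFormPlus m F)) := by
  obtain rfl | rfl | h3 : m = 1 ∨ m = 2 ∨ 3 ≤ m := by omega
  · obtain ⟨e⟩ := S0305.result (F := F) rfl
    have := subsingleton_of_dihedral e
    exact .of_subsingleton
  · rcases eq_or_lt_of_le (show 2 ≤ Fintype.card F from Fintype.one_lt_card) with h | h
    · obtain ⟨n, -, hn⟩ := FiniteField.card F p
      obtain rfl : p = 2 := ((Nat.Prime.pow_eq_iff Nat.prime_two).1 (hn.symm.trans h.symm)).1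
      let f := (ZMod.ringEquivOfPrime F Nat.prime_two h.symm).symm
      exact hasSt_exc.of_equiv (H28.pomegaEquiv (H28.isometryEquiv f _ _ (H28.quadFormPlus_map f 2)))
    · obtain ⟨e⟩ := S0299.result (F := F) h
      obtain ⟨M, -⟩ := exists_modelPSL (K := F) p (n := 2) le_rfl
      exact (M.hasSt.prod M.hasSt).of_equiv e
  · obtain ⟨M, -⟩ := exists_modelPlus (F := F) p h3
    exact M.hasSt

theorem hasSt_minus (m : ℕ) {a b : F}
    (hab : ∀ z₁ z₂ : F, z₁ ^ 2 + a * z₁ * z₂ + b * z₂ ^ 2 = 0 → z₁ = 0 ∧ z₂ = 0) :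
    HasSt p (POmega F (quadFormMinus m F a b)) := by
  rcases m.eq_zero_or_pos with rfl | hm
  · obtain ⟨e⟩ := S0306.result (F := F) rfl a b hab
    have := subsingleton_of_dihedral e
    exact .of_subsingleton
  · obtain ⟨M, -⟩ := exists_modelMinus p hm hab
    exact M.hasSt

end Cfsg.Agent.H75
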