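import Cfsg.Agent.H75.DgM3a
import Cfsg.Agent.H53.DgKit

/-!
# A character of the eight dimensional orthogonal group of minus type over three elements
-/

set_option autoImplicit false

namespace Cfsg.Agent.H75.DgM

open Module Cfsg.Agent.H26 Cfsg.Agent.H26.PForm Cfsg.Agent.H78 Cfsg.Agent.H53.Dg
open scoped ComplexConjugate

theorem sum_zero {H : Type} [Group H] [Finite H] (K : Subgroup H) (δ M : H → ℂ)
    (h1 : ∀ h ∈ K, δ h = 1) (h2 : ∀ h, h ∉ K → δ h = -1) (hm : ∀ a b, δ (a * b) = δ a * δ b)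
    (γ : H) (hγ : γ ∉ K) (a : ∑ᶠ h, M h = 3 * Nat.card H) (b : ∑ᶠ h : K, M h = 3 * Nat.card K) :
    ∑ᶠ h, δ h * M h = 0 := by
  classical
  have := Fintype.ofFinite H
  have key : ∀ Φ : H → ℂ, ∑ h, δ h * Φ h = 2 * ∑ h : K, Φ h - ∑ h, Φ h := fun Φ => by
    rw [← Finset.sum_subtype (Finset.univ.filter (· ∈ K)) (by simp) Φ, Finset.sum_filter,
      Finset.mul_sum, ← Finset.sum_sub_distrib]
    refine Finset.sum_congr rfl fun h _ => ?_
    split_ifs with k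
    · rw [h1 h k]; ring
    · rw [h2 h k]; ring
  have k1 := key fun _ => 1
  have k2 : ∑ h, δ (γ * h) = ∑ h, δ h := Fintype.sum_equiv (Equiv.mulLeft γ) _ _ fun _ => rfl
  simp only [hm, h2 γ hγ, ← Finset.mul_sum] at k2
  simp only [mul_one, Finset.sum_const, Finset.card_univ, nsmul_eq_mul,
    ← Nat.card_eq_fintype_card] at k1
  rw [finsum_eq_sum_of_fintype] at a b ⊢
  rw [key, a, b]
  linear_combination -3 * k1 - 3 / 2 * k2

theorem ip_three {H : Type} [Group H] [Finite H] {χ χ' N : H → ℂ} (h : IsIrrCharacter H χ)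
    (h' : IsIrrCharacter H χ') (e : ∀ g, N g = 1 + χ g + χ' g) (d : χ 1 = (90 : ℕ))
    (d' : χ' 1 = (21 : ℕ)) : ∑ᶠ g, N g * conj (N g) = 3 * Nat.card H := by
  have := Fintype.ofFinite H
  have o := H11.isIrrCharacter_one' (G := H)
  have z : ∀ {a b : H → ℂ}, IsIrrCharacter H a → IsIrrCharacter H b → a 1 ≠ b 1 → ip a b = 0 :=
    fun ha hb n => (ip_eq _ _).trans (H11.classInner_irr_of_ne ha hb fun e => n (by rw [e]))
  have k : ip N N = 3 := by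
    rw [show N = 1 + χ + χ' from funext e]
    simp only [ip_add_left, ip_add_right, ip_irr h, ip_irr h', ip_irr o]
    rw [z o h (by rw [d]; norm_num), z h o (by rw [d]; norm_num), z o h' (by rw [d']; norm_num),
      z h' o (by rw [d']; norm_num), z h h' (by rw [d, d']; norm_num),
      z h' h (by rw [d, d']; norm_num)]
    norm_num
  rw [ip_def, inv_mul_eq_iff_eq_mul₀ (Nat.cast_ne_zero.2 Nat.card_pos.ne')] at k
  rw [k, mul_comm]

variable {F V : Type} [Field F] [AddCommGroup V] [Module F V] {P : PForm F V}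

open Classical in
/-- The sign of a field element. -/
noncomputable def sg (a : F) : ℂ := if a = 1 then 1 else -1

theorem sg_one : sg (1 : F) = 1 := if_pos rfl

theorem sg_ne {a : F} (h : a ≠ 1) : sg a = -1 := if_neg h

theorem conj_sg (a : F) : conj (sg a) = sg a := by unfold sg; split_ifs <;> simp

theorem sg_sq (a : F) : sg a * sg a = 1 := by unfold sg; split_ifs <;> simp

section

variable [Finite F] (h3 : Nat.card F = 3)
include h3

theorem pm {a : F} (h : a ≠ 0) : a = 1 ∨ a = -1 := by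
  have := Fintype.ofFinite F
  have k := FiniteField.pow_card_sub_one_eq_one a h
  rw [← Nat.card_eq_fintype_card, h3] at k
  exact sq_eq_one_iff_of_ne_zero_aux k
where sq_eq_one_iff_of_ne_zero_aux {a : F} (k : a ^ (3 - 1) = 1) : a = 1 ∨ a = -1 :=
  mul_self_eq_one_iff.1 (by rw [← k]; ring)

theorem neg_ne : (-1 : F) ≠ 1 := fun e => by
  have := Fintype.ofFinite F
  have k := FiniteField.cast_card_eq_zero F
  rw [← Nat.card_eq_fintype_card, h3] at k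
  exact one_ne_zero (α := F) (by push_cast at k; linear_combination k + e)

theorem sg_mul {a b : F} (ha : a ≠ 0) (hb : b ≠ 0) : sg (a * b) = sg a * sg b := by
  rcases pm h3 ha with rfl | rfl <;> rcases pm h3 hb with rfl | rfl <;>
    simp [sg_one, sg_ne (neg_ne h3)]

end

namespace Dt

variable {L : Lev P 1} (D : Dt L)

/-- The scalar by which an automorphism of the point acts. -/
def sc (A : L.X ≃ₗ[F] L.X) : F := P.f (A ⟨D.e, D.e_mem⟩) D.e'

theorem sc_eq {A : L.X ≃ₗ[F] L.X} {c : F} (h : (A ⟨D.e, D.e_mem⟩ : V) = c • D.e) : D.sc A = c := by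
  rw [sc, h, P.f_smul_left, D.one, mul_one]

theorem sc_spec (A : L.X ≃ₗ[F] L.X) : A ⟨D.e, D.e_mem⟩ = D.sc A • ⟨D.e, D.e_mem⟩ := by
  obtain ⟨c, hc⟩ := D.mem_X.1 (A ⟨D.e, D.e_mem⟩).2
  rw [D.sc_eq hc.symm]
  exact Subtype.ext hc.symm

theorem sc_ne (A : L.X ≃ₗ[F] L.X) : D.sc A ≠ 0 := fun h =>
  D.e_ne (congrArg Subtype.val (A.map_eq_zero_iff.1 (by rw [D.sc_spec, h, zero_smul])))

theorem sc_mul (A B : L.X ≃ₗ[F] L.X) : D.sc (A * B) = D.sc A * D.sc B :=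
  D.sc_eq (by rw [mul_apply', D.sc_spec B, map_smul, D.sc_spec A, smul_smul, mul_comm]; rfl)

theorem sc_rs {g : V ≃ₗ[F] V} {c : F} (h : g D.e = c • D.e) : D.sc (rs L.X g) = c :=
  D.sc_eq ((rs_apply (D.stab_iff.2 ⟨c, h⟩) _).trans h)

/-- The sign character of the point. -/
noncomputable def ψ (A : L.X ≃ₗ[F] L.X) : ℂ := sg (D.sc A)

theorem ψ_one : D.ψ 1 = 1 := by rw [ψ, D.sc_eq (c := 1) (one_smul _ _).symm, sg_one]

theorem τ_top (g : stab (Γ P) L.X) (h : Top P L.X g.1.1) : D.τ g = 1 := by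
  ext w
  obtain ⟨c, hc⟩ := D.mem_X.1 (h w (D.mem_perp.2 (D.W_e w)))
  rw [τ_apply, sub_eq_iff_eq_add.1 hc.symm, map_add, map_smul, D.π_e, smul_zero, zero_add, D.π_W]
  rfl

include D in
theorem npt_top [Finite V] {h g : Γ P} (hh : h ∈ stab (Γ P) L.X) (t : Top P L.X g.1) :
    npt P L.X (h * g).1 = npt P L.X h.1 := by
  have hg : g ∈ stab (Γ P) L.X := t.mem_stabSub L.ts
  have := D.npt_eq (⟨h, hh⟩ * ⟨g, hg⟩)
  rw [map_mul, D.τ_top ⟨g, hg⟩ t, mul_one, ← D.npt_eq] at this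
  exact this

/-- The Levi subgroup. -/
def LL : Subgroup (stab (Γ P) L.X) :=
  (stabSub L.X').comap ((Γ P).subtype.comp (stab (Γ P) L.X).subtype)

/-- The Weyl element. -/
def w : Γ P := ⟨L.w0, D.O.isom_le L.w0_mem⟩

theorem conj_mem {h : Γ P} : D.w⁻¹ * h * D.w ∈ stab (Γ P) L.X ↔ h.1 ∈ stabSub L.X' :=
  conj_mem_stabSub.trans (by rw [show mp D.w.1 L.X = _ from L.w0_X])

theorem opp_term [Finite F] [Finite V] (h3 : Nat.card F = 3) (h : LL (L := L)) :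
    D.ψ (rs L.X h.1.1.1) * npt P L.X h.1.1.1 *
      conj (D.ψ (rs L.X (D.w⁻¹ * h.1.1 * D.w).1) * npt P L.X (D.w⁻¹ * h.1.1 * D.w).1) =
    sg (D.μ h.1.1.1) * (npt L.PW ⊥ (D.τ h) * conj (npt L.PW ⊥ (D.τ h) : ℂ)) := by
  obtain ⟨a, ha⟩ := D.ex h.1
  obtain ⟨b, hb⟩ : ∃ b : F, h.1.1.1 D.e' = b • D.e' := D.stab_iff'.1 h.2
  have hμ : D.μ h.1.1.1 = a * b := by
    rw [μ, ha, hb, P.f_smul_left, D.O.smul_right, D.one, mul_one]
  have n := mul_ne_zero_iff.1 (hμ ▸ D.μ_ne h.1.1.2)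
  obtain ⟨c, hc⟩ : ∃ c : F, c • D.e' = L.w0 D.e := by
    rw [← Submodule.mem_span_singleton, ← D.hX', ← L.w0_X]
    exact apply_mem_mp.2 D.e_mem
  have e1 : (D.w⁻¹ * h.1.1 * D.w).1 D.e = b • D.e := by
    change L.w0⁻¹ (h.1.1.1 (L.w0 D.e)) = _
    rw [← hc, map_smul, hb, smul_comm, hc, map_smul, inv_apply_apply]
  have e2 : D.τ ⟨D.w⁻¹ * h.1.1 * D.w, D.conj_mem.2 h.2⟩ = D.τ h := by
    ext v
    have m : h.1.1.1 v ∈ L.W := D.mem_W.2 ⟨(D.perp_iff _ _).2 (D.W_e v), by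
      have := D.μ_f h.1.1.2 v D.e'
      rw [hb, D.O.smul_right, D.W_e', mul_zero] at this
      exact (mul_eq_zero_iff_left n.2).1 this⟩
    change (D.π (L.w0⁻¹ (h.1.1.1 (L.w0 v))) : V) = D.π (h.1.1.1 v)
    rw [L.w0_W _ v.2, ← L.w0_W _ m, inv_apply_apply, L.w0_W _ m]
  rw [D.npt_eq h.1, D.npt_eq ⟨D.w⁻¹ * h.1.1 * D.w, D.conj_mem.2 h.2⟩, e2, ψ, ψ, D.sc_rs ha, D.sc_rs e1, map_mul,
    conj_sg, hμ, sg_mul h3 n.1 n.2]
  ring

end Dt

theorem m3 (hSim : SimStmt) (hL : LeviStmt) (hN : NormStmt) (hP : PerpStmt) (hR : RStmt)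
    (hK : Rk3Stmt) (hC : CountStmt) (hCl : ClifStmt) (hZ : ZenStmt) : M3Stmt := by
  intro F V _ _ _ _ _ P T h3 hneg
  have O := ort_of T
  obtain ⟨L, TW⟩ := hL F V P false 3 2 1 T (by omega)
  obtain ⟨D⟩ := exists_dt O L
  have R : ∀ (H : Type) [Group H] [Finite H] (j : H →* stab (Γ P) L.X),
      (∀ g : stab (Γ P) L.X, g.1.1 ∈ P.isom → g.1.1 ∈ stabSub L.X' → g ∈ j.range) →
      ∃ χ χ' : H → ℂ, IsIrrCharacter H χ ∧ IsIrrCharacter H χ' ∧
        (∀ h, (npt L.PW ⊥ (D.τ (j h)) : ℂ) = 1 + χ h + χ' h) ∧ χ 1 = (90 : ℕ) ∧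
        χ' 1 = (21 : ℕ) := by
    intro H _ _ j hj
    obtain ⟨χ, χ', a, b, c, f, g, d, e, k1, k2⟩ := hR F L.W L.PW false 2 2 H (D.τ.comp j) TW le_rfl
      (fun h => D.τ_sim _) (.inl fun B hB => by
        obtain ⟨g, g1, g2, g3, -, g4⟩ := L.surj 1 ⟨B, hB⟩
        obtain ⟨x, hx⟩ := hj ⟨⟨g, O.isom_le g1⟩, g2⟩ g1 g3
        exact ⟨x, by rw [MonoidHom.comp_apply, hx, D.τ_pr _ g1, g4]⟩)
    rw [h3] at k1 k2
    exact ⟨χ, χ', a, b, c, by rw [d]; congr 1; omega, by rw [e]; congr 1; omega⟩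
  have ψm : ∀ A B, D.ψ (A * B) = D.ψ A * D.ψ B := fun A B => by
    rw [Dt.ψ, D.sc_mul, sg_mul h3 (D.sc_ne A) (D.sc_ne B)]; rfl
  obtain ⟨χ, χ', i1, i2, hn, d1, d2⟩ := R _ (MonoidHom.id _) fun g _ _ => ⟨g, rfl⟩
  simp only [MonoidHom.id_apply] at hn
  let θ : stab (Γ P) L.X → ℂ := fun h => D.ψ (rs L.X h.1.1)
  have θ1 : θ 1 = 1 := by simp only [θ]; exact (congrArg D.ψ (rs_one _)).trans D.ψ_one
  have iθ := (H11.isIrrCharacter_of_map_mul θ1 fun a b =>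
    (congrArg D.ψ (rs_mul a.2 b.2)).trans (ψm _ _))
  have c0 := H11.isCharacter_of_irr iθ
  have c1 := H11.isCharacter_mul c0 (H11.isCharacter_of_irr i1)
  have c2 := H11.isCharacter_mul c0 (H11.isCharacter_of_irr i2)
  have eξ : (fun h : stab (Γ P) L.X => D.ψ (rs L.X h.1.1) * npt P L.X h.1.1) =
      θ + θ * χ + θ * χ' := funext fun h => by
    rw [D.npt_eq h, hn h]
    simp only [Pi.add_apply, Pi.mul_apply, θ]; ring
  have cl : ClOn (stab (Γ P) L.X) fun h => D.ψ (rs L.X h.1) * npt P L.X h.1 := fun g hg h hh => by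
    have := H11.isClassFunction_of_isCharacter (H11.isCharacter_add (H11.isCharacter_add c0 c1) c2)
    rw [← eξ] at this
    exact this ⟨h, hh⟩ ⟨g, hg⟩
  have z : mT (stab (Γ P) L.X) (fun h => D.ψ (rs L.X h.1) * npt P L.X h.1)
      (fun h => D.ψ (rs L.X h.1) * npt P L.X h.1) D.w = 0 := by
    let e : Dt.LL (L := L) ≃ {h : Γ P // h ∈ stab (Γ P) L.X ∧ D.w⁻¹ * h * D.w ∈ stab (Γ P) L.X} :=
      ⟨fun h => ⟨h.1.1, h.1.2, D.conj_mem.2 h.2⟩, fun h => ⟨⟨h.1, h.2.1⟩, D.conj_mem.1 h.2.2⟩,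
        fun _ => rfl, fun _ => rfl⟩
    rw [mT, ← finsum_comp_equiv e]
    refine (finsum_congr (D.opp_term h3)).trans ?_
    let K : Subgroup (Dt.LL (L := L)) := P.isom.comap
      ((Γ P).subtype.comp ((stab (Γ P) L.X).subtype.comp (Dt.LL (L := L)).subtype))
    obtain ⟨g, hg⟩ := hSim F V P 3 2 (-1) T (by omega) (neg_ne_zero.2 one_ne_zero)
    have gΓ : g ∈ Γ P := ⟨-1, neg_ne_zero.2 one_ne_zero, hg⟩
    obtain ⟨k, k1, k2, k3⟩ := (hK F V P false 3 2 T (by omega) _ _ D.e D.e'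
      ((O.sim gΓ).2 _ (L.ts.1 _ D.e_mem)) ((O.sim gΓ).2 _ (L.ts'.1 _ D.e'_mem))
      (L.ts.1 _ D.e_mem) (L.ts'.1 _ D.e'_mem) (fun e => D.e_ne (g.map_eq_zero_iff.1 e)) D.e_ne).2.1
      (D.μ_ne gΓ) (D.one.trans_ne one_ne_zero)
    have kΓ := O.isom_le (E_le_isom k1)
    obtain ⟨_, _, a1, a2, a3, a4, a5⟩ := R _ (Dt.LL (L := L)).subtype fun g _ h => ⟨⟨g, h⟩, rfl⟩
    obtain ⟨_, _, b1, b2, b3, b4, b5⟩ := R _ ((Dt.LL (L := L)).subtype.comp K.subtype)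
      fun g h' h => ⟨⟨⟨g, h⟩, h'⟩, rfl⟩
    refine sum_zero K _ _ (fun h hh => by rw [(D.μ_one h.1.1.2).2 hh, sg_one])
      (fun h hh => sg_ne fun e => hh ((D.μ_one h.1.1.2).1 e))
      (fun a b => (congrArg sg (D.μ_mul a.1.1.2 _)).trans
        (sg_mul h3 (D.μ_ne a.1.1.2) (D.μ_ne b.1.1.2)))
      ⟨⟨⟨k * g, (Γ P).mul_mem kΓ gΓ⟩,
        D.stab_iff.2 ((Submodule.mem_span_singleton.1 k2).imp fun _ => Eq.symm)⟩,
        D.stab_iff'.2 ((Submodule.mem_span_singleton.1 k3).imp fun _ => Eq.symm)⟩ (fun hh => ?_)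
      (ip_three a1 a2 a3 a4 a5) (ip_three b1 b2 b3 b4 b5)
    have := (D.μ_one ((Γ P).mul_mem kΓ gΓ)).2 hh
    rw [D.μ_mul kΓ, (D.μ_one kΓ).2 (E_le_isom k1), one_mul, D.μ_eq hg] at this
    exact neg_ne h3 this
  have nm := hN F V P (Γ P) L.X D.ψ (fun h => npt P L.X h.1)
    (fun h => D.ψ (rs L.X h.1) * npt P L.X h.1) D.w O.sig (E_le_isom.trans O.isom_le)
    (fun _ => O.sim) L.ts (fun e => D.e_ne ((Submodule.eq_bot_iff _).1 e _ D.e_mem))
    (fun Z h h' => absurd ((isSimpleModule_iff_finrank_eq_one.2 L.dim).eq_bot_or_eq_top Z)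
      (not_or.2 ⟨h, h'⟩)) cl cl (fun h hh g _ t => by rw [D.npt_top hh t])
    (fun h hh g t => by
      rw [D.npt_top hh t.2, Subgroup.coe_mul, rs_mul (mem_stab.1 hh) t.mem_stabSub, t.rs_eq, mul_one])
    (by rw [show mp D.w.1 L.X = _ from L.w0_X, L.opp])
    fun x => hP F V P (Γ P) L.X D.ψ D.ψ x O.sig O.isom_le (fun _ => O.sim) L.ts
      (.inr ⟨L.dim, ψm, LinearEquiv.neg F, by
        rw [Dt.ψ, D.sc_eq (c := -1) (neg_one_smul F D.e).symm, sg_ne (neg_ne h3)]; norm_num⟩)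
  rw [z, mul_zero, add_zero, ip_def (G := stab (Γ P) L.X), finsum_congr
    (g := fun h => (npt L.PW ⊥ (D.τ h) : ℂ) * conj (npt L.PW ⊥ (D.τ h) : ℂ)) (fun h => by
      rw [D.npt_eq h, map_mul, Dt.ψ, conj_sg]
      linear_combination (npt L.PW ⊥ (D.τ h) : ℂ) * conj (npt L.PW ⊥ (D.τ h) : ℂ) *
        sg_sq (D.sc (rs L.X h.1.1))),
    ip_three i1 i2 hn d1 d2, mul_comm 3, inv_mul_cancel_left₀ (Nat.cast_ne_zero.2 Nat.card_pos.ne'),
    eξ] at nm
  have := Fintype.ofFinite (Γ P)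
  have dg : ∀ ξ : stab (Γ P) L.X → ℂ, ind _ ξ 1 = (stab (Γ P) L.X).index * ξ 1 := fun ξ => by
    rw [ind_eq, H14.indFun_one]
  have nz : ∀ ξ : stab (Γ P) L.X → ℂ, ξ 1 ≠ 0 → ind _ ξ ≠ 0 := fun ξ h e =>
    mul_ne_zero (Nat.cast_ne_zero.2 Subgroup.index_ne_zero_of_finite) h
      ((dg ξ).symm.trans (congrFun e 1))
  rw [ind_eq, H14.indFun_add, H14.indFun_add, ← ind_eq, ← ind_eq, ← ind_eq] at nm
  have ir := (three_of_ip_three (isCharacter_ind _ c0) (isCharacter_ind _ c1) (isCharacter_ind _ c2)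
    (nz _ (by rw [θ1]; norm_num)) (nz _ (by rw [Pi.mul_apply, θ1, d1]; norm_num))
    (nz _ (by rw [Pi.mul_apply, θ1, d2]; norm_num)) nm).2.1
  let m : Γ P →* Fˣ := MonoidHom.toHomUnits
    { toFun := fun g => D.μ g.1, map_one' := D.one, map_mul' := fun a _ => D.μ_mul a.2 _ }
  have hI : m.ker = P.isom.subgroupOf (Γ P) := Subgroup.ext fun g =>
    Units.ext_iff.trans (D.μ_one g.2)
  have i2' : P.isom.relIndex (Γ P) ∣ 2 := by
    rw [Subgroup.relIndex, ← hI, Subgroup.index_ker]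
    exact (Subgroup.card_subgroup_dvd_card _).trans (by rw [Nat.card_units, h3])
  have i13 : 13 ∣ (stab (Γ P) L.X).index := by
    have a := hC F V P false 3 2 L.X T L.ts
    rw [L.dim, h3] at a
    have a' : (stab (Γ P) L.X).relIndex m.ker = 1066 := by
      rw [hI, Subgroup.relIndex_subgroupOf O.isom_le]
      simp only [Nk, ns, Finset.prod_range_one] at a
      change (stab P.isom L.X).index = _
      omega
    have b := Subgroup.relIndex_mul_index (inf_le_right : stab (Γ P) L.X ⊓ m.ker ≤ _)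
    have c := Subgroup.relIndex_mul_index (inf_le_left : stab (Γ P) L.X ⊓ m.ker ≤ _)
    rw [Subgroup.inf_relIndex_right, a'] at b
    rw [Subgroup.inf_relIndex_left, ← b] at c
    have d : m.ker.relIndex (stab (Γ P) L.X) ∣ 2 :=
      (m.ker.relIndex_dvd_index_of_normal _).trans (hI ▸ i2')
    exact Nat.Coprime.dvd_of_dvd_mul_left (Nat.Coprime.coprime_dvd_right d (by norm_num))
      (c ▸ Dvd.dvd.mul_right (by norm_num) _)
  have : (P.E.subgroupOf (Γ P)).Normal := ⟨fun k hk g => O.conj_E g.2 hk⟩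
  obtain ⟨φ, n, p1, p2, p3, -⟩ := (hCl _ (P.E.subgroupOf (Γ P))).1 _ ((stab (Γ P) L.X).index * 90) ir
    (by rw [dg, Pi.mul_apply, θ1, d1]; push_cast; ring)
  obtain ⟨z1, z2, -⟩ := hZ F V P false 3 2 T
  have dim := (T.orth rfl).2.2.2
  have i8 : (P.E.subgroupOf (Γ P)).index ∣ 8 := by
    have a := Subgroup.relIndex_mul_relIndex _ _ _ (E_le_isom (P := P)) O.isom_le
    rw [show P.E.relIndex P.isom = 4 from (z2 (.inr (by omega))).trans (by rw [h3]; rfl)] at a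
    exact a.symm.dvd.trans (mul_dvd_mul_left 4 i2')
  let j := (Subgroup.subgroupOfEquivOfLe (E_le_isom.trans O.isom_le : P.E ≤ Γ P)).symm
  obtain ⟨χE, q1, q2⟩ := (hCl P.E (Subgroup.center P.E)).2.2.1 _
    (H11.isIrrCharacter_comp_mulEquiv p1 j) fun x hx => by
      rcases z1 (by omega) (.inr (by omega)) x hx with rfl | e
      exacts [rfl, absurd (e ▸ x.2) hneg]
  refine ⟨n, Nat.Coprime.dvd_of_dvd_mul_left (by norm_num : Nat.Coprime 195 8)
    (((mul_dvd_mul i13 (by norm_num : 15 ∣ 90)).trans p3).trans (mul_dvd_mul_right i8 n)),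
    χE, q1, (q2 1).trans ?_⟩
  rw [map_one, p2]

end Cfsg.Agent.H75.DgM
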