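import Cfsg.Agent.H56.SpDefs

/-! Lines `SL₂(p)`: the two tori of a commuting pair. -/

set_option autoImplicit false

namespace Cfsg.Agent.H75.CyBb

open Subgroup MulAction Cfsg.Agent.H11.Cy Cfsg.Agent.H56.Sp

theorem bb : BbStmt := by
  intro G _ _ Ω _ _ p A h hy x y x' y' z u pr
  have lf := hy.lf x y pr.ne
  have lf' := hy.lf x' y' pr.ne'
  have pg := hy.pg x y pr.ne
  have pg' := hy.pg x' y' pr.ne'
  obtain ⟨hz, fz⟩ := hy.cz.hi x' y' pr.ne' u pr.hu z ⟨x, y, pr.ne, pr.hz⟩ pr.zu.symm pr.cm.symm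
  obtain ⟨hu, fu⟩ := hy.cz.hi x y pr.ne z pr.hz u ⟨x', y', pr.ne', pr.hu⟩ pr.zu pr.cm
  have n' : Tl A x' y' z ≤ Nl A x y := fun t ht => hy.cz.cz x y pr.ne z pr.hz ▸ ht.2
  have n : Tl A x y u ≤ Nl A x' y' := fun t ht => hy.cz.cz x' y' pr.ne' u pr.hu ▸ ht.2
  have cm : ∀ t ∈ Tl A x y u, ∀ t' ∈ Tl A x' y' z, t * t' = t' * t := by
    intro t ht t' ht'
    rcases pg.dic u hu fu t' (n' ht') (by
      rw [lf'.cen u pr.hu t' ht'.1]; simpa using one_mem _) with c | ⟨c, k⟩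
    · exact c.2 t ht
    rcases pg'.dic z hz fz t (n ht) (by
      rw [lf.cen z pr.hz t ht.1]; simpa using one_mem _) with c' | ⟨c', k'⟩
    · exact (c'.2 t' ht').symm
    have e : t * t = (t' * t')⁻¹ := by
      calc _ = t * (t' * t * t'⁻¹)⁻¹ := by rw [c t ht, inv_inv]
        _ = t * t' * t⁻¹ * t'⁻¹ := by group
        _ = _ := by rw [c' t' ht']; group
    have m : t * t ∈ Fl A x y := mul_mem ht.1 ht.1
    have m' : t * t ∈ Fl A x' y' := e ▸ inv_mem (mul_mem ht'.1 ht'.1)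
    have s := lf'.fk _ m' k'
    have t1 : t * t = 1 := by
      by_contra t1
      exact pr.zu ((lf'.uq _ _ pr.hu ⟨m', t1, s⟩).trans (lf.uq _ _ ⟨m, t1, s⟩ pr.hz))
    have := c t ht
    rw [inv_eq_of_mul_eq_one_right t1, mul_inv_eq_iff_eq_mul] at this
    exact this.symm
  refine ⟨cm, n', ?_⟩
  obtain ⟨cy, c'⟩ := pg'.tor z hz fz
  obtain ⟨-, c⟩ := pg.tor u hu fu
  obtain ⟨g, hg⟩ := IsCyclic.exists_generator (α := Tl A x' y' z)
  refine ⟨g, g.2, ?_⟩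
  rintro ⟨f, hf, k, hk, e⟩
  have fT : f ∈ Tl A x y u := (pg.cyc u hu fu).1 f hf ⟨le_normalizer hf, fun t ht => by
    have e1 : f = g * k⁻¹ := by rw [e]; group
    rw [e1, ← mul_assoc, cm t ht g g.2, mul_assoc, (inv_mem hk) t ht.1, mul_assoc]⟩
  obtain ⟨m, hm⟩ := hg ⟨u, pr.hu.1, mem_centralizer_singleton_iff.2 pr.cm⟩
  have hm' : (g : G) ^ m = u := congrArg Subtype.val hm
  have d : ((p + 1 : ℕ) : ℤ) ∣ m + m := by
    rw [← c', ← orderOf_eq_card_of_forall_mem_zpowers hg, orderOf_dvd_iff_zpow_eq_one, zpow_add]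
    exact Subtype.ext (by simpa [hm'] using pr.hu.2.2)
  have f2 : f ^ m * f ^ m = 1 := by
    obtain ⟨j, hj⟩ := d
    have : f ^ (p + 1) = 1 := by
      rw [← c]; exact congrArg Subtype.val (pow_card_eq_one' (G := Tl A x y u) (x := ⟨f, fT⟩))
    rw [← zpow_add, hj, zpow_mul, zpow_natCast, this, one_zpow]
  have fK : f ^ m ∈ Kl A x y := by
    by_cases f1 : f ^ m = 1
    · rw [f1]; exact one_mem _
    · exact lf.cen _ ⟨zpow_mem hf m, f1, f2⟩
  refine hu.2.2 ?_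
  rw [← hm', e, (show Commute f k from hk f hf).mul_zpow]
  exact mul_mem fK (zpow_mem hk m)

end Cfsg.Agent.H75.CyBb
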