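import Cfsg.Agent.H45.IvDefs

/-! The structure of a good subspace, first part. -/

set_option autoImplicit false

namespace Cfsg.Agent.H75.CyGa

open Subgroup MulAction Cfsg.Agent.H11.Cy Cfsg.Agent.H45.Iv
open scoped commutatorElement

theorem ga : GaStmt := by
  intro tg G _ _ Ω _ _ p A h _ ep k ls f Ψ sub good d hd
  have AM : ∀ w ∈ Ψ, A w ≤ Ms A Ψ := fun w hw => le_iSup₂_of_le (f := fun w (_ : w ∈ Ψ) => A w) w hw le_rfl
  have RD : ∀ y ∈ Ψ, y ≠ d → Rl A d y ≤ Ds A Ψ d := fun y hy hyd =>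
    le_iSup₂_of_le (f := fun y (_ : y ∈ Ψ \ {d}) => Rl A d y) y ⟨hy, hyd⟩ le_rfl
  have Dle : ∀ X : Subgroup G, (∀ y ∈ Ψ, y ≠ d → Rl A d y ≤ X) → Ds A Ψ d ≤ X := fun X hX =>
    iSup₂_le fun y hy => hX y hy.1 hy.2
  have TM : Ts A Ψ ≤ Ms A Ψ := commutator_le.2 fun a ha b hb =>
    mul_mem (mul_mem (mul_mem ha hb) (inv_mem ha)) (inv_mem hb)
  have DT : Ds A Ψ d ≤ Ts A Ψ := Dle _ fun y hy _ => (k.fle Ψ d hd y hy).2
  have nD : ∀ a ∈ A d, ∀ x ∈ Ds A Ψ d, a * x * a⁻¹ ∈ Ds A Ψ d := fun a ha x hx => by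
    refine Dle ((Ds A Ψ d).comap (MulAut.conj a).toMonoidHom) (fun y hy hyd r hr => ?_) hx
    have := (k.cj a d y r).2.1 hr
    rw [h.fix d a ha] at this
    refine RD _ (k.inv Ψ sub a (AM d hd ha) y hy) (fun e => hyd ?_) this
    rw [← h.fix d a ha] at e
    exact (MulAction.injective a e)
  have cA : ∀ a ∈ A d, ∀ b ∈ A d, a * b = b * a := fun a ha b hb => by
    haveI := Fact.mk h.pp
    haveI : IsCyclic (A d) := isCyclic_of_prime_card (h.card d)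
    obtain ⟨g, hg⟩ := IsCyclic.exists_generator (α := A d)
    obtain ⟨i, hi⟩ := hg ⟨a, ha⟩
    obtain ⟨j, hj⟩ := hg ⟨b, hb⟩
    have : (⟨a, ha⟩ * ⟨b, hb⟩ : A d) = ⟨b, hb⟩ * ⟨a, ha⟩ := by
      rw [← hi, ← hj]; exact zpow_mul_comm g i j
    exact congrArg Subtype.val this
  have dec : ∀ m ∈ Ms A Ψ, ∃ t ∈ Ds A Ψ d, ∃ a ∈ A d, m = t * a := by
    let S : Subgroup G :=
      { carrier := {m | ∃ t ∈ Ds A Ψ d, ∃ a ∈ A d, m = t * a}
        one_mem' := ⟨1, one_mem _, 1, one_mem _, by simp⟩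
        mul_mem' := by
          rintro _ _ ⟨t, ht, a, ha, rfl⟩ ⟨t', ht', a', ha', rfl⟩
          exact ⟨t * (a * t' * a⁻¹), mul_mem ht (nD a ha t' ht'), a * a', mul_mem ha ha', by group⟩
        inv_mem' := by
          rintro _ ⟨t, ht, a, ha, rfl⟩
          exact ⟨a⁻¹ * t⁻¹ * a⁻¹⁻¹, nD _ (inv_mem ha) _ (inv_mem ht), a⁻¹, inv_mem ha, by group⟩ }
    have : Ms A Ψ ≤ S := iSup₂_le fun w hw g hg => by
      by_cases e : w = d
      · exact ⟨1, one_mem _, g, e ▸ hg, by simp⟩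
      · obtain ⟨r, hr, a, ha, e'⟩ := (ls d w (Ne.symm e)).1.dec g (mem_sup_right hg)
        exact ⟨r, RD w hw e hr, a, ha, e'⟩
    exact this
  have TD : Ts A Ψ ≤ Ds A Ψ d := commutator_le.2 fun m hm m' hm' => by
    obtain ⟨t, ht, a, ha, rfl⟩ := dec m hm
    obtain ⟨t', ht', a', ha', rfl⟩ := dec m' hm'
    have : ⁅t * a, t' * a'⁆ = t * (a * t' * a⁻¹) * (a' * t⁻¹ * a'⁻¹) * t'⁻¹ := by
      calc _ = t * (a * t' * a⁻¹) * (a * a') * a⁻¹ * t⁻¹ * a'⁻¹ * t'⁻¹ := by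
            rw [commutatorElement_def]; group
        _ = _ := by rw [cA a ha a' ha']; group
    rw [this]
    exact mul_mem (mul_mem (mul_mem ht (nD a ha t' ht')) (nD a' ha' _ (inv_mem ht))) (inv_mem ht')
  have DM := DT.trans TM
  have nC : ∀ m ∈ Ms A Ψ, ∀ c ∈ Cs A Ψ, m * c * m⁻¹ ∈ Cs A Ψ := fun m hm c hc => by
    rw [hc m hm, mul_inv_cancel_right]; exact hc
  have K : ∀ s, (∀ y ∈ Ψ, y ≠ d → ∀ r ∈ Rl A d y, ⁅r, s⁆ ∈ Cs A Ψ) → ∀ t ∈ Ds A Ψ d, ⁅t, s⁆ ∈ Cs A Ψ := by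
    intro s hs t ht
    let S : Subgroup G :=
      { carrier := {t | t ∈ Ms A Ψ ∧ ⁅t, s⁆ ∈ Cs A Ψ}
        one_mem' := ⟨one_mem _, by simp⟩
        mul_mem' := fun {a b} ha hb => ⟨mul_mem ha.1 hb.1, by
          have : ⁅a * b, s⁆ = a * ⁅b, s⁆ * a⁻¹ * ⁅a, s⁆ := by simp only [commutatorElement_def]; group
          rw [this]; exact mul_mem (nC a ha.1 _ hb.2) ha.2⟩
        inv_mem' := fun {a} ha => ⟨inv_mem ha.1, by
          have : ⁅a⁻¹, s⁆ = a⁻¹ * ⁅a, s⁆⁻¹ * a⁻¹⁻¹ := by simp only [commutatorElement_def]; group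
          rw [this]; exact nC _ (inv_mem ha.1) _ (inv_mem ha.2)⟩ }
    exact (Dle S (fun y hy hyd r hr => ⟨DM (RD y hy hyd hr), hs y hy hyd r hr⟩) ht).2
  have com : ∀ t ∈ Ds A Ψ d, ∀ s ∈ Ds A Ψ d, ⁅t, s⁆ ∈ Cs A Ψ := fun t ht s hs =>
    K s (fun y hy hyd r hr => by
      rw [← commutatorElement_inv]
      exact inv_mem (K r (fun y' hy' hyd' r' hr' =>
        tg G Ω p A h k ls f Ψ sub good d hd y' hy' y hy hyd' hyd r' hr' r hr) s hs)) t ht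
  have sq : ∀ t ∈ Ds A Ψ d, t * t ∈ Cs A Ψ := by
    intro t ht
    let S : Subgroup G :=
      { carrier := {t | t ∈ Ds A Ψ d ∧ t * t ∈ Cs A Ψ}
        one_mem' := ⟨one_mem _, by simp⟩
        mul_mem' := fun {a b} ha hb => ⟨mul_mem ha.1 hb.1, by
          have : a * b * (a * b) = a * a * ⁅a⁻¹, b⁆ * (b * b) := by
            simp only [commutatorElement_def]; group
          rw [this]; exact mul_mem (mul_mem ha.2 (com _ (inv_mem ha.1) _ hb.1)) hb.2⟩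
        inv_mem' := fun {a} ha => ⟨inv_mem ha.1, by
          rw [← mul_inv_rev]; exact inv_mem ha.2⟩ }
    exact (Dle S (fun y hy hyd r hr => ⟨RD y hy hyd hr, k.zc Ψ good d hd y hy (Ne.symm hyd)
      ((ls d y (Ne.symm hyd)).2.1.sq r hr)⟩) ht).2
  have tr : ∀ y ∈ Ψ, ∃ t ∈ Ts A Ψ, t • d = y := fun y hy => by
    by_cases e : y = d
    · exact ⟨1, one_mem _, by rw [one_smul, e]⟩
    · obtain ⟨r, hr, e'⟩ := (ls d y (Ne.symm e)).1.tr y (k.ln d y).2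
      exact ⟨r, DT (RD y hy e hr), e'⟩
  have stab : ∀ t ∈ Ts A Ψ, t • d = d → t ∈ Cs A Ψ := fun t ht htd => by
    have fx : ∀ w ∈ Ψ, t • w = w := fun w hw => by
      obtain ⟨s, hs, rfl⟩ := tr w hw
      have e : t * s = ⁅t, s⁆ * s * t := by rw [commutatorElement_def]; group
      rw [← mul_smul, e, mul_smul, mul_smul, htd]
      exact k.csfix Ψ _ (com t (TD ht) s (TD hs)) _ hw
    by_cases ex : ∃ w ∈ Ψ, w ≠ d
    · obtain ⟨w, hw, hwd⟩ := ex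
      refine k.csof Ψ d hd t (fun a ha => ?_) fx
      have m : t * a * t⁻¹ * a⁻¹ ∈ A d := mul_mem (htd ▸ h.eqv t d a ha) (inv_mem ha)
      have w1 : a⁻¹ • w ∈ Ψ := k.inv Ψ sub _ (AM d hd (inv_mem ha)) w hw
      have w2 : (t * a * t⁻¹ * a⁻¹) • w = w := by
        rw [mul_smul, mul_smul, mul_smul, inv_smul_eq_iff.2 (fx _ w1).symm, smul_inv_smul, fx w hw]
      have := (h.semi d w _ m w2).resolve_right hwd
      rw [mul_inv_eq_one, mul_inv_eq_iff_eq_mul] at this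
      exact this.symm
    · have : t ∈ (⊥ : Subgroup G) := Dle ⊥ (fun y hy hyd => absurd ⟨y, hy, hyd⟩ ex) (TD ht)
      rw [mem_bot.1 this]; exact one_mem _
  refine ⟨le_antisymm TD DT, fun t ht s hs => com t (TD ht) s (TD hs), fun t ht => sq t (TD ht),
    fun m hm => ?_, tr, stab, fun t ht hc => ?_⟩
  · obtain ⟨t, ht, a, ha, e⟩ := dec m hm
    exact ⟨t, DT ht, a, ha, e⟩
  · have hy : t • d ∈ Ψ := k.inv Ψ sub t (TM ht) d hd
    have hn : t • d ≠ d := fun e => hc (stab t ht e)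
    obtain ⟨r, hr, e⟩ := (ls d _ hn.symm).1.tr _ (k.ln d (t • d)).2
    have m : r⁻¹ * t ∈ Ts A Ψ := mul_mem (inv_mem (DT (RD _ hy hn hr))) ht
    have c : r⁻¹ * t ∈ Cs A Ψ := stab _ m (by rw [mul_smul, ← e, inv_smul_smul])
    refine ⟨_, hy, hn, r, hr, fun z => hc ?_, r⁻¹ * t, ⟨m, c⟩, by group⟩
    have := mul_mem (k.zc Ψ good d hd _ hy hn.symm z) c
    rwa [mul_inv_cancel_left] at this

end Cfsg.Agent.H75.CyGa
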