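import Cfsg.Agent.H11.CyLp
import Cfsg.Agent.H31.ElZa
import Cfsg.Agent.H32.ElTw
import Cfsg.Agent.H62.ElZG
import Cfsg.Agent.H91.ElN4x

/-! Lines `L₂(p)`, `p ≡ 3 mod 4`, odd kernel: nothing in the pair stabiliser inverts `A x`. -/

set_option autoImplicit false

namespace Cfsg.Agent.H75.CyN2

open Subgroup MulAction Cfsg.Agent.H11.Cy Cfsg.Agent.H11.Cy.Lp
open Cfsg.Agent.H11.EL (Nm Ct C1 Ex CL2)
open Cfsg.Agent.H62.ElZG (c1_iff mem_zp)

theorem card_two {X : Type} [Group X] [Finite X] {Φ : Type} [Finite Φ] [MulAction X Φ]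
    (h : ∀ a b c d : Φ, a ≠ b → c ≠ d → ∃ g : X, g • a = c ∧ g • b = d) {a b : Φ} (hab : a ≠ b) :
    Nat.card X = Nat.card (stabilizer X a ⊓ stabilizer X b : Subgroup X) *
      (Nat.card Φ * Nat.card Φ - Nat.card Φ) := by
  classical
  have := Fintype.ofFinite Φ
  have e1 : stabilizer X (a, b) = stabilizer X a ⊓ stabilizer X b := by
    ext g; simp [Prod.ext_iff]
  have e2 : orbit X (a, b) = ((Finset.univ : Finset Φ).offDiag : Set (Φ × Φ)) := by
    ext ⟨c, d⟩
    simp only [Finset.coe_offDiag, Finset.coe_univ, Set.mem_offDiag, Set.mem_univ, true_and]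
    constructor
    · rintro ⟨g, hg⟩ e
      simp only [Prod.smul_mk, Prod.mk.injEq] at hg
      exact hab (MulAction.injective g (hg.1.trans (e.trans hg.2.symm)))
    · intro e
      obtain ⟨g, h1, h2⟩ := h a b c d hab e
      exact ⟨g, Prod.ext h1 h2⟩
  rw [← e1, ← (stabilizer X (a, b)).card_mul_index, index_stabilizer, e2, Set.ncard_coe_finset,
    Finset.offDiag_card, Finset.card_univ, Nat.card_eq_fintype_card (α := Φ)]

/-- The fixed points of `t`. -/
def Om {G : Type} [Group G] (Ω : Type) [MulAction G Ω] (t : G) : Type := {w : Ω // t • w = w}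

theorem eqns_Om : True := by have := @Om.eq_1; trivial

instance omAct {G : Type} [Group G] (Ω : Type) [MulAction G Ω] (t : G) : MulAction (C1 t) (Om Ω t) where
  smul g w := ⟨(g : G) • w.1, by rw [← mul_smul, ← (c1_iff.1 g.2).eq, mul_smul, w.2]⟩
  one_smul w := Subtype.ext (one_smul G w.1)
  mul_smul g k w := Subtype.ext (mul_smul (g : G) (k : G) w.1)

theorem om_eq {G : Type} [Group G] {Ω : Type} [MulAction G Ω] {t : G} (g : C1 t) (a b : Om Ω t) :
    g • a = b ↔ (g : G) • a.1 = b.1 := Subtype.ext_iff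

theorem n2 (ha : N2aStmt) (hs : SPStmt) : N2Stmt := by
  intro G _ _ Ω _ _ p A h x y l3 hodd
  classical
  by_contra ne1
  have hxy := l3.xy
  obtain ⟨f, s, lc⟩ := l3.lc x y hxy
  have lt := l3.lt x y hxy f s lc
  have := l3.simple l3.p7
  obtain ⟨g, gH, hex⟩ : ∃ g ∈ Hs G x y, Ex g (A x) (-1) := by
    by_contra c
    exact ne1 ((lt.e3 l3.p3).2 fun g hg e => c ⟨g, hg, e⟩)
  have h1 : g * g ∈ centralizer (A x : Set G) := by
    intro a haA
    have := H91.ElN4x.ex_pow hex 2 a haA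
    rw [sq] at this
    simp only [even_two, Even.neg_pow, one_pow, zpow_one] at this
    rw [mul_inv_eq_iff_eq_mul] at this
    exact this.symm
  have h2 := l3.mc.ep.eps x y hxy _ (mul_mem gH gH) h1
  have h3 : (g * g) ^ Nat.card (Kl A x y) = 1 :=
    congrArg Subtype.val (pow_card_eq_one' (G := Kl A x y) (x := ⟨_, h2⟩))
  obtain ⟨t, ht⟩ : ∃ t, t = g ^ Nat.card (Kl A x y) := ⟨_, rfl⟩
  have tt : t * t = 1 := by rw [ht, ← h3, (Commute.refl g).mul_pow]
  have tA : Ex t (A x) (-1) := by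
    have := H91.ElN4x.ex_pow hex (Nat.card (Kl A x y))
    rwa [hodd.neg_one_pow, ← ht] at this
  have tH : t ∈ Hs G x y := ht ▸ pow_mem gH _
  obtain ⟨q1, hZ⟩ := ha G Ω p A h x y l3 t tH tt tA
  replace hZ := hZ hodd
  have t1 : t ≠ 1 := fun e => q1 1 (by rw [e, one_mul])
  have ot : orderOf t = 2 := orderOf_eq_prime (by rw [sq, tt]) t1
  obtain ⟨v, -, hv⟩ := (l3.lw x y hxy).sqs l3.p3 t tH tt tA s lc.sL lc.so
  have ov : orderOf v = 4 := by
    have s1 : s ≠ 1 := fun h => by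
      have := lc.so
      rw [h, orderOf_one] at this
      omega
    have s2 : s ^ 2 = 1 := by rw [← lc.so, pow_orderOf_eq_one]
    have := orderOf_eq_prime_pow (x := v) (p := 2) (n := 1) (by rw [pow_one, sq, hv]; exact s1)
      (by rw [← s2, ← hv, ← sq v, ← pow_mul]; norm_num)
    simpa using this
  have fo := lc.fo
  have p3 := l3.p3
  have p7 := l3.p7
  have fodd : Odd (orderOf f) := Nat.odd_iff.2 (by omega)
  have tf : Commute t f := lt.com t tH
  obtain ⟨e, e1, e3, he⟩ : ∃ e : ℕ, Odd e ∧ 3 ≤ e ∧ Nat.card (C1 t ⊓ Hs G x y : Subgroup G) = 2 * e := by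
    have k1 := card_dvd_of_le (inf_le_right : C1 t ⊓ Hs G x y ≤ _)
    rw [lt.e2c ne1] at k1
    have k3 := orderOf_dvd_natCard (C1 t ⊓ Hs G x y) (x := t) ⟨c1_iff.2 (Commute.refl t), tH⟩
    have k4 := orderOf_dvd_natCard (C1 t ⊓ Hs G x y) (x := f) ⟨c1_iff.2 tf.symm, lc.fH⟩
    rw [ot] at k3
    obtain ⟨e, he⟩ := k3
    rw [he] at k4
    rw [he, mul_assoc] at k1
    have o : Odd e := Odd.of_dvd_nat (fodd.mul hodd) (Nat.dvd_of_mul_dvd_mul_left two_pos k1)
    have := Nat.le_of_dvd o.pos ((Nat.coprime_two_right.2 fodd).dvd_of_dvd_mul_left k4)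
    exact ⟨e, o, by omega, he⟩
  haveI : Finite (Om Ω t) := inferInstanceAs (Finite {w : Ω // t • w = w})
  let a : Om Ω t := ⟨x, tH.1⟩
  let b : Om Ω t := ⟨y, tH.2⟩
  have hab : a ≠ b := fun e => hxy (congrArg Subtype.val e)
  have tr : ∀ a b c d : Om Ω t, a ≠ b → c ≠ d → ∃ g : C1 t, g • a = c ∧ g • b = d :=
    fun a b c d h1 h2 => by
      obtain ⟨g, hg, h3, h4⟩ := hZ.tr2 a.1 a.2 b.1 b.2 c.1 c.2 d.1 d.2
        (fun h => h1 (Subtype.ext h)) (fun h => h2 (Subtype.ext h))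
      exact ⟨⟨g, hg⟩, Subtype.ext h3, Subtype.ext h4⟩
  have cst : Nat.card (stabilizer (C1 t) a ⊓ stabilizer (C1 t) b : Subgroup (C1 t)) = 2 * e := by
    rw [← he, ← Nat.card_congr (subgroupOfEquivOfLe (inf_le_left : C1 t ⊓ Hs G x y ≤ C1 t)).toEquiv]
    congr 2
    ext g
    exact Iff.of_eq <| propext ⟨fun h => ⟨g.2, (om_eq _ _ _).1 h.1, (om_eq _ _ _).1 h.2⟩,
      fun h => ⟨(om_eq _ _ _).2 h.2.1, (om_eq _ _ _).2 h.2.2⟩⟩
  have cC := card_two tr hab
  rw [cst] at cC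
  have ev : Even (Nat.card (Om Ω t)) := by
    have : Fact (Nat.Prime 2) := ⟨by norm_num⟩
    have := Fintype.ofFinite Ω
    have k1 := Equiv.Perm.card_fixedPoints_modEq (p := 2) (n := 1)
      (f := (fun a : Ω => t • a : Function.End _)) (by
        funext a
        show t • t • a = a
        rw [← mul_smul, tt, one_smul])
    rw [← Nat.card_eq_fintype_card, ← Nat.card_eq_fintype_card] at k1
    have k3 := l3.even
    rw [Nat.even_iff] at k3 ⊢
    exact Eq.trans k1.symm k3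
  have two : 1 < Nat.card (Om Ω t) := Finite.one_lt_card_iff_nontrivial.2 ⟨a, b, hab⟩
  by_cases hc : Nat.card (Om Ω t) = 2
  · refine H32.ElTw.tw t v l3.nc ot q1 ?_ ov
    rw [cC, hc]
    obtain ⟨m, rfl⟩ := e1
    omega
  have w4 : 4 ≤ Nat.card (Om Ω t) := by obtain ⟨m, hm⟩ := ev; omega
  have hfo : f ^ orderOf f = 1 := pow_orderOf_eq_one f
  have hff : f * f ≠ 1 := fun h => by
    have := Nat.le_of_dvd two_pos (orderOf_dvd_of_pow_eq_one (show f ^ 2 = 1 by rw [pow_two, h]))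
    omega
  let Y : Subgroup (C1 t) := (zpowers t).subgroupOf (C1 t)
  have hYle : zpowers t ≤ C1 t := by rw [zpowers_le, c1_iff]
  have hYc : Nat.card Y = 2 := by
    rw [Nat.card_congr (subgroupOfEquivOfLe hYle).toEquiv, Nat.card_zpowers, ot]
  have hYn : Y.Normal := ⟨fun a ha g => by
    have h1 : (a : G) ∈ zpowers t := ha
    have h3 : Commute (g : G) a := by
      obtain ⟨k, hk⟩ := h1
      rw [← hk]
      exact (c1_iff.1 g.2).zpow_right k
    show (g : G) * a * (g : G)⁻¹ ∈ zpowers t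
    rw [h3.eq, mul_inv_cancel_right]
    exact h1⟩
  have key := H31.ElZa.za (X := C1 t) (Ω := Om Ω t) Y a b ⟨f, c1_iff.2 tf.symm⟩ e hYn
    (fun k hk w => by
      rw [om_eq]
      exact (zpowers_le.2 (show t ∈ stabilizer G w.1 from w.2)) hk)
    tr
    (fun g a b c hab hbc hac h3 h4 h5 =>
      hZ.three g g.2 a.1 a.2 b.1 b.2 c.1 c.2 (fun h => hab (Subtype.ext h))
        (fun h => hbc (Subtype.ext h)) (fun h => hac (Subtype.ext h)) ((om_eq _ _ _).1 h3)
        ((om_eq _ _ _).1 h4) ((om_eq _ _ _).1 h5))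
    (by omega) hab ((om_eq _ _ _).2 lc.fH.1) ((om_eq _ _ _).2 lc.fH.2)
    (fun h => by
      rcases mem_zp ot (show f ∈ zpowers t from h) with h | h
      · exact hff (by rw [h, one_mul])
      · exact hff (by rw [h, tt]))
    (fun n h3 h4 h5 => by
      have h6 := lt.inv n ((om_eq _ _ _).1 h3) ((om_eq _ _ _).1 h4) f lc.fH
      rcases mem_zp ot (show (n : G) * f * (n : G)⁻¹ * f⁻¹ ∈ zpowers t from h5) with h | h
      · rw [mul_inv_eq_one] at h
        rw [h] at h6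
        exact hff ((l3.la x y hxy).ctr _ (mul_mem lc.fL lc.fL) h6)
      · rw [mul_inv_eq_iff_eq_mul] at h
        have h7 : ((n : G) * f * (n : G)⁻¹) ^ orderOf f = 1 := by rw [conj_pow, hfo]; group
        obtain ⟨m, hm⟩ := fodd
        rw [h, tf.mul_pow, hfo, mul_one, hm, pow_succ, pow_mul, pow_two, tt, one_pow, one_mul] at h7
        exact t1 h7)
    (by rw [hYc, cst])
  refine hs t v l3.nc ot q1 (key.2 e1 ev) ?_ ov
  rw [cC]
  have : 4 * 4 - 4 ≤ Nat.card (Om Ω t) * Nat.card (Om Ω t) - Nat.card (Om Ω t) := by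
    have := Nat.mul_le_mul_right (Nat.card (Om Ω t)) w4
    omega
  calc 24 < 2 * 3 * (4 * 4 - 4) := by norm_num
    _ ≤ _ := Nat.mul_le_mul (by omega) this

end Cfsg.Agent.H75.CyN2
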