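import Cfsg.Agent.H45.GdDefs

/-! The basic facts on lines in a quotient system. -/

set_option autoImplicit false

namespace Cfsg.Agent.H75.CyQe

open Subgroup MulAction Cfsg.Agent.H11.Cy Cfsg.Agent.H45.Iv Cfsg.Agent.H45.Gd
open scoped commutatorElement

theorem qe : QeStmt := by
  intro G _ _ Ω _ _ p A bs ls
  have cF : ∀ (g : G) x y, ∀ f ∈ Fl A x y, g * f * g⁻¹ ∈ Fl A (g • x) (g • y) := fun g x y f hf => by
    have : Fl A x y ≤ (Fl A (g • x) (g • y)).comap (MulAut.conj g).toMonoidHom :=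
      sup_le (fun a ha => mem_sup_left (bs.eqv g x a ha)) fun a ha => mem_sup_right (bs.eqv g y a ha)
    exact this hf
  have cR : ∀ (g : G) x y, ∀ f ∈ Rl A x y, g * f * g⁻¹ ∈ Rl A (g • x) (g • y) := fun g x y f hf => by
    have : Rl A x y ≤ (Rl A (g • x) (g • y)).comap (MulAut.conj g).toMonoidHom :=
      commutator_le.2 fun a ha b hb => by
        rw [mem_comap, map_commutatorElement]
        exact commutator_mem_commutator (cF g x y a ha) (cF g x y b hb)
    exact this hf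
  have RF : ∀ x y, Rl A x y ≤ Fl A x y := fun x y => commutator_le.2 fun a ha b hb =>
    mul_mem (mul_mem (mul_mem ha hb) (inv_mem ha)) (inv_mem hb)
  have nR : ∀ x y, ∀ f ∈ Fl A x y, ∀ r ∈ Rl A x y, f * r * f⁻¹ ∈ Rl A x y := fun x y f hf r hr => by
    have := mul_mem (show ⁅f, r⁆ ∈ Rl A x y from commutator_mem_commutator hf (RF x y hr)) hr
    rwa [commutatorElement_def, inv_mul_cancel_right] at this
  have iL : ∀ x y, ∀ f ∈ Fl A x y, ∀ c ∈ Ln A x y, f • c ∈ Ln A x y := fun x y f hf c hc a ha => by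
    have := bs.eqv f⁻¹ _ a ha
    rw [inv_smul_smul] at this
    have := mul_mem (mul_mem hf (hc this)) (inv_mem hf)
    rwa [show f * (f⁻¹ * a * f⁻¹⁻¹) * f⁻¹ = a by group] at this
  have kf : ∀ x y, ∀ h ∈ Kl A x y, ∀ c ∈ Ln A x y, h • c = c := fun x y h hh c hc =>
    (bs.nA c h).1 (centralizer_le_normalizer _ (centralizer_le (show (A c : Set G) ⊆ _ from hc) hh))
  have eps : ∀ x y, x ≠ y → ∀ h ∈ Hs G x y, h ∈ centralizer (A x : Set G) → h ∈ Kl A x y := by
    intro x y hxy h hh hc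
    have hx : h • x = x := hh.1
    have hy : h • y = y := hh.2
    have : Fl A x y ≤ centralizer {h} := by
      refine sup_le (fun a ha => mem_centralizer_singleton_iff.2 (hc a ha)) fun b hb => ?_
      obtain ⟨r, hr, a, ha, e⟩ := (ls x y hxy).1.dec b (mem_sup_right hb)
      have m1 : h * b * h⁻¹ * b⁻¹ ∈ A y := mul_mem (hy ▸ bs.eqv h y b hb) (inv_mem hb)
      have m2 : h * b * h⁻¹ * b⁻¹ ∈ Rl A x y := by
        have := cR h x y r hr
        rw [hx, hy] at this
        have e2 : h * b * h⁻¹ * b⁻¹ = h * r * h⁻¹ * r⁻¹ := by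
          calc _ = h * r * h⁻¹ * (h * a) * h⁻¹ * a⁻¹ * r⁻¹ := by rw [e]; group
            _ = _ := by rw [← hc a ha]; group
        rw [e2]; exact mul_mem this (inv_mem hr)
      have := (ls x y hxy).1.disj y _ m1 m2
      rw [mul_inv_eq_one, mul_inv_eq_iff_eq_mul] at this
      exact mem_centralizer_singleton_iff.2 this.symm
    exact fun f hf => mem_centralizer_singleton_iff.1 (this hf)
  refine ⟨eps, fun x y hxy h => ⟨kf x y h, fun hf => ?_⟩, fun x y hxy z hz w hw hzw => ?_⟩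
  · have lx : x ∈ Ln A x y := le_sup_left (a := A x) (b := A y)
    have ly : y ∈ Ln A x y := le_sup_right (a := A x) (b := A y)
    refine eps x y hxy h ⟨hf x lx, hf y ly⟩ fun a ha => ?_
    have m : a⁻¹ * (h * a * h⁻¹) ∈ A x := mul_mem (inv_mem ha) (hf x lx ▸ bs.eqv h x a ha)
    have e : (a⁻¹ * (h * a * h⁻¹)) • y = y := by
      rw [mul_smul, mul_smul, mul_smul, inv_smul_eq_iff.2 (hf y ly).symm,
        hf _ (iL x y a (mem_sup_left ha) y ly), inv_smul_smul]
    have := (bs.semi x y _ m e).resolve_right hxy.symm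
    rw [inv_mul_eq_one, eq_mul_inv_iff_mul_eq] at this
    exact this
  · obtain ⟨la, lb, lc, -⟩ := ls x y hxy
    have le : Fl A z w ≤ Fl A x y := sup_le hz hw
    refine le_antisymm le ?_
    have cZ : ∀ c ∈ Zl A x y, ∀ f ∈ Fl A x y, f * c = c * f := fun c hc f hf => hc.2 f hf
    let W : Subgroup G :=
      { carrier := {r | ∃ u ∈ Fl A z w, u ∈ Rl A x y ∧ ∃ c ∈ Zl A x y, r = u * c}
        one_mem' := ⟨1, one_mem _, one_mem _, 1, one_mem _, by simp⟩
        mul_mem' := by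
          rintro _ _ ⟨u, h1, h2, c, hc, rfl⟩ ⟨u', h1', h2', c', hc', rfl⟩
          refine ⟨u * u', mul_mem h1 h1', mul_mem h2 h2', c * c', mul_mem hc hc', ?_⟩
          calc _ = u * (c * u') * c' := by group
            _ = _ := by rw [← cZ c hc u' (le h1')]; group
        inv_mem' := by
          rintro _ ⟨u, h1, h2, c, hc, rfl⟩
          exact ⟨u⁻¹, inv_mem h1, inv_mem h2, c⁻¹, inv_mem hc, by
            rw [cZ c hc u (le h1), mul_inv_rev]⟩ }
    have wR : ∀ r ∈ Rl A x y, ∀ v ∈ W, r * v * r⁻¹ ∈ W := by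
      rintro r hr _ ⟨u, h1, h2, c, hc, rfl⟩
      refine ⟨u, h1, h2, ⁅u⁻¹, r⁆ * c, mul_mem (lb.com _ (inv_mem h2) _ hr) hc, ?_⟩
      calc _ = r * u * (c * r⁻¹) := by group
        _ = _ := by rw [← cZ c hc _ (inv_mem (RF x y hr)), commutatorElement_def]; group
    have wA : ∀ a ∈ A z, ∀ v ∈ W, a * v * a⁻¹ ∈ W := by
      rintro a ha _ ⟨u, h1, h2, c, hc, rfl⟩
      have a1 : a ∈ Fl A z w := mem_sup_left ha
      refine ⟨a * u * a⁻¹, mul_mem (mul_mem a1 h1) (inv_mem a1), nR x y a (hz ha) u h2, c, hc, ?_⟩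
      calc _ = a * u * (c * a⁻¹) := by group
        _ = _ := by rw [← cZ c hc _ (inv_mem (hz ha))]; group
    obtain ⟨r, hr, er⟩ := la.tr z hz
    obtain ⟨r', hr', er'⟩ := la.tr w hw
    have ax : ∀ a ∈ A x, r * a * r⁻¹ ∈ A z := fun a ha => er ▸ bs.eqv r x a ha
    rcases lc.irr W (fun c hc => ⟨1, one_mem _, one_mem _, c, hc, by simp⟩)
      (by rintro _ ⟨u, -, h2, c, hc, rfl⟩; exact mul_mem h2 (la.zle hc))
      (fun a ha v hv => by
        have := wR _ (inv_mem hr) _ (wA _ (ax a ha) _ (wR r hr v hv))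
        rwa [show r⁻¹ * (r * a * r⁻¹ * (r * v * r⁻¹) * (r * a * r⁻¹)⁻¹) * r⁻¹⁻¹ = a * v * a⁻¹ by group]
          at this) with e | e
    · exfalso
      obtain ⟨a, ha, a1⟩ := (nontrivial_iff_exists_ne_one (A z)).1
        (Finite.one_lt_card_iff_nontrivial.1 (by rw [bs.card]; exact bs.pp.one_lt))
      have es : (r' * r⁻¹) • z = w := by rw [mul_smul, ← er, inv_smul_smul, er']
      have hs : r' * r⁻¹ ∈ Rl A x y := mul_mem hr' (inv_mem hr)
      generalize r' * r⁻¹ = s at es hs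
      have m : s * a * s⁻¹ ∈ A w := es ▸ bs.eqv s z a ha
      have c : ⁅s, a⁆ ∈ Zl A x y := e ▸ (show ⁅s, a⁆ ∈ W from
        ⟨_, mul_mem (mem_sup_right m) (mem_sup_left (inv_mem ha)),
          commutator_mem_commutator (RF x y hs) (hz ha), 1, one_mem _, (mul_one _).symm⟩)
      have f : a • w = w := by
        have e2 : a = ⁅s, a⁆⁻¹ * (s * a * s⁻¹) := by rw [commutatorElement_def]; group
        rw [e2, mul_smul, bs.fix w _ m]
        exact kf x y _ (inv_mem c.2) w hw
      rcases bs.semi z w a ha f with h | h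
      · exact a1 h
      · exact hzw h.symm
    · have z2 : Zl A x y ≤ Fl A z w := lc.zd.trans (commutator_le.2 fun s hs s' hs' => by
        obtain ⟨u, h1, -, c, hc, rfl⟩ : s ∈ W := e ▸ hs
        obtain ⟨u', h1', -, c', hc', rfl⟩ : s' ∈ W := e ▸ hs'
        have : ⁅u * c, u' * c'⁆ = ⁅u, u'⁆ := by
          have e1 := cZ c hc _ (RF x y hs')
          have e2 := cZ c' hc' _ (inv_mem (le h1))
          calc _ = u * (c * (u' * c')) * c⁻¹ * u⁻¹ * c'⁻¹ * u'⁻¹ := by rw [commutatorElement_def]; group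
            _ = u * u' * (c' * u⁻¹) * c'⁻¹ * u'⁻¹ := by rw [← e1]; group
            _ = _ := by rw [← e2, commutatorElement_def]; group
        rw [this]
        exact mul_mem (mul_mem (mul_mem h1 h1') (inv_mem h1)) (inv_mem h1'))
      have r2 : Rl A x y ≤ Fl A z w := fun s hs => by
        obtain ⟨u, h1, -, c, hc, rfl⟩ : s ∈ W := e ▸ hs
        exact mul_mem h1 (z2 hc)
      rw [← la.sup]
      refine sup_le r2 fun a ha => ?_
      have := mul_mem (mul_mem (inv_mem (r2 hr)) (mem_sup_left (ax a ha) : _ ∈ Fl A z w)) (r2 hr)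
      rwa [show r⁻¹ * (r * a * r⁻¹) * r = a by group] at this

end Cfsg.Agent.H75.CyQe
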