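import Cfsg.Agent.H56.SpDefs

/-! Lines `SL₂(p)`: the involutions of the class commuting with a commuting pair. -/

set_option autoImplicit false

namespace Cfsg.Agent.H75.CyW1

open Subgroup MulAction Cfsg.Agent.H11.Cy Cfsg.Agent.H56.Sp

theorem zm {n : ℕ} [NeZero n] {a b : Multiplicative (ZMod n)} (ha : a * a = 1) (hb : b * b = 1)
    (a1 : a ≠ 1) (b1 : b ≠ 1) : a = b := by
  have k : ∀ c : Multiplicative (ZMod n), c * c = 1 → c ≠ 1 → 2 * (Multiplicative.toAdd c).val = n :=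
    fun c h h1 => ((ZMod.neg_eq_self_iff _).1 (neg_eq_of_add_eq_zero_left h)).resolve_left h1
  have := (k a ha a1).trans (k b hb b1).symm
  exact ZMod.val_injective n (by omega : (Multiplicative.toAdd a).val = (Multiplicative.toAdd b).val)

theorem w1 : W1Stmt := by
  intro G _ _ Ω _ _ p A h hy uq fi bb x y x' y' z u pr w hw wz wu
  by_contra c
  push Not at c
  obtain ⟨n1, n2, n3⟩ := c
  have ww : w * w = 1 := by obtain ⟨_, _, -, k⟩ := hw; exact k.2.2
  have zz := pr.hz.2.2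
  have lf' := hy.lf x' y' pr.ne'
  have pg' := hy.pg x' y' pr.ne'
  have pg := hy.pg x y pr.ne
  obtain ⟨hz, fz⟩ := hy.cz.hi x' y' pr.ne' u pr.hu z ⟨x, y, pr.ne, pr.hz⟩ pr.zu.symm pr.cm.symm
  obtain ⟨hw', -⟩ := hy.cz.hi x' y' pr.ne' u pr.hu w hw n2 wu
  have fin : ∀ t, w = t * z → t = 1 ∨ IsZ A x' y' t → False := by
    rintro t e (rfl | k)
    · exact n1 (by rw [e, one_mul])
    · exact n3 (by rw [e, lf'.uq t u k pr.hu, pr.cm])
  rcases pg'.dic z hz fz w hw'.1 (by rw [wz]; simpa using one_mem _) with c | ⟨c, -⟩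
  · obtain ⟨-, χ, hχ⟩ := pg'.cyc z hz fz
    have cz : z ∈ Cl A x' y' z := ⟨hz.1, fun t ht => mem_centralizer_singleton_iff.1 ht.2⟩
    have e : χ ⟨w, c⟩ = χ ⟨z, cz⟩ := zm (by rw [← map_mul, ← map_one χ]; congr 1; exact Subtype.ext ww)
      (by rw [← map_mul, ← map_one χ]; congr 1; exact Subtype.ext zz)
      (fun e => hw'.2.2 ((hχ _).1 e)) (fun e => hz.2.2 ((hχ _).1 e))
    have m : w * z ∈ Kl A x' y' := (hχ (⟨w, c⟩ * ⟨z, cz⟩)).1 (by
      rw [map_mul, e, ← map_mul, ← map_one χ]; congr 1; exact Subtype.ext zz)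
    refine fin (w * z) (by rw [mul_assoc, zz, mul_one]) (uq x' y' pr.ne' _ m ?_)
    calc _ = w * (z * w) * z := by group
      _ = (w * w) * (z * z) := by rw [← wz]; group
      _ = 1 := by rw [ww, zz, one_mul]
  · obtain ⟨-, -, t, ht, nt⟩ := bb x y x' y' z u pr
    have tz : t * z = z * t := mem_centralizer_singleton_iff.1 ht.2
    have s : t * w * (t * w) = 1 := by
      calc _ = t * (w * t * w⁻¹) * (w * w) := by group
        _ = 1 := by rw [c t ht, ww]; group
    obtain ⟨i, -⟩ := fi x' y' pr.ne' u pr.hu w hw n2 wu t ht.1 s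
    have ne : t * w ≠ z := fun e => by
      have e1 : w = t⁻¹ * z := by rw [← e]; group
      have e2 : t⁻¹ = t := by
        rw [← c t ht, e1]
        calc _ = t⁻¹ * (z * t) * z⁻¹ * t := by group
          _ = t := by rw [← tz]; group
      rw [e2] at e1
      refine fin t e1 ?_
      by_cases t1 : t = 1
      · exact Or.inl t1
      · exact Or.inr ⟨ht.1, t1, by rw [← mul_inv_cancel t, e2]⟩
    obtain ⟨a1, a2⟩ := hy.cz.hi x y pr.ne z pr.hz w hw n1 wz
    obtain ⟨b1, b2⟩ := hy.cz.hi x y pr.ne z pr.hz _ i ne (by rw [mul_assoc, wz, ← mul_assoc, tz, mul_assoc])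
    have e := ((pg.par w a1).1 a2).trans ((pg.par _ b1).1 b2).symm
    by_cases k : FK A x y w
    · obtain ⟨f', hf', k', hk', e'⟩ := e.1 k
      obtain ⟨f, hf, k, hk, e''⟩ := k
      refine nt ⟨f' * f⁻¹, mul_mem hf' (inv_mem hf), k' * k⁻¹, mul_mem hk' (inv_mem hk), ?_⟩
      have q := (mul_mem hk' (inv_mem hk)) _ (inv_mem hf)
      calc t = t * w * w⁻¹ := by group
        _ = f' * (k' * k⁻¹ * f⁻¹) := by rw [e', e'']; group
        _ = _ := by rw [← q]; group
    · have := pg.idx _ b1.1 w a1.1 (fun q => k (e.2 q)) k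
      rw [mul_assoc, ww, mul_one] at this
      exact nt this

end Cfsg.Agent.H75.CyW1
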