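import Cfsg.Agent.H53.DgDefs
import Cfsg.Agent.H79.QuadClass

/-!
# Similitudes of an orthogonal space and the stabiliser of a point
-/

set_option autoImplicit false

namespace Cfsg.Agent.H75.DgM

open Module Cfsg.Agent.H26 Cfsg.Agent.H26.PForm Cfsg.Agent.H78 Cfsg.Agent.H53.Dg

variable {F V : Type} [Field F] [AddCommGroup V] [Module F V] {P : PForm F V}

/-- The form is orthogonal. -/
structure Ort (P : PForm F V) : Prop where
  sig : ∀ a, P.σ a = a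
  eps : P.ε = 1
  lam : P.Λ = ⊥

theorem ort_of {w e : ℕ} (T : Ty P false w e) : Ort P := ⟨T.sig, (T.orth rfl).1, (T.orth rfl).2.1⟩

namespace Ort

variable (O : Ort P)
include O

theorem mem {a : F} : a ∈ P.Λ ↔ a = 0 := by rw [O.lam, AddSubgroup.mem_bot]

theorem h_add (x y : V) : P.h (x + y) = P.h x + P.h y + P.f x y := by
  linear_combination O.mem.1 (P.h_add x y)

theorem h_smul (c : F) (x : V) : P.h (c • x) = c * c * P.h x := by
  have := O.mem.1 (P.h_smul c x)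
  rw [O.sig] at this
  linear_combination this

theorem symm (x y : V) : P.f x y = P.f y x := by rw [P.herm, O.eps, O.sig, one_mul]

theorem smul_right (c : F) (x y : V) : P.f x (c • y) = c * P.f x y := by
  rw [f_smul_right, O.sig]

theorem f_of {g : V ≃ₗ[F] V} {μ : F} (h : ∀ x, P.h (g x) = μ * P.h x) (x y : V) :
    P.f (g x) (g y) = μ * P.f x y := by
  have := h (x + y)
  rw [map_add, O.h_add, O.h_add, h, h] at this
  linear_combination this

theorem mem_isom {g : V ≃ₗ[F] V} : g ∈ P.isom ↔ ∀ x, P.h (g x) = P.h x :=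
  ⟨fun h x => sub_eq_zero.1 (O.mem.1 (h.2 x)), fun h =>
    ⟨fun x y => (O.f_of (μ := 1) (fun x => by rw [h, one_mul]) x y).trans (one_mul _),
      fun x => O.mem.2 (sub_eq_zero.2 (h x))⟩⟩

theorem polar_h (x y : V) : QuadraticMap.polar P.h x y = P.f x y := by
  rw [QuadraticMap.polar, O.h_add]; ring

/-- The quadratic form. -/
def toQ : QuadraticForm F V := QuadraticMap.ofPolar P.h O.h_smul
  (fun _ _ _ => by simp only [O.polar_h, P.f_add_left])
  fun _ _ _ => by simp only [O.polar_h, P.f_smul_left, smul_eq_mul]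

end Ort

theorem sim : SimStmt := by
  intro F V _ _ _ _ _ P w e μ T h1 h0
  have O := ort_of T
  obtain ⟨-, -, h2, h3⟩ := T.orth rfl
  exact H79.iso_smul_of_even (m := w + e / 2) (by omega) O.toQ
    (fun x hx => eq_zero_of_f_left (P := P) fun y => (O.polar_h x y).symm.trans (hx y)) h0

variable (P) in
/-- The group of similitudes. -/
def Γ : Subgroup (V ≃ₗ[F] V) where
  carrier := {g | ∃ μ, μ ≠ 0 ∧ ∀ x, P.h (g x) = μ * P.h x}
  one_mem' := ⟨1, one_ne_zero, fun _ => (one_mul _).symm⟩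
  mul_mem' := fun ⟨a, ha, h⟩ ⟨b, hb, k⟩ =>
    ⟨a * b, mul_ne_zero ha hb, fun x => by rw [mul_apply', h, k, mul_assoc]⟩
  inv_mem' := fun {g} ⟨a, ha, h⟩ => ⟨a⁻¹, inv_ne_zero ha, fun x => by
    rw [eq_inv_mul_iff_mul_eq₀ ha, ← h, apply_inv_apply]⟩

theorem Ort.isom_le (O : Ort P) : P.isom ≤ Γ P := fun _ hg =>
  ⟨1, one_ne_zero, fun x => by rw [O.mem_isom.1 hg, one_mul]⟩

theorem Ort.sim (O : Ort P) {g : V ≃ₗ[F] V} (hg : g ∈ Γ P) : Sim P g := by
  obtain ⟨μ, -, h⟩ := hg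
  exact ⟨fun x y e => by rw [O.f_of h, e, mul_zero],
    fun x hx => O.mem.2 (by rw [h, O.mem.1 hx, mul_zero])⟩

theorem Ort.conj_E (O : Ort P) {g k : V ≃ₗ[F] V} (hg : g ∈ Γ P) (hk : k ∈ P.E) :
    g * k * g⁻¹ ∈ P.E := by
  obtain ⟨μ, h0, h⟩ := hg
  refine E_induction (p := fun k => g * k * g⁻¹ ∈ P.E) (fun e y ν ev => ?_) (by simp)
    (fun a b _ _ ha hb => ?_) hk
  · have ev' : P.EV (g e) (μ⁻¹ • g y) (μ⁻¹ * ν) :=
      ⟨O.mem.2 (by rw [h, O.mem.1 ev.sing, mul_zero]),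
        by rw [P.f_smul_left, O.f_of h, ev.orth, mul_zero, mul_zero], O.mem.2 (by
          rw [O.h_smul, h, sub_eq_zero.1 (O.mem.1 ev.nu)]; field_simp; ring)⟩
    convert ev'.equiv_mem_E using 1
    ext x
    obtain ⟨x, rfl⟩ := g.surjective x
    rw [mul_apply', inv_apply_apply, mul_apply', EV.equiv_apply, EV.equiv_apply, eich_apply,
      eich_apply, O.smul_right, O.f_of h, O.f_of h, map_sub, map_add, map_smul, map_smul, smul_smul]
    congr 2
    · congr 1; field_simp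
    · field_simp
  · convert P.E.mul_mem ha hb using 1
    group

theorem mem_stab_span {e : V} (h0 : e ≠ 0) {g : V ≃ₗ[F] V} :
    g ∈ stabSub (F ∙ e) ↔ ∃ c : F, g e = c • e := by
  refine ⟨fun h => (Submodule.mem_span_singleton.1
    ((h e).1 (Submodule.mem_span_singleton_self e))).imp fun _ => Eq.symm, fun ⟨c, hc⟩ x => ?_⟩
  have c0 : c ≠ 0 := fun e => h0 (g.map_eq_zero_iff.1 (by rw [hc, e, zero_smul]))
  simp only [Submodule.mem_span_singleton]
  refine ⟨fun ⟨a, ha⟩ => ⟨a * c, by rw [← ha, map_smul, hc, smul_smul]⟩,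
    fun ⟨a, ha⟩ => ⟨a / c, g.injective ?_⟩⟩
  rw [map_smul, hc, smul_smul, div_mul_cancel₀ _ c0, ha]

/-- The hyperbolic pair of a Levi decomposition. -/
structure Dt (L : Lev P 1) where
  O : Ort P
  e : V
  e' : V
  hX : L.X = F ∙ e
  hX' : L.X' = F ∙ e'
  one : P.f e e' = 1

theorem exists_dt (O : Ort P) (L : Lev P 1) : Nonempty (Dt L) := by
  have a : ∀ X : Submodule F V, finrank F X = 1 → ∃ e, e ≠ 0 ∧ X = F ∙ e := fun X h => by
    obtain ⟨e, he, h0⟩ := X.exists_mem_ne_zero_of_ne_bot fun e => by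
      rw [e, finrank_bot] at h; omega
    exact ⟨e, h0, eq_span_singleton_of_mem_of_finrank_eq_one h he h0⟩
  obtain ⟨e, h0, h⟩ := a _ L.dim
  obtain ⟨e', -, h'⟩ := a _ L.dim'
  have n : P.f e e' ≠ 0 := fun n => h0 ((Submodule.eq_bot_iff _).1 L.opp e
    ⟨h ▸ Submodule.mem_span_singleton_self e, by rw [h']; exact mem_perp_span_singleton.2 n⟩)
  exact ⟨⟨O, e, (P.f e e')⁻¹ • e', h,
    by rw [h', Submodule.span_singleton_smul_eq (inv_ne_zero n).isUnit],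
    by rw [O.smul_right, inv_mul_cancel₀ n]⟩⟩

namespace Dt

variable {L : Lev P 1} (D : Dt L)

theorem e_mem : D.e ∈ L.X := by rw [D.hX]; exact Submodule.mem_span_singleton_self _

theorem e'_mem : D.e' ∈ L.X' := by rw [D.hX']; exact Submodule.mem_span_singleton_self _

theorem he : P.h D.e = 0 := D.O.mem.1 (L.ts.1 _ D.e_mem)

theorem fe : P.f D.e D.e = 0 := (L.ts.1 _ D.e_mem).f_self

theorem fe' : P.f D.e' D.e' = 0 := (L.ts'.1 _ D.e'_mem).f_self

theorem one' : P.f D.e' D.e = 1 := by rw [D.O.symm, D.one]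

theorem e_ne : D.e ≠ 0 := fun h => by simpa [h, P.f_zero_left] using D.one

theorem e'_ne : D.e' ≠ 0 := fun h => by simpa [h, P.f_zero_left] using D.one'

theorem mem_X {v : V} : v ∈ L.X ↔ ∃ c : F, c • D.e = v := by
  rw [D.hX, Submodule.mem_span_singleton]

theorem mem_perp {v : V} : v ∈ P.perp L.X ↔ P.f v D.e = 0 := by
  rw [D.hX, mem_perp_span_singleton]

theorem mem_W {v : V} : v ∈ L.W ↔ P.f v D.e = 0 ∧ P.f v D.e' = 0 := by
  rw [Lev.W, perp_sup, Submodule.mem_inf, D.mem_perp, D.hX', mem_perp_span_singleton]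

theorem stab_iff {g : V ≃ₗ[F] V} : g ∈ stabSub L.X ↔ ∃ c : F, g D.e = c • D.e := by
  rw [D.hX, mem_stab_span D.e_ne]

theorem stab_iff' {g : V ≃ₗ[F] V} : g ∈ stabSub L.X' ↔ ∃ c : F, g D.e' = c • D.e' := by
  rw [D.hX', mem_stab_span D.e'_ne]

/-- The projection onto the complement. -/
noncomputable def π : V →ₗ[F] L.W :=
  (LinearMap.id - (P.fL D.e').smulRight D.e - (P.fL D.e).smulRight D.e').codRestrict _ fun v =>
    D.mem_W.2 (by simp [fL_apply, f_sub_left, P.f_smul_left, D.fe, D.fe', D.one, D.one'])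

theorem π_apply (v : V) : (D.π v : V) = v - P.f v D.e' • D.e - P.f v D.e • D.e' := rfl

theorem π_perp {v : V} (h : P.f v D.e = 0) : v = D.π v + P.f v D.e' • D.e := by
  rw [π_apply, h, zero_smul, sub_zero, sub_add_cancel]

theorem W_e (w : L.W) : P.f w D.e = 0 := (D.mem_W.1 w.2).1

theorem W_e' (w : L.W) : P.f w D.e' = 0 := (D.mem_W.1 w.2).2

theorem π_W (w : L.W) : D.π w = w := Subtype.ext (by simp [π_apply, D.W_e, D.W_e'])

theorem π_e : D.π D.e = 0 := Subtype.ext (by simp [π_apply, D.fe, D.one])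

theorem h_π {v : V} (h : P.f v D.e = 0) : P.h (D.π v) = P.h v := by
  conv_rhs => rw [D.π_perp h, D.O.h_add, D.O.h_smul, D.he, D.O.smul_right, D.W_e]
  ring

theorem f_π {v v' : V} (h : P.f v D.e = 0) (h' : P.f v' D.e = 0) :
    P.f (D.π v) (D.π v') = P.f v v' := by
  conv_rhs => rw [D.π_perp h, P.f_add_left, P.f_smul_left, D.O.symm D.e, h', D.π_perp h',
    f_add_right, D.O.smul_right, D.W_e]
  ring

/-- The multiplier. -/
def μ (g : V ≃ₗ[F] V) : F := P.f (g D.e) (g D.e')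

theorem μ_eq {g : V ≃ₗ[F] V} {m : F} (h : ∀ x, P.h (g x) = m * P.h x) : D.μ g = m := by
  rw [μ, D.O.f_of h, D.one, mul_one]

theorem μ_h {g : V ≃ₗ[F] V} (hg : g ∈ Γ P) (x : V) : P.h (g x) = D.μ g * P.h x := by
  obtain ⟨m, -, h⟩ := hg
  rw [D.μ_eq h, h]

theorem μ_f {g : V ≃ₗ[F] V} (hg : g ∈ Γ P) (x y : V) : P.f (g x) (g y) = D.μ g * P.f x y :=
  D.O.f_of (D.μ_h hg) x y

theorem μ_ne {g : V ≃ₗ[F] V} (hg : g ∈ Γ P) : D.μ g ≠ 0 := by
  obtain ⟨m, h0, h⟩ := hg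
  rwa [D.μ_eq h]

theorem μ_mul {g : V ≃ₗ[F] V} (hg : g ∈ Γ P) (k : V ≃ₗ[F] V) : D.μ (g * k) = D.μ g * D.μ k :=
  D.μ_f hg _ _

theorem μ_one {g : V ≃ₗ[F] V} (hg : g ∈ Γ P) : D.μ g = 1 ↔ g ∈ P.isom :=
  ⟨fun h => D.O.mem_isom.2 fun x => by rw [D.μ_h hg, h, one_mul],
    fun h => D.μ_eq fun x => by rw [D.O.mem_isom.1 h, one_mul]⟩

theorem ex (g : stab (Γ P) L.X) : ∃ c : F, g.1.1 D.e = c • D.e := D.stab_iff.1 g.2

theorem perp_iff (g : stab (Γ P) L.X) (v : V) : P.f (g.1.1 v) D.e = 0 ↔ P.f v D.e = 0 := by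
  obtain ⟨c, hc⟩ := D.ex g
  have c0 : c ≠ 0 := fun e => D.e_ne (g.1.1.map_eq_zero_iff.1 (by rw [hc, e, zero_smul]))
  have := D.μ_f g.1.2 v D.e
  rw [hc, D.O.smul_right] at this
  rw [← mul_eq_zero_iff_left c0, this, mul_eq_zero_iff_left (D.μ_ne g.1.2)]

theorem π_π (g : stab (Γ P) L.X) {v : V} (h : P.f v D.e = 0) :
    D.π (g.1.1 (D.π v)) = D.π (g.1.1 v) := by
  obtain ⟨c, hc⟩ := D.ex g
  conv_rhs => rw [D.π_perp h, map_add, map_add, map_smul, map_smul, hc, map_smul, D.π_e]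
  simp

/-- The action on the complement. -/
noncomputable def τ0 : stab (Γ P) L.X →* Module.End F L.W where
  toFun g := D.π ∘ₗ g.1.1.toLinearMap ∘ₗ L.W.subtype
  map_one' := LinearMap.ext D.π_W
  map_mul' g k := LinearMap.ext fun w => (D.π_π g ((D.perp_iff k w).2 (D.W_e w))).symm

/-- The action on the complement by linear automorphisms. -/
noncomputable def τ : stab (Γ P) L.X →* L.W ≃ₗ[F] L.W :=
  (LinearMap.GeneralLinearGroup.generalLinearEquiv F L.W).toMonoidHom.comp D.τ0.toHomUnits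

theorem τ_apply (g : stab (Γ P) L.X) (w : L.W) : D.τ g w = D.π (g.1.1 w) := rfl

theorem τ_sim (g : stab (Γ P) L.X) : Sim L.PW (D.τ g) := by
  have a := fun w : L.W => (D.perp_iff g w).2 (D.W_e w)
  exact ⟨fun x y h => (D.f_π (a x) (a y)).trans ((D.O.sim g.1.2).1 _ _ h),
    fun x h => D.O.mem.2 ((D.h_π (a x)).trans (D.O.mem.1 ((D.O.sim g.1.2).2 _ h)))⟩

theorem τ_pr (g : stab (Γ P) L.X) (hg : g.1.1 ∈ P.isom) : D.τ g = (L.pr g.1.1).1 := by
  ext w
  obtain ⟨c, hc⟩ := D.mem_X.1 (L.pr_spec _ hg g.2 w)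
  rw [τ_apply, sub_eq_iff_eq_add.1 hc.symm, map_add, map_smul, D.π_e, smul_zero, zero_add, D.π_W]

/-- The subspace above a subspace of the complement. -/
noncomputable def B (Z : Submodule F L.W) : Submodule F V := Z.comap D.π ⊓ P.perp L.X

theorem mem_B {Z : Submodule F L.W} {v : V} : v ∈ D.B Z ↔ D.π v ∈ Z ∧ P.f v D.e = 0 :=
  and_congr Iff.rfl D.mem_perp

theorem coe_mem_B {Z : Submodule F L.W} {w : L.W} : w.1 ∈ D.B Z ↔ w ∈ Z := by
  rw [mem_B, D.π_W, and_iff_left (D.W_e w)]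

theorem X_le_B (Z : Submodule F L.W) : L.X ≤ D.B Z := fun v hv => by
  obtain ⟨c, rfl⟩ := D.mem_X.1 hv
  exact Submodule.smul_mem _ _ (D.mem_B.2 ⟨D.π_e ▸ Z.zero_mem, D.fe⟩)

theorem B_comap {Y : Submodule F V} (h : L.X ≤ Y) (h' : Y ≤ P.perp L.X) :
    D.B (Y.comap L.W.subtype) = Y := by
  ext v
  have a : P.f v D.e = 0 → ((D.π v : V) ∈ Y ↔ v ∈ Y) := fun a => by
    conv_rhs => rw [D.π_perp a]
    exact (Y.add_mem_iff_left (Y.smul_mem _ (h D.e_mem))).symm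
  exact D.mem_B.trans ⟨fun k => (a k.2).1 k.1, fun k =>
    ⟨(a (D.mem_perp.1 (h' k))).2 k, D.mem_perp.1 (h' k)⟩⟩

theorem finrank_B [Finite V] (Z : Submodule F L.W) : finrank F (D.B Z) = finrank F Z + 1 := by
  have e : D.B Z = Z.map L.W.subtype ⊔ L.X := le_antisymm (fun v hv => by
    rw [D.π_perp (D.mem_B.1 hv).2]
    exact Submodule.add_mem_sup ⟨_, (D.mem_B.1 hv).1, rfl⟩ (L.X.smul_mem _ D.e_mem))
    (sup_le (by rintro _ ⟨w, hw, rfl⟩; exact D.coe_mem_B.2 hw) (D.X_le_B Z))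
  have d : Z.map L.W.subtype ⊓ L.X = ⊥ := (Submodule.eq_bot_iff _).2 (by
    rintro _ ⟨⟨w, -, rfl⟩, h⟩
    obtain ⟨c, hc⟩ := D.mem_X.1 h
    have := D.W_e' w
    rw [show w.1 = _ from hc.symm, P.f_smul_left, D.one, mul_one] at this
    rw [← hc, this, zero_smul])
  have := Submodule.finrank_sup_add_finrank_inf_eq (Z.map L.W.subtype) L.X
  rw [d, finrank_bot, Submodule.finrank_map_subtype_eq, L.dim] at this
  rw [e]; exact this

theorem ts_B {Z : Submodule F L.W} : TS P (D.B Z) ↔ TS L.PW Z :=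
  ⟨fun h => ⟨fun w hw => h.1 w (D.coe_mem_B.2 hw),
    fun _ hw _ hw' => h.2 (D.coe_mem_B.2 hw) _ (D.coe_mem_B.2 hw')⟩,
  fun h => ⟨fun _ hv => D.O.mem.2 ((D.h_π (D.mem_B.1 hv).2).symm.trans
      (D.O.mem.1 (h.1 _ (D.mem_B.1 hv).1))),
    fun _ hv _ hv' => (D.f_π (D.mem_B.1 hv).2 (D.mem_B.1 hv').2).symm.trans
      (h.2 (D.mem_B.1 hv).1 _ (D.mem_B.1 hv').1)⟩⟩

theorem stab_B (g : stab (Γ P) L.X) {Z : Submodule F L.W} :
    g.1.1 ∈ stabSub (D.B Z) ↔ D.τ g ∈ stabSub Z := by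
  refine ⟨fun h w => D.coe_mem_B.symm.trans ((h w).trans (D.mem_B.trans
    (and_iff_left ((D.perp_iff g w).2 (D.W_e w))))), fun h v => ?_⟩
  rw [mem_B, mem_B, D.perp_iff]
  exact and_congr_left fun a => (h _).trans (by rw [τ_apply, D.π_π g a])

theorem npt_eq [Finite V] (g : stab (Γ P) L.X) : npt P L.X g.1.1 = npt L.PW ⊥ (D.τ g) := by
  refine (Nat.card_eq_of_bijective (fun Z => ⟨D.B Z.1, D.ts_B.2 Z.2.1, D.X_le_B _,
    by rw [D.finrank_B, Z.2.2.2.1, finrank_bot, L.dim], (D.stab_B g).2 Z.2.2.2.2⟩)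
    ⟨fun Z Z' e => Subtype.ext (Submodule.ext fun w => ?_), fun ⟨Y, h1, h2, h3, h4⟩ => ?_⟩).symm
  · rw [← D.coe_mem_B, show D.B Z.1 = _ from congrArg Subtype.val e, D.coe_mem_B]
  · have e := D.B_comap h2 (h1.2.trans (perp_anti h2))
    rw [← e] at h1 h3 h4
    rw [D.finrank_B, L.dim] at h3
    exact ⟨⟨_, D.ts_B.1 h1, bot_le, by rw [finrank_bot]; omega, (D.stab_B g).1 h4⟩, Subtype.ext e⟩

end Dt

end Cfsg.Agent.H75.DgM
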