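import Mathlib
import Cfsg.Agent.H11.ElDefs

set_option autoImplicit false

namespace Cfsg.Agent.H75.ElNu

open Subgroup Cfsg.Agent.H11.EL

universe u

theorem compl {K : Type*} [Group K] [Finite K] (k : K) (hk : orderOf k = 11)
    (hn : ∀ n : K, n ∈ normalizer ((zpowers k : Subgroup K) : Set K) → n ∈ zpowers k)
    (hne : zpowers k ≠ ⊤) : ∃ N : Subgroup K, N.Normal ∧ N ≠ ⊥ ∧ ¬ 11 ∣ Nat.card N := by
  haveI : Fact (Nat.Prime 11) := ⟨by norm_num⟩
  have hc : Nat.card (zpowers k) = 11 := by rw [Nat.card_zpowers, hk]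
  have hN : normalizer ((zpowers k : Subgroup K) : Set K) = zpowers k :=
    le_antisymm hn le_normalizer
  have h2 : ¬ 11 ^ (1 + 1) ∣ Nat.card K := by
    intro h
    have := Sylow.prime_pow_dvd_card_normalizer h (H := zpowers k) (by rw [hc]; norm_num)
    rw [hN, hc] at this
    revert this
    norm_num
  have hi : ¬ 11 ∣ (zpowers k).index := by
    intro h
    apply h2
    rw [← (zpowers k).card_mul_index, hc, pow_succ, pow_one]
    exact Nat.mul_dvd_mul_left 11 h
  have hp : IsPGroup 11 (zpowers k) := IsPGroup.of_card (n := 1) (by rw [hc]; norm_num)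
  let P : Sylow 11 K := hp.toSylow hi
  have hP : normalizer ((P : Subgroup K) : Set K) ≤ centralizer ((P : Subgroup K) : Set K) := by
    change normalizer ((zpowers k : Subgroup K) : Set K) ≤
      centralizer ((zpowers k : Subgroup K) : Set K)
    rw [hN]
    intro x hx
    rw [mem_centralizer_iff]
    intro y hy
    obtain ⟨i, rfl⟩ := mem_zpowers_iff.mp hx
    obtain ⟨j, rfl⟩ := mem_zpowers_iff.mp hy
    exact (Commute.zpow_zpow_self k j i).eq
  refine ⟨(MonoidHom.transferSylow P hP).ker, inferInstance, fun h => hne ?_,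
    MonoidHom.not_dvd_card_ker_transferSylow P hP⟩
  have h3 := MonoidHom.ker_transferSylow_isComplement' P hP
  rw [h] at h3
  exact isComplement'_bot_left.1 h3

theorem core {K W : Type*} [Group K] [Finite K] [CommGroup W] [Finite W] (φ : K →* MulAut W)
    (A : Subgroup W) (N : Subgroup K) [N.Normal] (k : K) (hk : k ^ 11 = 1) (hN : N ≠ ⊥)
    (h11 : ¬ 11 ∣ Nat.card N) (hA : Nat.card A = 11) (hne : A ≠ ⊤) (hel : ∀ w : W, w ^ 11 ∈ A)
    (hfix : ∀ c : K, ∀ a ∈ A, φ c a = a)
    (hc : ∀ c ∈ N, c ≠ 1 → ∀ w : W, φ c w = w → w ∈ A) (hkw : ∀ w : W, φ k w = w → w ∈ A) :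
    False := by
  classical
  haveI : Fact (Nat.Prime 11) := ⟨by norm_num⟩
  haveI : Fintype N := Fintype.ofFinite N
  let ν : W →* W := MonoidHom.mk' (fun w => ∏ c : N, φ c w) fun a b => by
    simp only [map_mul, Finset.prod_mul_distrib]
  have hν : ∀ w, ν w = ∏ c : N, φ c w := fun _ => rfl
  obtain ⟨⟨c₀, hc₀⟩, hc₁⟩ := ne_bot_iff_exists_ne_one.1 hN
  have hc₂ : c₀ ≠ 1 := fun h => hc₁ (Subtype.ext h)
  have νA : ∀ w, ν w ∈ A := by
    intro w
    refine hc c₀ hc₀ hc₂ _ ?_
    rw [hν, map_prod]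
    refine Fintype.prod_equiv (Equiv.mulLeft (⟨c₀, hc₀⟩ : N)) _ _ fun c => ?_
    simp [map_mul]
  have νa : ∀ a ∈ A, ν a = a ^ Nat.card N := by
    intro a ha
    rw [hν, Finset.prod_congr rfl fun (c : N) _ => hfix c a ha, Finset.prod_const,
      Finset.card_univ, Nat.card_eq_fintype_card]
  have cop : (Nat.card A).Coprime (Nat.card N) := by
    rw [hA]; exact (Nat.Prime.coprime_iff_not_dvd (by norm_num)).2 h11
  have νk : ∀ w, ν (φ k w) = φ k (ν w) := by
    intro w
    rw [hν, hν, map_prod]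
    refine Fintype.prod_equiv (MulAut.conjNormal k⁻¹ : MulAut N).toEquiv _ _ fun c => ?_
    simp [map_mul]
  obtain ⟨w, hw⟩ : ∃ w, w ∉ A := by
    by_contra h
    push Not at h
    exact hne (eq_top_iff.2 fun x _ => h x)
  obtain ⟨a, ha⟩ := (powCoprime cop).surjective ⟨ν w, νA w⟩
  have ha' : (a : W) ^ Nat.card N = ν w := congrArg Subtype.val ha
  have hw1 : w * (a : W)⁻¹ ∈ ν.ker := by
    rw [MonoidHom.mem_ker, map_mul, map_inv, νa a a.2, ha', mul_inv_cancel]
  have hw2 : w * (a : W)⁻¹ ≠ 1 := fun h => hw (by rw [mul_inv_eq_one.1 h]; exact a.2)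
  have hd : 11 ∣ Nat.card ν.ker := by
    have h1 : (w * (a : W)⁻¹) ^ 11 ^ 2 = 1 := by
      have h2 : (⟨_, hel (w * (a : W)⁻¹)⟩ : A) ^ Nat.card A = 1 := pow_card_eq_one'
      rw [hA] at h2
      have h3 := congrArg Subtype.val h2
      rw [pow_two, pow_mul]
      exact h3
    obtain ⟨i, -, hi⟩ := (Nat.dvd_prime_pow (by norm_num : Nat.Prime 11)).1
      (orderOf_dvd_of_pow_eq_one h1)
    have h4 : i ≠ 0 := by
      rintro rfl
      exact hw2 (orderOf_eq_one_iff.1 hi)
    exact (hi ▸ dvd_pow_self 11 h4 : 11 ∣ orderOf (w * (a : W)⁻¹)).trans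
      (orderOf_dvd_natCard _ hw1)
  haveI : Fintype ν.ker := Fintype.ofFinite _
  let τ : Equiv.Perm W := (φ k).toEquiv
  have hτ : ∀ x, τ x ∈ ν.ker ↔ x ∈ ν.ker := by
    intro x
    change ν (φ k x) = 1 ↔ ν x = 1
    rw [νk]
    exact map_eq_one_iff _ (φ k).injective
  let σ : Equiv.Perm ν.ker := τ.subtypePerm hτ
  have hτ1 : τ ^ 11 = 1 := by
    have : τ = MulAut.toPerm W (φ k) := rfl
    rw [this, ← map_pow, ← map_pow, hk, map_one, map_one]
  have hσ : σ ^ 11 ^ 1 = 1 := by
    rw [pow_one, Equiv.Perm.subtypePerm_pow]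
    ext x
    simp [hτ1]
  obtain ⟨b, hb, hb1⟩ := Equiv.Perm.exists_fixed_point_of_prime'
    (p := 11) (by rw [← Nat.card_eq_fintype_card]; exact hd) hσ (a := 1)
    (Subtype.ext (map_one (φ k)))
  have hbA : (b : W) ∈ A := hkw b (congrArg Subtype.val hb)
  have h5 : (b : W) ^ Nat.card N = 1 := by rw [← νa _ hbA]; exact b.2
  apply hb1
  have h6 : (⟨b, hbA⟩ : A) = 1 := by
    apply (powCoprime cop).injective
    rw [powCoprime_one]
    exact Subtype.ext h5
  have h7 : (b : W) = 1 := congrArg Subtype.val h6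
  exact Subtype.ext h7

theorem nu : NUStmt.{u} := by
  intro G _ _ A W K k hA hW hab hK hk ho hn hne hc hkw
  have hKW : K ≤ Nm W := fun c hcK => hW.nm (centralizer_le_normalizer _ (hK hcK))
  obtain ⟨N, hN, hN1, hN2⟩ := compl (⟨k, hk⟩ : K) (by rw [← ho]; exact (orderOf_coe _).symm)
    (by
      intro n h
      have h1 : (n : G) ∈ Nm (zpowers k) := by
        rw [← cj_eq_iff]
        have h2 := congrArg (map K.subtype) (cj_eq_iff.2 h)
        rw [MonoidHom.map_zpowers, cj, MonoidHom.map_zpowers, MonoidHom.map_zpowers] at h2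
        rw [cj, MonoidHom.map_zpowers]
        exact h2
      obtain ⟨i, hi⟩ := mem_zpowers_iff.1 (hn n n.2 h1)
      exact mem_zpowers_iff.2 ⟨i, Subtype.ext (by simpa using hi)⟩)
    (by
      intro h
      apply hne
      have h2 := congrArg (map K.subtype) h
      rw [MonoidHom.map_zpowers, ← MonoidHom.range_eq_map, range_subtype] at h2
      exact h2.symm)
  letI : CommGroup W := { (inferInstance : Group W) with
    mul_comm := fun x y => Subtype.ext (hab x x.2 y y.2).eq }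
  let φ : K →* MulAut W := W.normalizerMonoidHom.comp (inclusion hKW)
  have hφ : ∀ (c : K) (w : W), ((φ c w : W) : G) = c * w * (c : G)⁻¹ := fun _ _ => rfl
  have hcm : ∀ (c : K) (w : W), φ c w = w → Commute (w : G) c := by
    intro c w h
    have h1 := hφ c w
    rw [h] at h1
    exact (mul_inv_eq_iff_eq_mul.1 h1.symm).symm
  refine core φ (A.subgroupOf W) N ⟨k, hk⟩ ?_ hN1 hN2 ?_ ?_ (fun w => hW.el w w.2) ?_ ?_ ?_
  · apply Subtype.ext
    have := pow_orderOf_eq_one k
    rw [ho] at this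
    simpa using this
  · rw [← hA]; exact Nat.card_congr (subgroupOfEquivOfLe hW.le).toEquiv
  · intro h
    exact hW.ne (le_antisymm hW.le (subgroupOf_eq_top.1 h))
  · intro c a ha
    apply Subtype.ext
    rw [hφ, mul_inv_eq_iff_eq_mul]
    exact ((hK c.2) a ha).symm
  · intro c hcN hc1 w hw
    refine hc c c.2 (fun h => hc1 (Subtype.ext h)) (fun h => hN2 ?_) w w.2 (hcm c w hw)
    rw [orderOf_coe] at h
    exact h.trans (orderOf_dvd_natCard _ hcN)
  · intro w hw
    exact hkw w w.2 (hcm _ w hw)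

end Cfsg.Agent.H75.ElNu
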