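import Cfsg.Agent.H2.FXDefs

set_option autoImplicit false

namespace Cfsg.Agent.H75.FXSz

open Module Cfsg.Agent.H50.E83 Cfsg.Agent.H2FX

universe u

theorem cyc {U : Type u} [Group U] [Finite U] (ψ : U →* G0) {n : ℕ} (hn : n.Prime)
    (hc : Nat.card U = n) : ∃ g : G0, g ^ n = 1 ∧
      mu (ι g) 1 ≤ finrank K (H50.E83.Fix (Set.range fun g => ι (ψ g))) := by
  haveI := Fact.mk hn
  haveI := isCyclic_of_prime_card hc
  obtain ⟨g, hg⟩ := IsCyclic.exists_monoid_generator (α := U)
  refine ⟨ψ g, by rw [← map_pow, ← hc, pow_card_eq_one', map_one], Submodule.finrank_mono ?_⟩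
  intro v hv
  rw [mem_eig, one_smul] at hv
  rw [mem_Fix]
  rintro _ ⟨x, rfl⟩
  obtain ⟨k, rfl⟩ := hg x
  dsimp only
  induction k with
  | zero => simp
  | succ k ih => rw [pow_succ, map_mul, map_mul, map_mul, Module.End.mul_apply, hv, ih]

theorem szFix (bri : BriStmt) (sub : SubStmt.{u}) (dim : DimStmt) (num : SzNumStmt.{u})
    (sum : SzSumStmt.{u}) : SzFixStmt.{u} := by
  intro Γ _ hΓ φ _
  classical
  haveI : Finite Γ := Nat.finite_of_card_ne_zero (by rw [hΓ.1]; norm_num)
  haveI : Fintype Γ := Fintype.ofFinite Γ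
  obtain ⟨L, hL⟩ := bri
  obtain ⟨s1, -, s3⟩ := sub L hL
  obtain ⟨n1, n2, n3, n4⟩ := num Γ hΓ
  have key := sum Γ hΓ (fun g => L (og (φ g)))
    (fun U => finrank K (H50.E83.Fix (Set.range fun g : U => ι ((φ.comp U.subtype) g))))
    (fun n => if n = 5 then 48 else if n = 7 then 38 else if n = 13 then 20 else 0)
    (by simp only [map_one]; exact s1)
    (by
      intro U
      have h3 : ¬ 3 ∣ Fintype.card U := by
        intro h
        have h1 := U.card_subgroup_dvd_card
        rw [hΓ.1, Nat.card_eq_fintype_card] at h1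
        have := h.trans h1
        revert this
        norm_num
      rw [finsum_eq_sum_of_fintype, Nat.card_eq_fintype_card]
      exact s3 U (φ.comp U.subtype) h3)
    (by
      intro U
      split_ifs with h5 h7 h13
      · obtain ⟨g, h1, h2⟩ := cyc (φ.comp U.subtype) (by norm_num) h5
        exact ((dim g).2.1 h1).trans h2
      · obtain ⟨g, h1, h2⟩ := cyc (φ.comp U.subtype) (by norm_num) h7
        exact ((dim g).2.2.1 h1).trans h2
      · obtain ⟨g, h1, h2⟩ := cyc (φ.comp U.subtype) (by norm_num) h13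
        exact ((dim g).2.2.2 h1).trans h2
      · exact Nat.zero_le _)
  norm_num at key
  have hpos : H50.E83.Fix (Set.range fun g : (⊤ : Subgroup Γ) =>
      ι ((φ.comp (⊤ : Subgroup Γ).subtype) g)) ≠ ⊥ := by
    intro h
    rw [h, finrank_bot, n1] at key
    omega
  obtain ⟨v, hv, hv0⟩ := (Submodule.ne_bot_iff _).1 hpos
  exact ⟨v, hv0, fun g => mem_Fix.1 hv _ ⟨⟨g, Subgroup.mem_top g⟩, rfl⟩⟩

end Cfsg.Agent.H75.FXSz
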