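import Mathlib

/-! Small permutation groups given by tables. -/

set_option autoImplicit false

namespace Cfsg.Agent.H75.FkPerm

open Equiv Subgroup

theorem step0 {α : Type*} [Finite α] {π : Perm α} (ho : Odd (orderOf π)) {f g : α → ℕ}
    (hp : ∀ x y, f (π x) = f (π y) ↔ f x = f y)
    (two : ∀ x y z, g x = g y → g y = g z → f x = f y ∨ f y = f z ∨ f x = f z)
    (hg : ∀ x, g (π x) = g x) (x : α) : f (π x) = f x := by
  have h2 : ∀ x, f (π (π x)) = f x := fun x => by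
    rcases two x (π x) (π (π x)) (hg x).symm (hg _).symm with h | h | h
    · exact ((hp _ _).2 h).symm.trans h.symm
    · exact h.symm.trans ((hp _ _).1 h).symm
    · exact h.symm
  have h3 : ∀ n x, f ((π ^ (2 * n)) x) = f x := fun n => by
    induction n with
    | zero => simp
    | succ n ih => intro x; rw [mul_add, add_comm, pow_add, mul_one, sq]; exact (h2 _).trans (ih x)
  obtain ⟨n, hn⟩ := ho
  have := h3 n (π x)
  rw [← Perm.mul_apply, ← pow_succ, ← hn, pow_orderOf_eq_one] at this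
  exact this.symm

/-- relations that are compatible with conjugation -/
def Inv {α : Type*} (P : (α → α) → α → α → Prop) : Prop :=
  ∀ (ρ w : Perm α) x y, P w x y → P ⇑(ρ * w * ρ⁻¹) (ρ x) (ρ y)

theorem step {α : Type*} [Finite α] {W : Subgroup (Perm α)} {π : Perm α} (ho : Odd (orderOf π))
    (hn : ∀ x ∈ W, π * x * π⁻¹ ∈ W) {P : (α → α) → α → α → Prop} (hP : Inv P) {f g : α → ℕ}
    (hf : ∀ x y, f x = f y ↔ ∀ z, ((∃ w ∈ W, P w x z) ↔ ∃ w ∈ W, P w y z))
    (two : ∀ x y z, g x = g y → g y = g z → f x = f y ∨ f y = f z ∨ f x = f z)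
    (hg : ∀ x, g (π x) = g x) (x : α) : f (π x) = f x := by
  have hN : π ∈ normalizer (W : Set (Perm α)) := mem_normalizer_fintype hn
  have e : ∀ x z, (∃ w ∈ W, P w (π x) (π z)) ↔ ∃ w ∈ W, P w x z := fun x z =>
    ⟨fun ⟨w, h1, h2⟩ => ⟨π⁻¹ * w * π⁻¹⁻¹, (mem_normalizer_iff.1 (inv_mem hN) w).1 h1, by
      simpa using hP π⁻¹ w _ _ h2⟩, fun ⟨w, h1, h2⟩ => ⟨_, hn w h1, hP π w _ _ h2⟩⟩
  refine step0 ho (fun x y => ?_) two hg x
  rw [hf, hf, π.surjective.forall]
  simp only [e]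

variable {k : ℕ} [NeZero k]

/-- the map with code `c` -/
def app (k : ℕ) [NeZero k] (c : ℕ) (i : Fin k) : Fin k := Fin.ofNat k (c / 8 ^ i.1 % 8)

/-- every entry is the identity or a generator times a later entry -/
def Gen (k : ℕ) [NeZero k] (G : List ℕ) : List ℕ → Prop
  | [] => True
  | c :: T => ((∀ i, app k c i = i) ∨ ∃ g ∈ G, ∃ d ∈ T, ∀ i, app k c i = app k g (app k d i)) ∧
      Gen k G T

instance decGen (G : List ℕ) : (T : List ℕ) → Decidable (Gen k G T)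
  | [] => isTrue trivial
  | _ :: T => @instDecidableAnd _ _ inferInstance (decGen G T)

/-- `T` lists the group generated by `G` -/
def Tbl (k : ℕ) [NeZero k] (G T : List ℕ) : Prop :=
  Gen k G T ∧ (∃ c ∈ T, ∀ i, app k c i = i) ∧
    (∀ g ∈ G, ∀ d ∈ T, ∃ c ∈ T, ∀ i, app k c i = app k g (app k d i)) ∧
    T.Pairwise fun c d => ∃ i, app k c i ≠ app k d i

instance decTbl (G T : List ℕ) : Decidable (Tbl k G T) := by unfold Tbl; infer_instance

variable {m : ℕ} {σ : Fin m → Perm (Fin k)} {G T : List ℕ}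

theorem Gen.mem (hG : ∀ g ∈ G, ∃ j, ∀ i, σ j i = app k g i) :
    ∀ {T : List ℕ}, Gen k G T → ∀ c ∈ T, ∃ w ∈ closure (Set.range σ), ⇑w = app k c
  | [], _, _, h => absurd h List.not_mem_nil
  | c :: T, h, d, hd => by
    rcases List.mem_cons.1 hd with rfl | hd
    · rcases h.1 with e | ⟨g, g1, c, c1, e⟩
      · exact ⟨1, one_mem _, funext fun i => (e i).symm⟩
      · obtain ⟨j, hj⟩ := hG g g1
        obtain ⟨w, w1, w2⟩ := Gen.mem hG h.2 c c1
        exact ⟨σ j * w, mul_mem (subset_closure ⟨j, rfl⟩) w1,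
          funext fun i => by rw [Perm.mul_apply, hj, w2, e]⟩
    · exact Gen.mem hG h.2 d hd

theorem Tbl.code (h : Tbl k G T) (hG : ∀ j, ∃ g ∈ G, ∀ i, σ j i = app k g i) {w : Perm (Fin k)}
    (hw : w ∈ closure (Set.range σ)) : ∃ c ∈ T, ⇑w = app k c := by
  rw [← mem_toSubmonoid, closure_toSubmonoid_of_finite] at hw
  induction hw using Submonoid.closure_induction_left with
  | one => exact let ⟨c, h1, h2⟩ := h.2.1; ⟨c, h1, funext fun i => (h2 i).symm⟩
  | mul_left x hx y _ ih =>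
    obtain ⟨j, rfl⟩ := hx
    obtain ⟨g, g1, g2⟩ := hG j
    obtain ⟨d, d1, d2⟩ := ih
    obtain ⟨c, c1, c2⟩ := h.2.2.1 g g1 d d1
    exact ⟨c, c1, funext fun i => by rw [Perm.mul_apply, g2, d2, c2]⟩

theorem Tbl.ex (h : Tbl k G T) (hG : ∀ g ∈ G, ∃ j, ∀ i, σ j i = app k g i)
    (hG' : ∀ j, ∃ g ∈ G, ∀ i, σ j i = app k g i) (P : (Fin k → Fin k) → Prop) :
    (∃ w ∈ closure (Set.range σ), P w) ↔ ∃ c ∈ T, P (app k c) :=
  ⟨fun ⟨_, h1, h2⟩ => let ⟨c, c1, c2⟩ := h.code hG' h1; ⟨c, c1, c2 ▸ h2⟩,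
    fun ⟨c, h1, h2⟩ => let ⟨w, w1, w2⟩ := h.1.mem hG c h1; ⟨w, w1, w2 ▸ h2⟩⟩

theorem Tbl.card (h : Tbl k G T) (hG : ∀ g ∈ G, ∃ j, ∀ i, σ j i = app k g i)
    (hG' : ∀ j, ∃ g ∈ G, ∀ i, σ j i = app k g i) :
    Nat.card (closure (Set.range σ)) = T.length := by
  have nd : (T.map (app k)).Nodup := List.pairwise_map.2 (h.2.2.2.imp fun ⟨i, e⟩ e' =>
    e (congrFun e' i))
  rw [← List.length_map (app k), ← List.toFinset_card_of_nodup nd, ← Set.ncard_coe_finset,
    ← SetLike.coe_sort_coe, Nat.card_coe_set_eq,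
    ← Set.ncard_image_of_injective _ (DFunLike.coe_injective (F := Perm (Fin k)))]
  congr 1
  ext u
  simpa using h.ex hG hG' (· = u)

theorem inv0 {α : Type*} : Inv (α := α) fun w x z => w x = z := fun ρ w x y h => by simp [h]
theorem inv1 {α : Type*} : Inv (α := α) fun w x z => w (w x) = z := fun ρ w x y h => by simp [h]
theorem inv2 {α : Type*} : Inv (α := α) fun w x z => w x = x ∧ w z ≠ z := fun ρ w x y h => by
  simpa using h
theorem inv3 {α : Type*} : Inv (α := α) fun w x z => w x = x ∧ w (w z) ≠ z := fun ρ w x y h => by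
  simpa using h
theorem inv4 {α : Type*} : Inv (α := α) fun w x _ => w (w x) ≠ x := fun ρ w x y h => by
  simpa using h

theorem Tbl.step (h : Tbl k G T) (hG : ∀ g ∈ G, ∃ j, ∀ i, σ j i = app k g i)
    (hG' : ∀ j, ∃ g ∈ G, ∀ i, σ j i = app k g i) {π : Perm (Fin k)} (ho : Odd (orderOf π))
    (hn : ∀ x ∈ closure (Set.range σ), π * x * π⁻¹ ∈ closure (Set.range σ))
    {P : (Fin k → Fin k) → Fin k → Fin k → Prop} (hP : Inv P) (f : Fin k → ℕ) {g : Fin k → ℕ}
    (hg : ∀ x, g (π x) = g x)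
    (hf : ∀ x y, f x = f y ↔ ∀ z, ((∃ c ∈ T, P (app k c) x z) ↔ ∃ c ∈ T, P (app k c) y z))
    (two : ∀ x y z, g x = g y → g y = g z → f x = f y ∨ f y = f z ∨ f x = f z) (x : Fin k) :
    f (π x) = f x :=
  FkPerm.step ho hn hP (fun x y => by
    rw [hf]
    exact forall_congr' fun z => by rw [h.ex hG hG' (P · x z), h.ex hG hG' (P · y z)]) two hg x

theorem eq_one {π : Perm (Fin k)} (ho : Odd (orderOf π)) {g : Fin k → ℕ}
    (hg : ∀ x, g (π x) = g x) (two : ∀ x y z, g x = g y → g y = g z → x = y ∨ y = z ∨ x = z) :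
    π = 1 :=
  Equiv.ext fun x => Fin.ext (step0 ho (f := Fin.val) (fun x y => by simp [Fin.val_inj])
    (by simpa [Fin.val_inj] using two) hg x)

end Cfsg.Agent.H75.FkPerm
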