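import Cfsg.Agent.H73.GagDefs
import Cfsg.Agent.H63.Frob
import Cfsg.Agent.H31.HermSU

/-! Project GAG, piece FU3: a non-cyclic subgroup of odd prime power order of `PSU₃(2^a)`. -/

set_option autoImplicit false

namespace Cfsg.Agent.H75.GagU

open Subgroup Cfsg Matrix

variable {F : Type} [Field F] {q : ℕ}

/-- the diagonal matrices -/
def dg {U : Subgroup Fˣ} (hU : ∀ x ∈ U, x ^ (q + 1) = 1) : U × U →* SU 3 F q :=
  MonoidHom.mk' (fun p => ⟨⟨diagonal ![((p.1 : Fˣ) : F), ((p.2 : Fˣ) : F), (((p.1 * p.2)⁻¹ : U) : Fˣ)], by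
      simp [det_diagonal, Fin.prod_univ_three]; field_simp⟩, fun u v => by
      have k : ∀ (x : U) (a b : F), ((x : Fˣ) : F) * a * (((x : Fˣ) : F) * b) ^ q = a * b ^ q := fun x a b => by
        have := congrArg Units.val (hU x x.2)
        rw [Units.val_pow_eq_pow_val, Units.val_one] at this
        rw [mul_pow]; linear_combination a * b ^ q * this
      show hermForm 3 F q (diagonal _ *ᵥ u) (diagonal _ *ᵥ v) = _
      simp only [hermForm, mulVec_diagonal, Fin.sum_univ_three, cons_val_zero, cons_val_one, cons_val, k]⟩)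
    fun p p' => Subtype.ext (Subtype.ext (by
      show diagonal _ = diagonal _ * diagonal _
      rw [diagonal_mul_diagonal]
      congr 1
      ext i; fin_cases i <;> simp; ring))

theorem dg_ker [Fintype F] (hF : Fintype.card F = q ^ 2) {U : Subgroup Fˣ} (hU : ∀ x ∈ U, x ^ (q + 1) = 1)
    {x y : U} (h : dg hU (x, y) ∈ center (SU 3 F q)) : x = y ∧ x ^ 3 = 1 := by
  obtain ⟨a, e⟩ := (H31.mem_center_SU_iff hF (by norm_num)).1 h
  have e0 : ((x : Fˣ) : F) = a := by simpa [dg] using congrFun (congrFun e 0) 0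
  have e1 : ((y : Fˣ) : F) = a := by simpa [dg] using congrFun (congrFun e 1) 1
  have e2 : ((((x * y)⁻¹ : U) : Fˣ) : F) = a := by simpa [dg] using congrFun (congrFun e 2) 2
  obtain rfl : x = y := Subtype.ext (Units.ext (e0.trans e1.symm))
  have : (x * x)⁻¹ = x := Subtype.ext (Units.ext (e2.trans e0.symm))
  exact ⟨rfl, by rw [pow_three']; exact inv_eq_iff_mul_eq_one.1 this⟩

theorem fu3 : H73.Gag.Fu3Stmt := by
  intro F _ _ a ha hF
  set q := 2 ^ a with hq
  have q4 : 4 ≤ q := Nat.pow_le_pow_right (n := 2) (by norm_num) ha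
  have qe : 2 ∣ q := dvd_pow_self 2 (by omega)
  obtain ⟨r, k, hr, r2, d, n3⟩ : ∃ r k : ℕ, r.Prime ∧ r ≠ 2 ∧ r ^ k ∣ q + 1 ∧ ¬ r ^ k ∣ 3 := by
    by_cases h : ∀ r : ℕ, r.Prime → r ∣ q + 1 → r = 3
    · have e := Nat.eq_prime_pow_of_unique_prime_dvd (n := q + 1) (p := 3) (by omega) (h _)
      refine ⟨3, _, Nat.prime_three, by norm_num, e.symm.dvd, fun k => ?_⟩
      have := Nat.le_of_dvd (by norm_num) k
      omega
    · push Not at h
      obtain ⟨r, h1, h2, h3⟩ := h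
      exact ⟨r, 1, h1, by rintro rfl; omega, by simpa using h2, fun k =>
        h3 ((Nat.prime_dvd_prime_iff_eq h1 Nat.prime_three).1 (by simpa using k))⟩
  have dv : r ^ k ∣ Nat.card Fˣ := d.trans ⟨q - 1, by
    rw [Nat.card_units, Nat.card_eq_fintype_card, hF, ← Nat.sq_sub_sq]⟩
  obtain ⟨l, hl⟩ : ∃ l : Fˣ, orderOf l = r ^ k := by
    obtain ⟨g, hg⟩ := IsCyclic.exists_ofOrder_eq_natCard (α := Fˣ)
    exact ⟨_, orderOf_pow_orderOf_div (by rw [hg]; exact Nat.card_pos.ne') (hg ▸ dv)⟩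
  have hU : ∀ x ∈ zpowers l, x ^ (q + 1) = 1 := fun x hx =>
    orderOf_dvd_iff_pow_eq_one.1 ((orderOf_dvd_of_mem_zpowers hx).trans (hl ▸ d))
  let f := (QuotientGroup.mk' (center (SU 3 F q))).comp (dg hU)
  have kf : ∀ {x y : zpowers l}, f (x, y) = 1 → x = y ∧ x ^ 3 = 1 := fun h =>
    dg_ker hF hU ((QuotientGroup.eq_one_iff _).1 h)
  have pU : IsPGroup r (zpowers l × zpowers l) := fun x => ⟨k, Prod.ext
    (by rw [← hl, ← Nat.card_zpowers]; exact pow_card_eq_one')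
    (by rw [← hl, ← Nat.card_zpowers]; exact pow_card_eq_one')⟩
  have pR : IsPGroup r f.range := pU.of_surjective _ f.rangeRestrict_surjective
  refine ⟨r, hr, r2, f.range, pR, fun hc => n3 ?_⟩
  let l' : zpowers l := ⟨l, mem_zpowers l⟩
  have fin : l' ^ 3 = 1 → r ^ k ∣ 3 := fun e => hl ▸ orderOf_dvd_of_pow_eq_one (congrArg Subtype.val e)
  rcases H63.le_total_of_isCyclic_of_isPGroup (A := zpowers (f (l', 1))) (B := zpowers (f (1, l'))) hr hc pR
    (zpowers_le.2 ⟨_, rfl⟩) (zpowers_le.2 ⟨_, rfl⟩) with h | h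
  · obtain ⟨n, e⟩ := h (mem_zpowers _)
    have := kf (x := l') (y := (l' ^ n)⁻¹) (by
      rw [show ((l', (l' ^ n)⁻¹) : _ × _) = (l', 1) * ((1, l') ^ n)⁻¹ by simp, map_mul, map_inv, map_zpow]
      exact mul_inv_eq_one.2 e.symm)
    exact fin this.2
  · obtain ⟨n, e⟩ := h (mem_zpowers _)
    have := kf (y := l') (x := (l' ^ n)⁻¹) (by
      rw [show (((l' ^ n)⁻¹, l') : _ × _) = (1, l') * ((l', 1) ^ n)⁻¹ by simp, map_mul, map_inv, map_zpow]
      exact mul_inv_eq_one.2 e.symm)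
    exact fin (this.1 ▸ this.2)

end Cfsg.Agent.H75.GagU
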