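import Cfsg.Agent.H98.GbL

/-! Project GB (S4536): integrality of the complete symmetric functions of Green's power sums. -/

set_option autoImplicit false

namespace Cfsg.Agent.H75.GbInt

open Cfsg Cfsg.Agent.H98.GB Finset

universe u

theorem shift {ζ : ℂ} {q m a a' : ℕ} (hq : 0 < q) (hζ : ζ ^ (q ^ m - 1) = 1)
    (h : a' ≡ a * q [MOD q ^ m - 1]) :
    ∑ i ∈ range m, ζ ^ (a' * q ^ i) = ∑ i ∈ range m, ζ ^ (a * q ^ i) := by
  have h1 : ∀ i, ζ ^ (a' * q ^ i) = ζ ^ (a * q ^ (i + 1)) := fun i => by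
    rw [pow_eq_pow_mod _ hζ, h.mul_right (q ^ i), ← pow_eq_pow_mod _ hζ, pow_succ', mul_assoc]
  have h2 : ζ ^ (a * q ^ m) = ζ ^ (a * q ^ 0) := by
    rw [← Nat.sub_add_cancel (Nat.one_le_pow m q hq), mul_add, pow_add, mul_comm a, pow_mul, hζ,
      one_pow, one_mul, pow_zero]
  have h3 := (sum_range_succ' (fun i => ζ ^ (a * q ^ i)) m).symm.trans (sum_range_succ _ m)
  rw [h2] at h3
  simp only [h1]
  exact add_right_cancel h3

theorem int (hN : NWEHStmt.{u}) (hI : INTBStmt.{u}) (hG : GENStmt.{u}) (hA : INTAStmt.{u})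
    (hV : VALStmt.{u}) (hL : LABStmt.{u}) : INTStmt.{u} := by
  intro F _ _ _ C φ j
  obtain ⟨R, hR⟩ := (hG F).2.1 C.H
  have L := hL F C
  have h1 := hI C.H.A R (Fintype.card F) Fintype.one_lt_card C.pa (fun a a' m hm h => by
      unfold Ctx.pa
      congr 1
      funext g
      rcases hV F C m hm g with e | ⟨c, ζ, h1, h2, -⟩
      · rw [e, e]
      · rw [h2, h2, shift Fintype.card_pos h1 h])
    (fun a n k => (hR _).2 (hA F C a n k)) (C.dg φ) (L.dg_pos φ) (C.ex (C.out φ) (C.dg φ)) j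
  have h2 : C.pp φ = fun i => ((-1 : ℂ) ^ (C.dg φ + 1)) ^ i • C.pa (C.ex (C.out φ) (C.dg φ) *
      ∑ t ∈ range i, Fintype.card F ^ (C.dg φ * t)) (C.dg φ * i) := funext fun i => by
    rw [← L.ex_lift _ _ _ ((L.dg_iff _ _).2 (by rw [L.mk_out]))]; rfl
  refine (hR _).1 ?_
  rw [h2, (hN C.H.A).2.2.1, ← pow_mul]
  rcases neg_one_pow_eq_or ℂ ((C.dg φ + 1) * j) with e | e
  · rwa [e, one_smul]
  · rw [e, neg_smul, one_smul]; exact neg_mem h1

end Cfsg.Agent.H75.GbInt
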