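import Cfsg.Agent.H98.GbG
import Cfsg.Agent.H9.Dihedral

/-! Project GB (S4536): sections of `2`-subgroups of small special linear groups. -/

set_option autoImplicit false

namespace Cfsg.Agent.H75.GbSec

open Cfsg Cfsg.Agent.H98.GB QuaternionGroup

universe u

theorem sec_gen {G R E : Type*} [Group G] [Group R] [Group E] {s : ℕ}
    (hs : ∀ P : Subgroup G, IsPGroup 2 P → SectionalPRankLE 2 s P) (f : R →* G)
    (h4 : ∀ x, f x ^ 2 ^ 2 = 1) (π : R →* E) (hπ : Function.Surjective π) (hk : f.ker ≤ π.ker)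
    (hc : ∀ a b : E, a * b = b * a) (h2 : ∀ a : E, a ^ 2 = 1) : Nat.card E ≤ 2 ^ s := by
  have hP : IsPGroup 2 f.range := by
    rintro ⟨_, x, rfl⟩
    exact ⟨2, Subtype.ext (h4 x)⟩
  let g : f.range →* E := (QuotientGroup.lift f.ker π hk).comp
    (QuotientGroup.quotientKerEquivRange f).symm.toMonoidHom
  have hg : Function.Surjective g := fun e => by
    obtain ⟨x, rfl⟩ := hπ e
    exact ⟨QuotientGroup.quotientKerEquivRange f (x : R ⧸ f.ker), by simp [g]⟩
  let g' : (⊤ : Subgroup f.range) →* E := g.comp Subgroup.topEquiv.toMonoidHom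
  have hg' : Function.Surjective g' := hg.comp Subgroup.topEquiv.surjective
  let e := QuotientGroup.quotientKerEquivOfSurjective g' hg'
  have h := hs _ hP ⊤ g'.ker ⊤ ⟨⟨fun a b => Subtype.ext (e.injective (by
    simp only [Subgroup.coe_mul, map_mul]; exact hc _ _))⟩⟩ fun a _ => e.injective (by
      rw [map_pow, h2, map_one])
  rwa [Subgroup.card_top, Nat.card_congr e.toEquiv] at h

/-- The Frattini quotient of the quaternion group. -/
def p2 : QuaternionGroup 2 →* Multiplicative (ZMod 2 × ZMod 2) :=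
  MonoidHom.mk' (fun x => match x with
    | a i => Multiplicative.ofAdd ((i.val : ZMod 2), 0)
    | xa i => Multiplicative.ofAdd ((i.val : ZMod 2), 1)) (by decide +kernel)

theorem p2_surj : Function.Surjective p2 := by decide +kernel

theorem p2_cen : ∀ x : QuaternionGroup 2, (∀ y, x * y = y * x) → p2 x = 1 ∧ x * x = 1 := by
  decide +kernel

theorem q_four : ∀ x : QuaternionGroup 2, x ^ 2 ^ 2 = 1 := by decide +kernel

/-- The Frattini quotient of a power of the quaternion group. -/
def pr (r : ℕ) : (Fin r → QuaternionGroup 2) →* (Fin r → Multiplicative (ZMod 2 × ZMod 2)) :=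
  p2.compLeft _

theorem pr_surj (r : ℕ) : Function.Surjective (pr r) := p2_surj.comp_left

theorem e_sq : ∀ a : Multiplicative (ZMod 2 × ZMod 2), a ^ 2 = 1 := by decide +kernel

theorem card_e (r : ℕ) : Nat.card (Fin r → Multiplicative (ZMod 2 × ZMod 2)) = 2 ^ (2 * r) := by
  rw [Nat.card_fun, Nat.card_congr Multiplicative.toAdd, Nat.card_prod, Nat.card_zmod,
    Nat.card_fin, pow_mul, pow_two]

theorem sec_a {G : Type*} [Group G] {s r : ℕ}
    (hs : ∀ P : Subgroup G, IsPGroup 2 P → SectionalPRankLE 2 s P)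
    (ψ : (Fin r → QuaternionGroup 2) →* G) (hψ : Function.Injective ψ) : 2 * r ≤ s := by
  have h := sec_gen hs ψ (fun x => by
      rw [← map_pow, show x ^ 2 ^ 2 = 1 from funext fun k => q_four (x k), map_one])
    (pr r) (pr_surj r) (by rw [(MonoidHom.ker_eq_bot_iff ψ).2 hψ]; exact bot_le) mul_comm
    fun x => funext fun k => e_sq (x k)
  rw [card_e] at h
  exact (Nat.pow_le_pow_iff_right (by norm_num)).1 h

theorem sec_b {G : Type*} [Group G] {s r : ℕ}
    (hs : ∀ P : Subgroup G, IsPGroup 2 P → SectionalPRankLE 2 s P)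
    (ψ : (Fin r → QuaternionGroup 2) →* G) (hψ : Function.Injective ψ) (c : G)
    (hc : ∀ g, Commute g c) (c4 : c ^ 4 = 1) (c2 : c ^ 2 ≠ 1) : 2 * r + 1 ≤ s := by
  let f := ψ.noncommCoprod (zpowersHom G c) fun x n => (hc _).zpow_right _
  have hf : ∀ x n, f (x, n) = ψ x * c ^ n.toAdd := fun _ _ => rfl
  let π := (pr r).prodMap (AddMonoidHom.toMultiplicative (Int.castAddHom (ZMod 2)))
  have h := sec_gen hs f (by
      rintro ⟨x, n⟩
      rw [hf, ((hc _).zpow_right _).mul_pow, ← map_pow,
        show x ^ 2 ^ 2 = 1 from funext fun k => q_four (x k), map_one, one_mul, ← zpow_natCast,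
        ← zpow_mul, mul_comm, zpow_mul, zpow_natCast, show 2 ^ 2 = 4 from rfl, c4, one_zpow])
    π (by
      rintro ⟨x, y⟩
      obtain ⟨x, rfl⟩ := pr_surj r x
      obtain ⟨n, hn⟩ := ZMod.intCast_surjective y.toAdd
      exact ⟨(x, Multiplicative.ofAdd n), Prod.ext rfl (congrArg Multiplicative.ofAdd hn)⟩) (by
      rintro ⟨x, n⟩ hx
      rw [MonoidHom.mem_ker, hf, mul_eq_one_iff_eq_inv] at hx
      have h1 : ∀ k, p2 (x k) = 1 ∧ x k * x k = 1 := fun k => p2_cen _ fun y => by
        have : x * (fun _ => y) = (fun _ => y) * x := hψ (by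
          rw [map_mul, map_mul, hx]; exact ((hc _).zpow_right _).inv_right.symm)
        exact congrFun this k
      have h2 : c ^ (n.toAdd * 2) = 1 := by
        rw [zpow_mul, ← inv_inj, ← inv_zpow, ← hx, zpow_two, ← map_mul,
          show x * x = 1 from funext fun k => (h1 k).2, map_one, inv_one]
      refine Prod.ext (funext fun k => (h1 k).1) ?_
      change Multiplicative.ofAdd ((n.toAdd : ℤ) : ZMod 2) = Multiplicative.ofAdd 0
      congr 1
      rcases Int.even_or_odd' n.toAdd with ⟨k, hk | hk⟩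
      · rw [hk]; push_cast; rw [show (2 : ZMod 2) = 0 from rfl, zero_mul]
      · refine absurd ?_ c2
        rw [hk, show (2 * k + 1) * 2 = ((4 : ℕ) : ℤ) * k + ((2 : ℕ) : ℤ) by push_cast; ring, zpow_add,
          zpow_mul, zpow_natCast, c4, one_zpow, one_mul, zpow_natCast] at h2
        exact h2) mul_comm
    fun x => Prod.ext (funext fun k => e_sq (x.1 k))
      ((by decide +kernel : ∀ a : Multiplicative (ZMod 2), a ^ 2 = 1) x.2)
  rw [Nat.card_prod, card_e, Nat.card_congr Multiplicative.toAdd, Nat.card_zmod, ← pow_succ] at h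
  exact (Nat.pow_le_pow_iff_right (by norm_num)).1 h

open Matrix

variable {F : Type u} [Field F]

theorem exists_q8 [Fintype F] (h : (-1 : F) ≠ 1) :
    ∃ φ : QuaternionGroup 2 →* Matrix.SpecialLinearGroup (Fin 2) F, Function.Injective φ := by
  obtain ⟨p, hp⟩ := CharP.exists F
  have : NeZero p := ⟨CharP.char_ne_zero_of_finite F p⟩
  obtain ⟨x, y, hxy⟩ := CharP.sq_add_sq F p (-1)
  push_cast at hxy
  let u : Matrix.SpecialLinearGroup (Fin 2) F := ⟨!![0, 1; -1, 0], by simp [det_fin_two]⟩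
  let w : Matrix.SpecialLinearGroup (Fin 2) F := ⟨!![(x : F), y; y, -x], by
    rw [det_fin_two_of]; linear_combination -hxy⟩
  have uu : u * u = -1 := Subtype.ext (show u.1 * u.1 = -1 by
    ext i j; fin_cases i <;> fin_cases j <;> simp [u])
  have ww : w * w = -1 := Subtype.ext (show w.1 * w.1 = -1 by
    ext i j; fin_cases i <;> fin_cases j <;> simp [w] <;>
      first | linear_combination hxy | ring)
  have wu : u * w * u = w := Subtype.ext (show u.1 * w.1 * u.1 = w.1 by
    ext i j; fin_cases i <;> fin_cases j <;> simp [u, w])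
  have z1 : (-1 : Matrix.SpecialLinearGroup (Fin 2) F) ≠ 1 := fun e => h (by
    simpa using congrArg (fun g : Matrix.SpecialLinearGroup (Fin 2) F => g 0 0) e)
  have h2 : u ^ 2 = -1 := by rw [pow_two, uu]
  have h4 : u ^ (2 * 2) = 1 := by rw [pow_mul, h2]; simp
  have h5 : w * u * w⁻¹ = u⁻¹ := by
    rw [mul_inv_eq_iff_eq_mul, eq_inv_mul_iff_mul_eq, ← mul_assoc, wu]
  let ψ := H9.quaternionHom (n := 2) u w h4 (ww.trans h2.symm) h5
  have ha : ψ (a 1) = u := by
    simpa using H9.quaternionHom_a (n := 2) u w h4 (ww.trans h2.symm) h5 1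
  have hz : ψ (a 2) = -1 := by
    rw [show (a 2 : QuaternionGroup 2) = a 1 * a 1 from rfl, map_mul, ha, uu]
  refine ⟨ψ, (injective_iff_map_eq_one ψ).2 fun x hx => ?_⟩
  rcases (by decide : ∀ x : QuaternionGroup 2, x = 1 ∨ x = a 2 ∨ x * x = a 2) x with e | e | e
  · exact e
  · exact absurd (by rw [← hz, ← e, hx]) z1
  · exact absurd (by rw [← hz, ← e, map_mul, hx, mul_one]) z1

theorem exists_blk (r : ℕ) : ∃ D : (Fin r → Matrix.SpecialLinearGroup (Fin 2) F) →*
    Matrix.SpecialLinearGroup (Fin (2 * r)) F, Function.Injective D := by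
  let e : Fin 2 × Fin r ≃ Fin (2 * r) := finProdFinEquiv
  refine ⟨MonoidHom.mk' (fun g => ⟨reindex e e (blockDiagonal fun k => (g k).1), by
    rw [det_reindex_self, det_blockDiagonal]; simp⟩) fun g g' => Subtype.ext ?_, fun g g' h => ?_⟩
  · change reindex e e (blockDiagonal fun k => (g k).1 * (g' k).1) =
      reindex e e (blockDiagonal _) * reindex e e (blockDiagonal _)
    simp only [reindex_apply, submatrix_mul_equiv, blockDiagonal_mul]
  · have h1 := blockDiagonal_injective ((reindex e e).injective (congrArg Subtype.val h))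
    exact funext fun k => Subtype.ext (congrFun h1 k)

theorem exists_qr [Fintype F] (h : (-1 : F) ≠ 1) (r : ℕ) :
    ∃ ψ : (Fin r → QuaternionGroup 2) →* Matrix.SpecialLinearGroup (Fin (2 * r)) F,
      Function.Injective ψ := by
  obtain ⟨φ, hφ⟩ := exists_q8 h
  obtain ⟨D, hD⟩ := exists_blk (F := F) r
  exact ⟨D.comp (φ.compLeft _), hD.comp hφ.comp_left⟩

theorem sec : SECStmt.{u} := by
  intro F _ _ hodd m s hs
  have h1 : (-1 : F) ≠ 1 := Ring.neg_one_ne_one_of_char_ne_two fun e => by
    rw [FiniteField.even_card_iff_char_two] at e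
    rw [Nat.odd_iff] at hodd
    omega
  refine ⟨?_, ?_, ?_, ?_⟩
  · rintro rfl
    obtain ⟨ψ, hψ⟩ := exists_qr h1 1
    exact sec_a hs ψ hψ
  · rintro rfl
    obtain ⟨ψ, hψ⟩ := exists_qr h1 2
    exact sec_a hs ψ hψ
  · rintro rfl h4
    obtain ⟨ψ, hψ⟩ := exists_qr h1 2
    obtain ⟨i, hi⟩ : IsSquare (-1 : F) := FiniteField.isSquare_neg_one_iff.2 (by
      have := Fintype.card_pos (α := F)
      omega)
    have i4 : i ^ 4 = 1 := by linear_combination (1 - i * i) * hi
    let c : Matrix.SpecialLinearGroup (Fin 4) F := ⟨scalar _ i, by simpa using i4⟩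
    refine sec_b hs ψ hψ c (fun g => Subtype.ext (scalar_commute i (fun _ => Commute.all _ _) g.1).symm)
      (Subtype.ext ?_) fun e => h1 ?_
    · change (scalar (Fin 4) i) ^ 4 = 1
      rw [← map_pow, i4, map_one]
    · have e1 : (scalar (Fin 4) i) ^ 2 = 1 := congrArg Subtype.val e
      rw [← map_pow, pow_two, ← hi] at e1
      simpa using congrFun (congrFun e1 0) 0
  · rintro rfl
    obtain ⟨ψ, hψ⟩ := exists_qr h1 4
    exact sec_a hs ψ hψ

theorem eqns_GbSec : True := by
  have := @p2.eq_1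
  have := @pr.eq_1
  trivial

end Cfsg.Agent.H75.GbSec
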