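import Mathlib
import Cfsg.Agent.H75.QuadOrbit
import Cfsg.Agent.H31.HermBasic

/-!
# Lower bounds for orbits of Hermitian forms
-/

namespace Cfsg.Agent.H75

open Module

section Det

variable {F : Type*} [Field F] {V : Type*} [AddCommGroup V] [Module F V] [FiniteDimensional F V]

theorem exists_dilat_det (f : Dual F V) (u : V) (hu : f u = 1) {t : F} (ht : t ≠ 0) :
    ∃ e : V ≃ₗ[F] V, LinearMap.det (e : V →ₗ[F] V) = t ∧ ∀ x, e x = x + ((t - 1) * f x) • u := by
  have h : IsUnit (1 + ((t - 1) • f) u) := by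
    rw [isUnit_iff_ne_zero, LinearMap.smul_apply, hu]; simpa using ht
  refine ⟨LinearEquiv.dilatransvection h, ?_, fun x => ?_⟩
  · rw [LinearEquiv.dilatransvection.coe_toLinearMap, LinearMap.transvection.det,
      LinearMap.smul_apply, hu]; simp
  · rw [LinearEquiv.dilatransvection.apply]; rfl

theorem det_coe_ne_zero (e : V ≃ₗ[F] V) : LinearMap.det (e : V →ₗ[F] V) ≠ 0 :=
  e.isUnit_det'.ne_zero

theorem exists_equiv_apply_eq_det_one (h2 : 2 ≤ finrank F V) {v w : V} (hv : v ≠ 0) (hw : w ≠ 0) :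
    ∃ e : V ≃ₗ[F] V, LinearMap.det (e : V →ₗ[F] V) = 1 ∧ e v = w := by
  obtain ⟨e, he⟩ := exists_equiv_apply_eq (F := F) hv hw
  obtain ⟨u, hu⟩ : ∃ u, u ∉ Submodule.span F {v} := by
    by_contra h
    push Not at h
    have : Submodule.span F {v} = ⊤ := eq_top_iff.mpr fun x _ => h x
    have h3 := finrank_span_singleton (K := F) hv
    rw [this, finrank_top] at h3
    omega
  obtain ⟨f, hf, hfu⟩ := LinearMap.exists_extend_of_notMem
    (0 : Submodule.span F {v} →ₗ[F] F) hu 1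
  have hfv : f v = 0 := LinearMap.congr_fun hf ⟨v, Submodule.mem_span_singleton_self v⟩
  obtain ⟨d, hd, hd'⟩ := exists_dilat_det f u hfu (inv_ne_zero (det_coe_ne_zero e))
  refine ⟨d ≪≫ₗ e, ?_, ?_⟩
  · rw [LinearEquiv.coe_trans, LinearMap.det_comp, hd, mul_inv_cancel₀ (det_coe_ne_zero e)]
  · rw [LinearEquiv.trans_apply, hd', hfv, mul_zero, zero_smul, add_zero, he]

theorem exists_equiv_comp_eq_det_one (h2 : 2 ≤ finrank F V) (l l' : Dual F V) (hl : l ≠ 0)
    (hl' : l' ≠ 0) :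
    ∃ e : V ≃ₗ[F] V, LinearMap.det (e : V →ₗ[F] V) = 1 ∧ ∀ x, l (e x) = l' x := by
  obtain ⟨e, he⟩ := exists_equiv_comp_eq l l' hl hl'
  have h3 := Module.Dual.finrank_ker_add_one_of_ne_zero hl
  obtain ⟨u, hu, hu0⟩ := Submodule.exists_mem_ne_zero_of_ne_bot (p := LinearMap.ker l) (by
    intro h
    rw [h, finrank_bot] at h3
    omega)
  obtain ⟨f, hf⟩ := Module.Projective.exists_dual_eq_one F hu0
  obtain ⟨d, hd, hd'⟩ := exists_dilat_det f u hf (inv_ne_zero (det_coe_ne_zero e))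
  refine ⟨e ≪≫ₗ d, ?_, fun x => ?_⟩
  · rw [LinearEquiv.coe_trans, LinearMap.det_comp, hd, inv_mul_cancel₀ (det_coe_ne_zero e)]
  · rw [LinearEquiv.trans_apply, hd', map_add, map_smul, LinearMap.mem_ker.mp hu, smul_zero,
      add_zero, he]

theorem det_one_add_comp_comm {W : Type*} [AddCommGroup W] [Module F W] [FiniteDimensional F W]
    (f : V →ₗ[F] W) (g : W →ₗ[F] V) :
    LinearMap.det (1 + g ∘ₗ f) = LinearMap.det (1 + f ∘ₗ g) := by
  classical
  let b := finBasis F V
  let c := finBasis F W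
  rw [← LinearMap.det_toMatrix b, ← LinearMap.det_toMatrix c, map_add, map_add,
    LinearMap.toMatrix_comp b c b, LinearMap.toMatrix_comp c b c, LinearMap.toMatrix_one,
    LinearMap.toMatrix_one, Matrix.det_one_add_mul_comm]

end Det

variable {F : Type*} [Field F] [Fintype F] {σ : F →+* F} {q : ℕ}
  {V : Type*} [AddCommGroup V] [Module F V] [FiniteDimensional F V]

open H31 in
theorem herm_orbit_bound (hF : Fintype.card F = q ^ 2) (hσ : ∀ x, σ x = x ^ q)
    {T : Set (V →ₛₗ[σ] V →ₗ[F] F)} (hf : T.Finite) (hT : ∀ B ∈ T, IsHermSymm B)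
    (L : (V ≃ₗ[F] V) → Prop)
    (hL1 : ∀ e : V ≃ₗ[F] V, σ (LinearMap.det (e : V →ₗ[F] V)) = LinearMap.det (e : V →ₗ[F] V) → L e)
    (hL2 : 2 ≤ finrank F V ∨ ∀ e, L e)
    (hc : ∀ B ∈ T, ∀ e, L e → ∃ B' ∈ T, ∀ u v, B' u v = B (e u) (e v))
    {B : V →ₛₗ[σ] V →ₗ[F] F} (hB : B ∈ T) (hB0 : B ≠ 0) :
    Fintype.card F ^ finrank F V - 1 ≤ (q + 1) * T.ncard := by
  classical
  have hinv : IsInvol σ := (hT B hB).inv
  have htr : ∀ v w : V, v ≠ 0 → w ≠ 0 → ∃ e, L e ∧ e v = w := by
    intro v w hv hw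
    rcases hL2 with h | h
    · obtain ⟨e, h1, h2⟩ := exists_equiv_apply_eq_det_one h hv hw
      exact ⟨e, hL1 e (by rw [h1, map_one]), h2⟩
    · obtain ⟨e, h2⟩ := exists_equiv_apply_eq (F := F) hv hw
      exact ⟨e, h e, h2⟩
  have htr' : ∀ l l' : Dual F V, l ≠ 0 → l' ≠ 0 → ∃ e, L e ∧ ∀ x, l (e x) = l' x := by
    intro l l' hl hl'
    rcases hL2 with h | h
    · obtain ⟨e, h1, h2⟩ := exists_equiv_comp_eq_det_one h l l' hl hl'
      exact ⟨e, hL1 e (by rw [h1, map_one]), h2⟩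
    · obtain ⟨e, h2⟩ := exists_equiv_comp_eq l l' hl hl'
      exact ⟨e, h e, h2⟩
  obtain ⟨v₀, hv₀⟩ : ∃ v₀, B v₀ v₀ ≠ 0 := by
    by_contra h
    push Not at h
    apply hB0
    ext x y
    exact (hT B hB).eq_zero_of_norm_zero (W := ⊤) (fun x _ => h x) trivial trivial
  have hv0 : v₀ ≠ 0 := by rintro rfl; exact hv₀ (map_zero _)
  set a := B v₀ v₀ with ha
  have haσ : σ a = a := (hT B hB).norm_fixed v₀
  let l₀ : Dual F V := a⁻¹ • B v₀
  have hl₀ : ∀ x, B v₀ x = a * l₀ x := fun x => by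
    simp only [l₀, LinearMap.smul_apply, smul_eq_mul]
    rw [mul_inv_cancel_left₀ hv₀]
  have hl₁ : l₀ v₀ = 1 := mul_left_cancel₀ hv₀ (by rw [← hl₀, mul_one])
  have hfin := finite_dual (F := F) (V := V)
  have hq := two_le_of_card_sq hF
  by_cases hr : ∀ x y, B x y = a * σ (l₀ x) * l₀ y
  · have hl0 : l₀ ≠ 0 := fun h => by simp [h] at hl₁
    have key : ∀ l : {l : Dual F V // l ≠ 0}, ∃ B' ∈ T, ∀ x y, B' x y = a * σ (l.1 x) * l.1 y := by
      intro l
      obtain ⟨e, he, he'⟩ := htr' l₀ l.1 hl0 l.2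
      obtain ⟨B', hB', h⟩ := hc B hB e he
      exact ⟨B', hB', fun x y => by rw [h, hr, he', he']⟩
    choose Φ hΦS hΦ using key
    have h := natCard_le_mul_ncard Φ T hf hΦS (q + 1) (by
      intro l
      obtain ⟨u, hu⟩ := Module.Projective.exists_dual_eq_one F (V := Dual F V) l.2
      obtain ⟨u, rfl⟩ := (Module.evalEquiv F V).surjective u
      have hu' : l.1 u = 1 := hu
      rw [← card_norm_eq hF hσ one_ne_zero (map_one σ)]
      have key : ∀ l' : {l : Dual F V // l ≠ 0}, Φ l' = Φ l → ∀ y, σ (l'.1 u) * l'.1 y = l.1 y := by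
        intro l' h y
        apply mul_left_cancel₀ hv₀
        have := hΦ l u y
        rw [← h, hΦ, hu', map_one, mul_one] at this
        rw [← this, mul_assoc]
      show _ ≤ Nat.card {x : F | x * σ x = 1}
      rw [Nat.card_coe_set_eq]
      refine Set.ncard_le_ncard_of_injOn (fun l' => l'.1 u) ?_ ?_ (Set.toFinite _)
      · intro l' h
        show l'.1 u * σ (l'.1 u) = 1
        rw [mul_comm, key l' h, hu']
      · intro l₁ h₁ l₂ h₂ h
        have h' : l₁.1 u = l₂.1 u := h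
        have h3 : σ (l₁.1 u) ≠ 0 := by
          intro h4
          have := key l₁ h₁ u
          rw [h4, zero_mul, hu'] at this
          exact zero_ne_one this
        apply Subtype.ext
        ext y
        apply mul_left_cancel₀ h3
        rw [key l₁ h₁, h', key l₂ h₂])
    rwa [natCard_dual_ne_zero] at h
  · -- an isotropic vector outside the radical
    obtain ⟨v₁, hv₁, hv₁'⟩ : ∃ v₁, B v₁ v₁ = 0 ∧ B v₁ ≠ 0 := by
      have hS := hT B hB
      obtain ⟨w, hw, hw'⟩ : ∃ w, B v₀ w = 0 ∧ B w w ≠ 0 := by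
        by_contra h
        push Not at h
        apply hr
        intro x y
        have h1 : ∀ x, x - l₀ x • v₀ ∈ LinearMap.ker (B v₀) := fun x => by
          rw [LinearMap.mem_ker, hl₀]; simp [hl₁]
        have h2 := hS.eq_zero_of_norm_zero (W := LinearMap.ker (B v₀)) (fun x hx => h x hx)
          (h1 x) (h1 y)
        rw [sub_left, smul_left, LinearMap.mem_ker.mp (h1 y), mul_zero, sub_zero, map_sub,
          smul_right, ← hS.symm v₀ x, hl₀, map_mul, haσ, sub_eq_zero] at h2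
        rw [h2]; ring
      obtain ⟨s, hs⟩ := hinv.exists_norm_eq (a := -(B w w) / a) (by
        rw [map_div₀, map_neg, hS.norm_fixed, haσ])
      refine ⟨s • v₀ + w, ?_, fun h => hw' ?_⟩
      · rw [add_left, map_add, map_add, smul_left, smul_left, smul_right, smul_right, hw,
          hS.flip_zero hw, ← ha]
        field_simp at hs
        linear_combination hs
      · have := LinearMap.congr_fun h w
        rwa [add_left, smul_left, hw, mul_zero, zero_add] at this
    have hv1 : v₁ ≠ 0 := by rintro rfl; exact hv₁' (map_zero _)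
    obtain ⟨e₁, he₁, he₁'⟩ := htr v₀ v₁ hv0 hv1
    obtain ⟨B₁, hB₁, hB₁'⟩ := hc B hB e₁ he₁
    have hB₁0 : B₁ v₀ ≠ 0 := by
      intro h
      apply hv₁'
      ext y
      obtain ⟨y, rfl⟩ := e₁.surjective y
      rw [← he₁', ← hB₁', h]; rfl
    have hB₁1 : B₁ v₀ v₀ = 0 := by rw [hB₁', he₁', hv₁]
    have key : ∀ l : {l : Dual F V // l ≠ 0}, ∃ t : F, t ≠ 0 ∧ ∀ c : F, c ≠ 0 → σ c = c →
        ∃ B' ∈ T, B' v₀ = (c * t) • l.1 := by
      intro l
      by_cases hl : l.1 v₀ = 0
      · obtain ⟨u, hu, hu'⟩ := exists_ne_zero_two (B₁ v₀) l.1 hB₁0 l.2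
        refine ⟨B₁ v₀ u / l.1 u, div_ne_zero hu hu', fun c hc0 hcσ => ?_⟩
        let f : Dual F V := (c * (B₁ v₀ u / l.1 u)) • l.1 - B₁ v₀
        have h1 : 1 + f ((B₁ v₀ u)⁻¹ • u) = c := by
          simp only [f, map_smul, LinearMap.sub_apply, LinearMap.smul_apply, smul_eq_mul]
          field_simp
          ring
        have h : IsUnit (1 + f ((B₁ v₀ u)⁻¹ • u)) := by rwa [h1, isUnit_iff_ne_zero]
        obtain ⟨B', hB', h2⟩ := hc B₁ hB₁ (LinearEquiv.dilatransvection h) (hL1 _ (by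
          rw [LinearEquiv.dilatransvection.coe_toLinearMap, LinearMap.transvection.det, h1, hcσ]))
        refine ⟨B', hB', ?_⟩
        ext y
        rw [h2, LinearEquiv.dilatransvection.apply, LinearEquiv.dilatransvection.apply]
        have : f v₀ = 0 := by simp [f, hl, hB₁1]
        rw [this, zero_smul, add_zero, map_add, smul_right, smul_right, inv_mul_cancel₀ hu]
        simp [f]
      · refine ⟨(l.1 v₀)⁻¹, inv_ne_zero hl, fun c hc0 hcσ => ?_⟩
        obtain ⟨s, hs⟩ := hinv.exists_norm_eq (a := c / a) (by rw [map_div₀, hcσ, haσ])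
        have hs0 : s ≠ 0 := by
          rintro rfl
          rw [zero_mul] at hs
          exact div_ne_zero hc0 hv₀ hs.symm
        obtain ⟨e, he, he'⟩ := htr v₀ (s • v₀) hv0 (smul_ne_zero hs0 hv0)
        obtain ⟨B₂, hB₂, hB₂'⟩ := hc B hB e he
        have h1 : B₂ v₀ v₀ = c := by
          rw [hB₂', he', smul_left, smul_right, ← ha]
          field_simp at hs
          linear_combination hs
        let f : Dual F V := (l.1 v₀)⁻¹ • l.1 - c⁻¹ • B₂ v₀
        have h0 : f v₀ = 0 := by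
          simp [f, h1, inv_mul_cancel₀ hl, inv_mul_cancel₀ hc0]
        obtain ⟨B', hB', h2⟩ := hc B₂ hB₂ (LinearEquiv.transvection h0) (hL1 _ (by
          rw [LinearEquiv.transvection.coe_toLinearMap, LinearMap.transvection.det, h0, add_zero,
            map_one]))
        refine ⟨B', hB', ?_⟩
        ext y
        rw [h2, LinearEquiv.transvection.apply, LinearEquiv.transvection.apply, h0, zero_smul,
          add_zero, map_add, smul_right, h1]
        simp only [f, LinearMap.sub_apply, LinearMap.smul_apply, smul_eq_mul]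
        field_simp
        ring
    choose t ht0 ht using key
    choose Φ hΦT hΦ using ht
    have hTf : Finite T := hf
    have h := Nat.card_le_card_of_injective
      (fun p : {l : Dual F V // l ≠ 0} × {c : F // c ≠ 0 ∧ σ c = c} =>
        ((⟨Φ p.1 p.2.1 p.2.2.1 p.2.2.2, hΦT _ _ _ _⟩, ⟨p.2.1 * t p.1, mul_ne_zero p.2.2.1 (ht0 _)⟩) :
          T × {c : F // c ≠ 0})) (by
        rintro ⟨l, c⟩ ⟨l', c'⟩ h
        simp only [Prod.mk.injEq, Subtype.mk.injEq] at h
        obtain ⟨h1, h2⟩ := h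
        have h3 := hΦ l c.1 c.2.1 c.2.2
        rw [h1, hΦ, ← h2] at h3
        have h4 : l = l' :=
          Subtype.ext (smul_right_injective _ (mul_ne_zero c.2.1 (ht0 l)) h3).symm
        subst h4
        rw [Subtype.ext (mul_right_cancel₀ (ht0 l) h2)])
    have h5 : Nat.card {c : F // c ≠ 0} = q ^ 2 - 1 := by
      rw [← hF, Nat.card_eq_fintype_card, Fintype.card_subtype_compl, Fintype.card_subtype_eq]
    have h6 : Nat.card {c : F // c ≠ 0 ∧ σ c = c} = q - 1 := by
      rw [← card_fixed hF hσ]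
      have : ({c : F | c ≠ 0 ∧ σ c = c}) = {c : F | σ c = c} \ {0} := by
        ext; simp [and_comm]
      show Nat.card {c : F | c ≠ 0 ∧ σ c = c} = Nat.card {c : F | σ c = c} - 1
      rw [Nat.card_coe_set_eq, Nat.card_coe_set_eq, this, Set.ncard_sdiff_singleton_of_mem (by simp)]
    rw [Nat.card_prod, Nat.card_prod, natCard_dual_ne_zero, h5, h6, Nat.card_coe_set_eq,
      sq_sub_one_eq (by omega)] at h
    refine Nat.le_of_mul_le_mul_right (c := q - 1) ?_ (by omega)
    calc _ ≤ _ := h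
      _ = _ := by ring

end Cfsg.Agent.H75
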