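import Cfsg.Agent.H50.L81Defs

/-! The case `G₂` of the pressure argument for `SL₂(81)`-modules is impossible. -/

set_option autoImplicit false

namespace Cfsg.Agent.H75.L81G2

open Module Cfsg.Agent.H50.L81 H50.SL2S H50.E83

variable {W : Type} [AddCommGroup W] [Module K W]

theorem le1 [FiniteDimensional K W] (S A C : Submodule K W) (f : W →ₗ[K] W) (h : ∀ v ∈ S, f v ∈ A)
    (h' : ∀ v ∈ S, f v = 0 → v ∈ C) : finrank K S ≤ finrank K A + finrank K C := by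
  have e := LinearMap.finrank_range_add_finrank_ker (f.domRestrict S)
  have h1 : finrank K (LinearMap.range (f.domRestrict S)) ≤ finrank K A :=
    Submodule.finrank_mono (by rintro _ ⟨v, rfl⟩; exact h v v.2)
  have h2 : finrank K (LinearMap.ker (f.domRestrict S)) ≤ finrank K C := by
    rw [← Submodule.finrank_map_subtype_eq]
    exact Submodule.finrank_mono (by rintro _ ⟨v, hv, rfl⟩; exact h' v v.2 hv)
  omega

theorem ser_inv {ρ : SL →* Module.End K W} {p : Par} {U : Submodule K W} {L : List ℕ}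
    (h : Ser ρ p U L) : Inv ρ U := by
  cases h with
  | nil => intro g v hv; rw [(Submodule.mem_bot K).1 hv, map_zero]; exact Submodule.zero_mem _
  | cons _ s => exact s.2.2.2.1

theorem cast_ne {n : ℕ} (h : ¬ 3 ∣ n) : (n : K) ≠ 0 := fun e => h ((CharP.cast_eq_zero_iff K 3 n).1 e)

theorem cast_z {n : ℕ} (h : 3 ∣ n) : (n : K) = 0 := (CharP.cast_eq_zero_iff K 3 n).2 h

theorem g2 (aop : AopStmt) (gen : GenStmt) (g2a : G2aStmt) : G2Stmt := by
  intro p W _ _ _ ρ hρ hB M M' L L' hP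
  obtain ⟨d2, d14, d2', d33, u2, u14, b39⟩ := g2a p W ρ hρ hB M M' L L' hP
  obtain ⟨-, amul, -, w40, wW, bW, inv, fU, fB, ww1⟩ := aop p W ρ hρ
  have G := gen p W ρ hρ
  have iM' : Inv ρ M' := ser_inv hP.2.1
  have top : ∀ N, Inv ρ N → N ⊓ Wt ρ p 0 = ⊥ → N ≤ M := hP.2.2.2.2.2.2.2.2
  have wi : ρ (ww F)⁻¹ * ρ (ww F) = 1 := by rw [← map_mul, inv_mul_cancel, map_one]
  have bmul : ∀ a ≤ 80, ∀ b ≤ 80, ∀ v, Bop ρ p a (Bop ρ p b v) =
      if a + b ≤ 80 then (((a + b).choose a : ℕ) : K) • Bop ρ p (a + b) v else 0 := by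
    intro a ha b hb v
    have e : Bop ρ p a * Bop ρ p b = ρ (ww F) * (Aop ρ p a * Aop ρ p b) * ρ (ww F)⁻¹ := by
      unfold Bop
      calc _ = ρ (ww F) * Aop ρ p a * (ρ (ww F)⁻¹ * ρ (ww F)) * Aop ρ p b * ρ (ww F)⁻¹ := by
            simp only [mul_assoc]
        _ = _ := by rw [wi]; simp only [mul_assoc, one_mul]
    rw [← Module.End.mul_apply, e, amul a ha b hb]
    split_ifs
    · simp [Bop]
    · simp
  have bcomm : ∀ a ≤ 80, ∀ b ≤ 80, ∀ v, Bop ρ p a (Bop ρ p b v) = Bop ρ p b (Bop ρ p a v) := by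
    intro a ha b hb v
    rw [bmul a ha b hb, bmul b hb a ha, add_comm b a, Nat.choose_symm_add]
  have w42 : ∀ v ∈ Wt ρ p 2, v ∈ Wt ρ p 42 := fun v hv => (w40 2).symm ▸ hv
  have h1 := le1 (M' ⊓ Wt ρ p 2) (M' ⊓ Wt ρ p 33)
    ((M' ⊓ Wt ρ p 2) ⊓ LinearMap.ker (Bop ρ p 9)) (Bop ρ p 9)
    (fun v hv => ⟨(inv M' iM' 9 v hv.1).2, bW 9 (by norm_num) 33 v (w42 v hv.2)⟩)
    (fun v hv h0 => ⟨hv, h0⟩)
  have h2 := le1 ((M' ⊓ Wt ρ p 2) ⊓ LinearMap.ker (Bop ρ p 9)) (M ⊓ Wt ρ p 14) (M ⊓ Wt ρ p 2)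
    (Bop ρ p 1 * Bop ρ p 27) ?_ ?_
  · omega
  · rintro v ⟨hv, -⟩
    rw [Module.End.mul_apply]
    have m1 : Bop ρ p 1 (Bop ρ p 27 v) ∈ M' ⊓ Wt ρ p 14 :=
      ⟨(inv M' iM' 1 _ (inv M' iM' 27 v hv.1).2).2,
        bW 1 (by norm_num) 14 _ (bW 27 (by norm_num) 15 v (w42 v hv.2))⟩
    obtain ⟨N, hN, hm, h0⟩ := G 14 (by norm_num) (by norm_num) _ ⟨u14 m1, m1.2⟩
      (by rw [bmul 14 (by norm_num) 1 (by norm_num), if_pos (by norm_num),
        cast_z (by decide), zero_smul])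
      (by rw [bmul 54 (by norm_num) 1 (by norm_num), if_pos (by norm_num),
        bmul 55 (by norm_num) 27 (by norm_num), if_neg (by norm_num), smul_zero])
    exact ⟨top N hN h0 hm, m1.2⟩
  · rintro v ⟨hv, h9⟩ h27
    rw [Module.End.mul_apply] at h27
    have h9' : Bop ρ p 9 v = 0 := h9
    have a0 : Bop ρ p 2 v ∈ Wt ρ p 0 := bW 2 (by norm_num) 0 v hv.2
    have k : ∀ i < 4, Bop ρ p (3 ^ i) (Bop ρ p 2 v) = 0 := by
      intro i hi
      interval_cases i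
      · rw [pow_zero, bmul 1 (by norm_num) 2 (by norm_num), if_pos (by norm_num), cast_z (by decide),
          zero_smul]
      · rw [pow_one, bcomm 3 (by norm_num) 2 (by norm_num)]
        exact b39 _ ⟨(inv M' iM' 3 v hv.1).2, bW 3 (by norm_num) 39 v (w42 v hv.2)⟩
      · rw [show 3 ^ 2 = 9 from rfl, bcomm 9 (by norm_num) 2 (by norm_num), h9', map_zero]
      · have e := bmul 1 (by norm_num) 1 (by norm_num) (Bop ρ p 27 v)
        rw [h27, map_zero, if_pos (by norm_num)] at e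
        rw [show 3 ^ 3 = 27 from rfl, bcomm 27 (by norm_num) 2 (by norm_num)]
        exact (smul_eq_zero.1 e.symm).resolve_left (cast_ne (by decide))
    have wj : ∀ x, ρ (ww F) x = 0 → x = 0 := fun x hx => by
      have e : (ρ (ww F)⁻¹ * ρ (ww F)) x = x := by rw [wi]; rfl
      rw [← e, Module.End.mul_apply, hx, map_zero]
    have we : ρ (ww F)⁻¹ = ρ (ww F) := by
      rw [← mul_one (ρ (ww F)⁻¹), ← ww1, ← mul_assoc, wi, one_mul]
    have z : ρ (ww F)⁻¹ (Bop ρ p 2 v) ∈ (⊥ : Submodule K W) := by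
      rw [← hB]
      refine (fB _).2 ⟨(fU _).1 fun i hi => wj _ (k i hi), ?_⟩
      rw [we, ← w40 0]
      exact wW 0 (by norm_num) _ a0
    rw [Submodule.mem_bot, we] at z
    have h42 : Bop ρ p 42 v = 0 := by
      have e := bmul 33 (by norm_num) 9 (by norm_num) v
      rw [h9', map_zero, if_pos (by norm_num)] at e
      refine (smul_eq_zero.1 e.symm).resolve_left (cast_ne ?_)
      rw [Nat.choose_eq_descFactorial_div_factorial]
      decide +kernel
    obtain ⟨N, hN, hm, h0⟩ := G 2 (by norm_num) (by norm_num) v ⟨u2 hv, hv.2⟩ (wj _ z) h42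
    exact ⟨top N hN h0 hm, hv.2⟩

end Cfsg.Agent.H75.L81G2
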