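import Cfsg.Agent.H53.TCDefs

/-! The group of symplectic type is normal in the closure: odd primes. -/

set_option autoImplicit false

namespace Cfsg.Agent.H75.TC

open Cfsg.Agent.H53.TC Cfsg.Agent.H53.MW Submodule

universe u

theorem smul_mem_iSup {K M : Type*} [Field K] [AddCommGroup M] [Module K M] {p : ℕ}
    (hp : p.Prime) {ω : K} (hω : IsPrimitiveRoot ω p) (φ : Module.End K M) (hφ : φ ^ p = 1)
    (x : M) : x ∈ ⨆ j : ZMod p, φ.eigenspace (ω ^ j.val) := by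
  have : NeZero p := ⟨hp.ne_zero⟩
  obtain ⟨η, hη, hωη⟩ : ∃ η : K, IsPrimitiveRoot η p ∧ ω * η = 1 :=
    ⟨ω⁻¹, hω.inv, mul_inv_cancel₀ (hω.ne_zero hp.ne_zero)⟩
  have h1 : ∀ j < p, (∑ k ∈ Finset.range p, (η ^ j • φ) ^ k) x ∈
      ⨆ j : ZMod p, φ.eigenspace (ω ^ j.val) := by
    intro j hj
    refine mem_iSup_of_mem (j : ZMod p) ?_
    have h2 := mul_geom_sum (η ^ j • φ) p
    rw [smul_pow, hφ, ← pow_mul, mul_comm j, pow_mul, hη.pow_eq_one, one_pow, one_smul, sub_self,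
      sub_mul, one_mul, sub_eq_zero] at h2
    have h3 := LinearMap.congr_fun h2 x
    rw [Module.End.mul_apply, LinearMap.smul_apply] at h3
    rw [Module.End.mem_eigenspace_iff, ZMod.val_cast_of_lt hj]
    conv_rhs => rw [← h3, smul_smul, ← mul_pow, hωη, one_pow, one_smul]
  have h2 : ∑ j ∈ Finset.range p, ∑ k ∈ Finset.range p, (η ^ j • φ) ^ k = p • 1 := by
    rw [Finset.sum_comm, Finset.sum_eq_single 0]
    · simp
    · intro k hk hk0
      simp only [smul_pow, ← Finset.sum_smul, ← pow_mul, mul_comm _ k]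
      simp only [pow_mul]
      rw [(hη.pow_of_coprime k (Nat.coprime_of_lt_prime hk0 (Finset.mem_range.1 hk)
        hp).symm).geom_sum_eq_zero hp.one_lt, zero_smul]
    · intro h
      exact absurd (Finset.mem_range.2 hp.pos) h
  have h3 := LinearMap.congr_fun h2 x
  rw [LinearMap.sum_apply, LinearMap.smul_apply, Module.End.one_apply] at h3
  have h4 : (p : K) ≠ 0 := hω.neZero'.out
  rw [← smul_mem_iff _ h4, Nat.cast_smul_eq_nsmul, ← h3]
  exact sum_mem fun j hj => h1 j (Finset.mem_range.1 hj)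

/-- a linear map all of whose vectors in `Y` are eigenvectors is a scalar on `Y` -/
theorem scal {K M : Type*} [Field K] [AddCommGroup M] [Module K M] (φ : Module.End K M)
    (Y : Submodule K M) (h : ∀ u ∈ Y, ∃ c : K, φ u = c • u) : ∃ c : K, ∀ u ∈ Y, φ u = c • u := by
  by_cases h0 : ∀ u ∈ Y, u = 0
  · exact ⟨0, fun u hu => by rw [h0 u hu, map_zero, smul_zero]⟩
  push Not at h0
  obtain ⟨w, hw, w0⟩ := h0
  obtain ⟨a, ha⟩ := h w hw
  refine ⟨a, fun u hu => ?_⟩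
  obtain ⟨b, hb⟩ := h u hu
  obtain ⟨c, hc⟩ := h _ (add_mem hu hw)
  rw [map_add, ha, hb, smul_add] at hc
  have e : (b - c) • u = (c - a) • w := by
    rw [sub_smul, sub_smul, sub_eq_sub_iff_add_eq_add, hc, add_comm]
  by_cases hbc : b - c = 0
  · rw [hbc, zero_smul, eq_comm, smul_eq_zero, sub_eq_zero] at e
    rw [hb, sub_eq_zero.1 hbc, e.resolve_right w0]
  · have e' : u = ((b - c)⁻¹ * (c - a)) • w := by
      rw [mul_smul, ← e, smul_smul, inv_mul_cancel₀ hbc, one_smul]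
    rw [e', map_smul, ha, smul_comm]

theorem pow_val_add {M : Type*} [Monoid M] {r : ℕ} [NeZero r] {x : M} (h : x ^ r = 1)
    (i j : ZMod r) : x ^ (i + j).val = x ^ i.val * x ^ j.val := by
  rw [ZMod.val_add, ← pow_eq_pow_mod _ h, pow_add]

variable {L V K W : Type*} [Group L] [AddCommGroup V] [DistribMulAction L V] [Field K]
  [Module K V] [AddCommGroup W] {σ : L →* RingAut K} {G T : Subgroup L} {π : L → W}
  {b : W → W → Kˣ} {r : ℕ}

/-- linear elements which preserve the `T`-orbits -/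
def TT (V : Type*) [MulAction L V] (σ : L →* RingAut K) (T : Subgroup L) : Subgroup L where
  carrier := {f | σ f = 1 ∧ ∀ v : V, ∃ τ ∈ T, f • v = τ • v}
  one_mem' := ⟨map_one σ, fun _ => ⟨1, one_mem _, rfl⟩⟩
  mul_mem' := fun {f g} hf hg => ⟨by rw [map_mul, hf.1, hg.1, one_mul], fun v => by
    obtain ⟨τ, hτ, e⟩ := hg.2 v
    obtain ⟨τ', hτ', e'⟩ := hf.2 (g • v)
    exact ⟨τ' * τ, mul_mem hτ' hτ, by rw [mul_smul, e', e, mul_smul]⟩⟩
  inv_mem' := fun {f} hf => ⟨by rw [map_inv, hf.1, inv_one], fun v => by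
    obtain ⟨τ, hτ, e⟩ := hf.2 (f⁻¹ • v)
    rw [smul_inv_smul] at e
    exact ⟨τ⁻¹, inv_mem hτ, by rw [eq_inv_smul_iff, ← e]⟩⟩

section
variable (h : Amb L V K W σ G T π b r)
include h

theorem lin {f : L} (hf : σ f = 1) (c : K) (v : V) : f • c • v = c • f • v := by
  rw [h.semi, hf]; rfl

/-- the linear map of a linear element -/
def toEnd {f : L} (hf : σ f = 1) : Module.End K V where
  toFun v := f • v
  map_add' := smul_add f
  map_smul' := lin h hf

theorem T_le : T ≤ TT V σ T := fun t ht => ⟨h.σT t ht, fun _ => ⟨t, ht, rfl⟩⟩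

theorem conj_TT (f : L) {t : L} (ht : t ∈ T) : f * t * f⁻¹ ∈ TT V σ T :=
  ⟨by simp [h.σT t ht], fun v => by
    obtain ⟨g, hg, e1, e2⟩ := h.cl f (f⁻¹ • v) (t • f⁻¹ • v)
    refine ⟨_, h.Tn g hg t ht, ?_⟩
    rw [smul_inv_smul] at e1
    rw [mul_smul, mul_smul, ← e2, mul_smul, mul_smul]
    conv_rhs => rw [← e1, inv_smul_smul]⟩

theorem pi_one : π 1 = 0 := by
  have := h.mul 1 (one_mem _) 1 (one_mem _)
  rwa [mul_one, left_eq_add] at this

theorem pi_pow {t : L} (ht : t ∈ T) (n : ℕ) : π (t ^ n) = n • π t := by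
  induction n with
  | zero => rw [pow_zero, pi_one h, zero_smul]
  | succ n ih => rw [pow_succ, h.mul _ (pow_mem ht n) _ ht, ih, succ_nsmul]

theorem pi_inv {t : L} (ht : t ∈ T) : π t⁻¹ = -π t := by
  rw [eq_neg_iff_add_eq_zero, ← h.mul _ (inv_mem ht) _ ht, inv_mul_cancel, pi_one h]

theorem b_pow (x y : W) : (b x y : K) ^ r = 1 := by
  rw [← Units.val_pow_eq_pow_val, ← h.alt.nsmul_left, h.rW, h.alt.zero_left, Units.val_one]

theorem exists_prim {w : W} (hw : w ≠ 0) :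
    ∃ s ∈ T, IsPrimitiveRoot (b w (π s) : K) r := by
  obtain ⟨y, hy⟩ := not_forall.1 (mt (h.alt.nd w) hw)
  obtain ⟨s, hs, rfl⟩ := h.surj y
  have := Fact.mk h.prime
  exact ⟨s, hs, orderOf_eq_prime (b_pow h w (π s)) (by simpa using hy) ▸
    IsPrimitiveRoot.orderOf _⟩

/-- scalars of order dividing `r` lie in `T` -/
theorem scalar_mem {c : K} (hc : c ^ r = 1) : ∃ z ∈ T, ∀ v : V, z • v = c • v := by
  obtain ⟨w, hw⟩ := h.nt
  obtain ⟨s, hs, hβ⟩ := exists_prim h hw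
  obtain ⟨t, ht, rfl⟩ := h.surj w
  have : NeZero r := ⟨h.prime.ne_zero⟩
  obtain ⟨i, -, rfl⟩ := hβ.eq_pow_of_pow_eq_one hc
  have hz : t * s * t⁻¹ * s⁻¹ ∈ T := mul_mem (mul_mem (mul_mem ht hs) (inv_mem ht)) (inv_mem hs)
  refine ⟨_, pow_mem hz i, fun v => ?_⟩
  induction i with
  | zero => simp
  | succ i ih =>
    rw [pow_succ', mul_smul, ih (by rw [← pow_mul, mul_comm, pow_mul, b_pow h, one_pow]),
      lin h (h.σT _ hz), mul_smul, mul_smul, mul_smul, h.hb t ht s hs, smul_inv_smul,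
      smul_inv_smul, smul_smul, pow_succ]

theorem ext' {f g : L} (e : ∀ v : V, f • v = g • v) : f = g :=
  (inv_mul_eq_one.1 (h.faith (g⁻¹ * f) fun v => by rw [mul_smul, e, inv_smul_smul])).symm

theorem eig_pow {t : L} (ht : σ t = 1) {c : K} {u : V} (e : t • u = c • u) (n : ℕ) :
    t ^ n • u = c ^ n • u := by
  induction n with
  | zero => simp
  | succ n ih => rw [pow_succ', mul_smul, ih, lin h ht, e, smul_smul, pow_succ]

theorem eig_shift {t s : L} (ht : t ∈ T) (hs : s ∈ T) {c : K} {u : V} (e : t • u = c • u) :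
    t • s • u = ((b (π t) (π s) : K) * c) • s • u := by
  rw [h.hb t ht s hs, e, lin h (h.σT s hs), smul_smul]

theorem eig_shift_pow {t s : L} (ht : t ∈ T) (hs : s ∈ T) {c : K} {u : V} (e : t • u = c • u)
    (n : ℕ) : t • s ^ n • u = ((b (π t) (π s) : K) ^ n * c) • s ^ n • u := by
  induction n with
  | zero => simpa using e
  | succ n ih => rw [pow_succ' s, mul_smul, eig_shift h ht hs ih, ← mul_assoc, ← pow_succ']

/-- conjugating by an element of `TT` gives a scalar multiple of a power -/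
theorem conj_eq [Nontrivial V] (hr : r ≠ 2) {f t : L} (hf : f ∈ TT V σ T) (ht : t ∈ T)
    (h0 : π t ≠ 0) : ∃ (κ : K) (i : ℕ), ∀ v : V, (f⁻¹ * t * f) • v = κ • t ^ i • v := by
  have : NeZero r := ⟨h.prime.ne_zero⟩
  have : Fact (1 < r) := ⟨h.prime.one_lt⟩
  obtain ⟨s, hs, hβ⟩ := exists_prim h h0
  set β : K := (b (π t) (π s) : K) with β_def
  have ht' : f⁻¹ * t * f ∈ TT V σ T := mul_mem (mul_mem (inv_mem hf) (T_le h ht)) hf
  let Y : ZMod r → Submodule K V := fun j => (toEnd h (h.σT t ht)).eigenspace (β ^ j.val)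
  have mY : ∀ {j u}, u ∈ Y j ↔ t • u = β ^ j.val • u := Module.End.mem_eigenspace_iff
  have top : ∀ v, v ∈ ⨆ j, Y j := smul_mem_iSup h.prime hβ _ (by
    ext v
    have : ∀ n, (toEnd h (h.σT t ht) ^ n) v = t ^ n • v := fun n => by
      induction n with
      | zero => simp
      | succ n ih => rw [pow_succ', Module.End.mul_apply, ih, pow_succ', mul_smul]; rfl
    rw [this, h.odd hr t ht, one_smul]; rfl)
  have ind : iSupIndep Y := (toEnd h (h.σT t ht)).eigenspaces_iSupIndep.comp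
    (f := fun j : ZMod r => β ^ j.val) fun i j e =>
      ZMod.val_injective r (hβ.pow_inj (ZMod.val_lt i) (ZMod.val_lt j) e)
  have hψ : ∀ j, ∃ c : K, ∀ u ∈ Y j, (f⁻¹ * t * f) • u = c • u := fun j =>
    scal (toEnd h ht'.1) (Y j) fun u hu => by
      obtain ⟨τ, hτ, e⟩ := hf.2 u
      refine ⟨b (π t) (π τ) * β ^ j.val, ?_⟩
      change (f⁻¹ * t * f) • u = _
      rw [mul_smul, mul_smul, e, eig_shift h ht hτ (mY.1 hu), ← e, lin h (inv_mem hf).1,
        inv_smul_smul]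
  choose ψ hψ using hψ
  have sh : ∀ i j : ZMod r, ∀ u ∈ Y i, s ^ j.val • u ∈ Y (j + i) := fun i j u hu => by
    rw [mY, eig_shift_pow h ht hs (mY.1 hu), pow_val_add hβ.pow_eq_one]
  obtain ⟨x0, hx0, x00⟩ : ∃ x0 ∈ Y 0, x0 ≠ 0 := by
    by_contra c
    push Not at c
    obtain ⟨v, hv⟩ := exists_ne (0 : V)
    refine hv ((mem_bot K).1 ((iSup_le fun j u hu => ?_ : ⨆ j, Y j ≤ ⊥) (top v)))
    have := c _ (neg_add_cancel j ▸ sh j (-j) u hu)
    rwa [smul_eq_zero_iff_eq] at this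
  let x : ZMod r → V := fun j => s ^ j.val • x0
  have xY : ∀ j, x j ∈ Y j := fun j => by
    have := sh 0 j x0 hx0
    rwa [add_zero] at this
  have xs : ∀ j, x (j + 1) = s • x j := fun j => by
    simp only [x]
    rw [add_comm, pow_val_add (h.odd hr s hs), ZMod.val_one, pow_one, mul_smul]
  have x0' : ∀ j, x j ≠ 0 := fun j e => x00 ((smul_eq_zero_iff_eq _).1 e)
  obtain ⟨τ, hτ, e⟩ := ht'.2 (∑ j, x j)
  obtain ⟨a, ha, ea⟩ := hβ.eq_pow_of_pow_eq_one (b_pow h (π t) (π τ))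
  obtain ⟨i, -, ei⟩ := hβ.eq_pow_of_pow_eq_one (b_pow h (π τ) (π s))
  have cmp : ∀ j, ψ j • x j = τ • x (j - a) := fun j => by
    refine (iSupIndep_iff_finsetSum_eq_imp_eq Y).1 ind Finset.univ (fun j => ψ j • x j)
      (fun j => τ • x (j - a)) (fun j _ => ⟨smul_mem _ _ (xY j), ?_⟩) ?_ j (Finset.mem_univ j)
    · rw [mY, eig_shift h ht hτ (mY.1 (xY _)), ← ea, ← ZMod.val_cast_of_lt ha,
        ← pow_val_add hβ.pow_eq_one, ZMod.val_cast_of_lt ha, add_sub_cancel]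
    · rw [Finset.smul_sum, Finset.smul_sum] at e
      rw [Finset.sum_congr rfl fun j _ => (hψ j _ (xY j)).symm, e]
      exact (Equiv.sum_comp (Equiv.subRight (a : ZMod r)) fun j => τ • x j).symm
  have step : ∀ j, ψ (j + 1) = β ^ i * ψ j := fun j => by
    have e1 := cmp (j + 1)
    rw [add_sub_right_comm, xs (j - a), h.hb τ hτ s hs, ← cmp, lin h (h.σT s hs), ← xs, smul_smul,
      ← ei] at e1
    exact smul_left_injective K (x0' _) e1
  have form : ∀ n : ℕ, ψ n = ψ 0 * (β ^ i) ^ n := fun n => by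
    induction n with
    | zero => simp
    | succ n ih => rw [Nat.cast_succ, step, ih]; ring
  refine ⟨ψ 0, i, fun v => ?_⟩
  have hti : σ (t ^ i) = 1 := h.σT _ (pow_mem ht i)
  refine (iSup_le fun j u hu => ?_ : ⨆ j, Y j ≤
    LinearMap.eqLocus (toEnd h ht'.1) (ψ 0 • toEnd h hti)) (top v)
  change (f⁻¹ * t * f) • u = ψ 0 • t ^ i • u
  rw [hψ j u hu, eig_pow h (h.σT t ht) (mY.1 hu), smul_smul, ← pow_mul, mul_comm j.val, pow_mul,
    ← form, ZMod.natCast_zmod_val]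

theorem conj_scalar {f t : L} (hf : σ f = 1) {c : K} (e : ∀ v : V, t • v = c • v) :
    f⁻¹ * t * f = t :=
  ext' h fun v => by
    rw [mul_smul, mul_smul, e, e, lin h (by rw [map_inv, hf, inv_one]), inv_smul_smul]

theorem conj_mem [Nontrivial V] (hr : r ≠ 2) {f t : L} (hf : f ∈ TT V σ T) (ht : t ∈ T) :
    f⁻¹ * t * f ∈ T ∧ ∃ i : ℕ, π (f⁻¹ * t * f) = i • π t := by
  by_cases h0 : π t = 0
  · obtain ⟨c, e⟩ := (h.ker t ht).1 h0
    rw [conj_scalar h hf.1 e]
    exact ⟨ht, 1, (one_smul _ _).symm⟩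
  obtain ⟨κ, i, e⟩ := conj_eq h hr hf ht h0
  have hti : σ (t ^ i) = 1 := h.σT _ (pow_mem ht i)
  have pw : ∀ (n : ℕ) (v : V), (f⁻¹ * t * f) ^ n • v = κ ^ n • (t ^ i) ^ n • v := fun n v => by
    induction n with
    | zero => simp
    | succ n ih =>
      rw [pow_succ', mul_smul, ih, e, lin h hti, smul_smul, ← pow_succ', pow_succ' (t ^ i),
        mul_smul]
  have hκ : κ ^ r = 1 := by
    obtain ⟨v, hv⟩ := exists_ne (0 : V)
    have := pw r v
    rw [h.odd hr _ (pow_mem ht i), one_smul,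
      show f⁻¹ * t * f = f⁻¹ * t * f⁻¹⁻¹ by rw [inv_inv], conj_pow, h.odd hr t ht, mul_one,
      mul_inv_cancel, one_smul] at this
    exact smul_left_injective K hv (this.symm.trans (one_smul K v).symm)
  obtain ⟨z, hz, ez⟩ := scalar_mem h hκ
  have e' : f⁻¹ * t * f = z * t ^ i := ext' h fun v => by rw [e, mul_smul z, ez]
  rw [e']
  exact ⟨mul_mem hz (pow_mem ht i), i, by
    rw [h.mul z hz _ (pow_mem ht i), (h.ker z hz).2 ⟨κ, ez⟩, zero_add, pi_pow h ht]⟩

theorem pi_conj_congr [Nontrivial V] (hr : r ≠ 2) {f s t : L} (hf : f ∈ TT V σ T) (hs : s ∈ T)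
    (ht : t ∈ T) (e : π s = π t) : π (f⁻¹ * s * f) = π (f⁻¹ * t * f) := by
  have hu : s * t⁻¹ ∈ T := mul_mem hs (inv_mem ht)
  have h0 : π (s * t⁻¹) = 0 := by rw [h.mul s hs _ (inv_mem ht), pi_inv h ht, e, add_neg_cancel]
  obtain ⟨c, ec⟩ := (h.ker _ hu).1 h0
  rw [show f⁻¹ * s * f = f⁻¹ * (s * t⁻¹) * f * (f⁻¹ * t * f) by group, conj_scalar h hf.1 ec,
    h.mul _ hu _ (conj_mem h hr hf ht).1, h0, zero_add]

theorem pi_conj [Nontrivial V] (hr : r ≠ 2) {f t : L} (hf : f ∈ TT V σ T) (hfr : f ^ r = 1)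
    (ht : t ∈ T) : π (f⁻¹ * t * f) = π t := by
  obtain ⟨-, i, e⟩ := conj_mem h hr hf ht
  have key : ∀ n : ℕ, π ((f ^ n)⁻¹ * t * f ^ n) = i ^ n • π t := fun n => by
    induction n with
    | zero => simp
    | succ n ih =>
      rw [show (f ^ (n + 1))⁻¹ * t * f ^ (n + 1) = f⁻¹ * ((f ^ n)⁻¹ * t * f ^ n) * f by
        rw [pow_succ]; group,
        pi_conj_congr h hr hf (conj_mem h hr (pow_mem hf n) ht).1 (pow_mem ht (i ^ n))
          (ih.trans (pi_pow h ht _).symm),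
        show f⁻¹ * t ^ i ^ n * f = (f⁻¹ * t * f) ^ i ^ n by
          rw [show f⁻¹ * t * f = f⁻¹ * t * f⁻¹⁻¹ by rw [inv_inv], conj_pow, inv_inv],
        pi_pow h (conj_mem h hr hf ht).1, e, smul_smul, pow_succ]
  have k := key r
  rw [hfr, inv_one, one_mul, mul_one] at k
  have := Fact.mk h.prime
  have hm : i ^ r ≡ i [MOD r] := (ZMod.natCast_eq_natCast_iff _ _ _).1 (by
    rw [Nat.cast_pow, ZMod.pow_card])
  rw [e, nsmul_eq_mod_nsmul i (h.rW _), ← hm, ← nsmul_eq_mod_nsmul _ (h.rW _), ← k]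

end

theorem normOdd (csc : CscStmt.{u}) : NormOddStmt.{u} := by
  intro L V K W _ _ _ _ _ _ _ _ _ _ _ σ G T π b r h hr
  suffices H : ∀ f ∈ TT V σ T, f ^ r = 1 → f ∈ T from
    ⟨fun t ht f => H _ (conj_TT h f ht) (by rw [conj_pow, h.odd hr t ht, mul_one, mul_inv_cancel])⟩
  intro f hf hfr
  obtain ⟨v0, hv0⟩ := exists_ne (0 : V)
  have ex : ∀ t ∈ T, ∃ c : Kˣ, ∀ v : V, (f⁻¹ * t * f) • v = (c : K) • t • v := fun t ht => by
    have hc := (conj_mem h hr hf ht).1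
    obtain ⟨c, e⟩ := (h.ker _ (mul_mem hc (inv_mem ht))).1 (by
      rw [h.mul _ hc _ (inv_mem ht), pi_inv h ht, pi_conj h hr hf hfr ht, add_neg_cancel])
    refine ⟨Units.mk0 c fun c0 => hv0 ?_, fun v => ?_⟩
    · have := e v0
      rwa [c0, zero_smul, smul_eq_zero_iff_eq] at this
    · rw [Units.val_mk0, ← e, mul_smul _ t⁻¹, inv_smul_smul]
  choose l hl el using h.surj
  choose κ hκ using fun w => ex (l w) (hl w)
  have all : ∀ t ∈ T, ∀ v : V, (f⁻¹ * t * f) • v = (κ (π t) : K) • t • v := fun t ht v => by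
    have hu : (l (π t))⁻¹ * t ∈ T := mul_mem (inv_mem (hl _)) ht
    obtain ⟨c, ec⟩ := (h.ker _ hu).1 (by
      rw [h.mul _ (inv_mem (hl _)) _ ht, pi_inv h (hl _), el, neg_add_cancel])
    rw [show f⁻¹ * t * f = f⁻¹ * l (π t) * f * (f⁻¹ * ((l (π t))⁻¹ * t) * f) by group,
      conj_scalar h hf.1 ec, mul_smul, hκ, ← mul_smul (l (π t)), mul_inv_cancel_left]
  obtain ⟨a, ha⟩ := h.alt.exists_eq κ fun x y => by
    have e := all _ (mul_mem (hl x) (hl y)) v0
    rw [show f⁻¹ * (l x * l y) * f = f⁻¹ * l x * f * (f⁻¹ * l y * f) by group, mul_smul, hκ, hκ,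
      lin h (h.σT _ (hl x)), smul_smul, ← mul_smul (l x), h.mul _ (hl x) _ (hl y), el, el] at e
    exact Units.ext (smul_left_injective K
      (mt (smul_eq_zero_iff_eq (l x * l y)).1 hv0) e.symm)
  have com : ∀ t ∈ T, Commute (f * l a) t := fun t ht => by
    have e : l a * t = f⁻¹ * t * f * l a := ext' h fun v => by
      rw [mul_smul, h.hb _ (hl a) t ht, el, ha, mul_smul _ (l a), all t ht]
    change f * l a * t = t * (f * l a)
    rw [mul_assoc, e]; group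
  have hc := mul_mem hf (T_le h (hl a))
  have cr : (f * l a) ^ r = 1 := by
    have e : (f * l a * (l a)⁻¹) ^ r = 1 := by rwa [mul_inv_cancel_right]
    rwa [(com _ (inv_mem (hl a))).mul_pow, h.odd hr _ (inv_mem (hl a)), mul_one] at e
  obtain ⟨γ, hγ⟩ := csc L V K W σ G T π b r h _ hc.1 com hc.2 (Or.inl cr)
  have hγr : γ ^ r = 1 := by
    have := eig_pow h hc.1 (hγ v0) r
    rw [cr, one_smul] at this
    exact smul_left_injective K hv0 (this.symm.trans (one_smul K v0).symm)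
  obtain ⟨z, hz, ez⟩ := scalar_mem h hγr
  have e : f * l a = z := ext' h fun v => by rw [hγ, ez]
  exact (mul_mem_cancel_right (hl a)).1 (e ▸ hz)

end Cfsg.Agent.H75.TC
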