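import Mathlib
import Cfsg.Agent.H75.Siegel
import Cfsg.Agent.H75.HermOrbit
import Cfsg.Agent.H31.HermSimple
import Cfsg.Agent.H31.HermStd

/-!
# Degree bounds for special unitary groups
-/

namespace Cfsg.Agent.H75

open Matrix Module H31

section Heis

variable {K : Type*} [Field K] {V : Type*} [AddCommGroup V] [Module K V] {G : Type*} [Group G]
  {A : Type*} [AddCommGroup A]

theorem card_le_finrank_wt_sq [FiniteDimensional K V] (ρ : Representation K G V) (x : A → G)
    (l : AddChar A K) (hl : wt ρ x l ≠ ⊥) {ι : Type*} [Fintype ι] (y : ι → G)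
    (hy : ∀ s a, x a * y s = y s * x a) (c : ι → ι → K) (hc : Function.Injective c)
    (h : ∀ s t, ∃ a, y t * y s = y s * y t * x a ∧ l a = c s t) :
    Fintype.card ι ≤ finrank K (wt ρ x l) ^ 2 := by
  have hmap : ∀ s, ∀ v ∈ wt ρ x l, ρ (y s) v ∈ wt ρ x l := fun s v hv =>
    map_mem_wt (y s) (fun a => ⟨a, hy s a, rfl⟩) hv
  have : Nontrivial (wt ρ x l) := Submodule.nontrivial_iff_ne_bot.mpr hl
  refine card_le_finrank_sq_of_twisted (fun s => LinearEquiv.ofInjectiveEndo
    ((ρ (y s)).restrict (hmap s)) ?_) c hc ?_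
  · rw [injective_iff_map_eq_zero]
    intro v hv
    by_contra h0
    exact rep_apply_ne_zero ρ (y s) (fun h => h0 (Subtype.ext h)) (congrArg Subtype.val hv)
  · intro s t v
    obtain ⟨a, h1, h2⟩ := h s t
    apply Subtype.ext
    show ρ (y t) (ρ (y s) v) = c s t • ρ (y s) (ρ (y t) v)
    rw [← Module.End.mul_apply, ← map_mul, h1, map_mul, map_mul, Module.End.mul_apply,
      Module.End.mul_apply, v.2 a, h2, map_smul, map_smul]

end Heis

variable {F : Type*} [Field F] {σ : F →+* F} {l k : Type*} [Fintype l] [DecidableEq l]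
  [Fintype k] [DecidableEq k]

section Mk

variable {V : Type*} [AddCommGroup V] [Module F V] [FiniteDimensional F V]
  {B : V →ₛₗ[σ] V →ₗ[F] F}

/-- An element of the special isometry group from a linear map. -/
noncomputable def mkSisom (g : V →ₗ[F] V) (hg : ∀ u v, B (g u) (g v) = B u v)
    (hd : LinearMap.det g = 1) : sisom B :=
  ⟨LinearMap.equivOfDetNeZero g (by rw [hd]; exact one_ne_zero), mem_sisom'.mpr ⟨hg, hd⟩⟩

theorem mkSisom_apply (g : V →ₗ[F] V) (hg : ∀ u v, B (g u) (g v) = B u v)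
    (hd : LinearMap.det g = 1) (v : V) : (mkSisom g hg hd : V ≃ₗ[F] V) v = g v := rfl

omit [FiniteDimensional F V] in
theorem sisom_mul_apply (g h : sisom B) (v : V) :
    ((g * h : sisom B) : V ≃ₗ[F] V) v = (g : V ≃ₗ[F] V) ((h : V ≃ₗ[F] V) v) := rfl

omit [FiniteDimensional F V] in
theorem sisom_ext {g h : sisom B} (H : ∀ v, (g : V ≃ₗ[F] V) v = (h : V ≃ₗ[F] V) v) : g = h :=
  Subtype.ext (LinearEquiv.ext H)

end Mk

variable (σ) in
/-- The conjugate transpose. -/
def adj (S : Matrix l l F) : Matrix l l F := (S.map σ)ᵀ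

omit [DecidableEq l] in
theorem stdB_eq_dot (x y : l → F) : stdB σ l x y = (σ ∘ x) ⬝ᵥ y := rfl

omit [DecidableEq l] in
theorem stdB_mulVec (S : Matrix l l F) (u v : l → F) :
    stdB σ l (S *ᵥ u) v = stdB σ l u (adj σ S *ᵥ v) := by
  rw [stdB_eq_dot, stdB_eq_dot, adj, dotProduct_mulVec, vecMul_transpose]
  congr 1
  ext i
  exact RingHom.map_mulVec σ S u i

omit [DecidableEq l] in
theorem adj_mul (S T : Matrix l l F) : adj σ (S * T) = adj σ T * adj σ S := by
  rw [adj, Matrix.map_mul, transpose_mul]; rfl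

omit [Fintype l] [DecidableEq l] in
theorem adj_adj (hσ : IsInvol σ) (S : Matrix l l F) : adj σ (adj σ S) = S := by
  ext i j; simp [adj, hσ.invol]

omit [Fintype l] in
theorem adj_one : adj σ (1 : Matrix l l F) = 1 := by
  rw [adj, Matrix.map_one _ (map_zero σ) (map_one σ), transpose_one]

theorem det_adj (S : Matrix l l F) : (adj σ S).det = σ S.det := by
  rw [adj, det_transpose, RingHom.map_det]; rfl

variable (σ l) in
/-- Hermitian matrices. -/
def hermMat : AddSubgroup (Matrix l l F) where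
  carrier := {S | adj σ S = S}
  add_mem' {S T} hS hT := by
    rw [Set.mem_ofPred_eq] at *
    conv_rhs => rw [← hS, ← hT]
    ext i j; simp [adj]
  zero_mem' := by ext i j; simp [adj]
  neg_mem' {S} hS := by
    rw [Set.mem_ofPred_eq] at *
    conv_rhs => rw [← hS]
    ext i j; simp [adj]

variable (σ l k) in
/-- The Hermitian form with a hyperbolic part. -/
def uForm : ((l → F) × (l → F) × (k → F)) →ₛₗ[σ] ((l → F) × (l → F) × (k → F)) →ₗ[F] F :=
  LinearMap.mk₂'ₛₗ σ (RingHom.id F)
    (fun v w => stdB σ l v.1 w.2.1 + stdB σ l v.2.1 w.1 + stdB σ k v.2.2 w.2.2)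
    (fun x x' y => by simp only [Prod.fst_add, Prod.snd_add, add_left]; ring)
    (fun c x y => by simp only [Prod.smul_fst, Prod.smul_snd, smul_left, smul_eq_mul]; ring)
    (fun x y y' => by simp only [Prod.fst_add, Prod.snd_add, map_add]; ring)
    (fun c x y => by
      simp only [Prod.smul_fst, Prod.smul_snd, smul_right, smul_eq_mul, RingHom.id_apply]; ring)

omit [DecidableEq l] [DecidableEq k] in
theorem uForm_apply (v w : (l → F) × (l → F) × (k → F)) :
    uForm σ l k v w = stdB σ l v.1 w.2.1 + stdB σ l v.2.1 w.1 + stdB σ k v.2.2 w.2.2 := rfl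

omit [DecidableEq l] [DecidableEq k] in
theorem isHerm_uForm (hσ : IsInvol σ) : IsHerm (uForm σ l k) := by
  have h1 := isHerm_stdB hσ l
  have h2 := isHerm_stdB hσ k
  refine ⟨⟨hσ, fun x y => ?_⟩, fun x hx => ?_⟩
  · rw [uForm_apply, uForm_apply, map_add, map_add, h1.symm, h1.symm, h2.symm]; ring
  · refine Prod.ext (h1.nondeg _ fun y => ?_) (Prod.ext (h1.nondeg _ fun y => ?_)
      (h2.nondeg _ fun y => ?_))
    · simpa [uForm_apply] using hx (0, y, 0)
    · simpa [uForm_apply] using hx (y, 0, 0)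
    · simpa [uForm_apply] using hx (0, 0, y)

variable (k) in
/-- The centre of the unipotent radical. -/
noncomputable def uX {ω : F} (hω : σ ω = -ω) (S : hermMat σ l) : sisom (uForm σ l k) :=
  mkSisom (1 + LinearMap.inl F _ _ ∘ₗ (ω • Matrix.toLin' (S : Matrix l l F) ∘ₗ
      LinearMap.fst F _ _ ∘ₗ LinearMap.snd F _ _))
    (fun u v => by
      have hS : adj σ (S : Matrix l l F) = S := S.2
      simp only [uForm_apply, LinearMap.add_apply, Module.End.one_apply, LinearMap.comp_apply,
        LinearMap.inl_apply, LinearMap.smul_apply, LinearMap.fst_apply, LinearMap.snd_apply,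
        toLin'_apply, Prod.fst_add, Prod.snd_add, add_zero, add_left, map_add, smul_left,
        smul_right, stdB_mulVec, hS, hω, Prod.fst_zero, Prod.snd_zero, map_zero,
        LinearMap.zero_apply, mulVec_zero]
      ring)
    (by
      rw [det_one_add_comp_comm]
      have : (ω • Matrix.toLin' (S : Matrix l l F) ∘ₗ LinearMap.fst F (l → F) (k → F) ∘ₗ
          LinearMap.snd F (l → F) _) ∘ₗ LinearMap.inl F _ _ = 0 := by
        ext; simp
      rw [this, add_zero, map_one])

theorem uX_apply {ω : F} (hω : σ ω = -ω) (S : hermMat σ l) (v : (l → F) × (l → F) × (k → F)) :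
    (uX k hω S : _ ≃ₗ[F] _) v = (v.1 + ω • (S : Matrix l l F) *ᵥ v.2.1, v.2) := by
  rw [uX, mkSisom_apply]
  ext <;> simp

theorem uX_add {ω : F} (hω : σ ω = -ω) (S T : hermMat σ l) :
    uX k hω (S + T) = uX k hω S * uX k hω T := by
  refine sisom_ext fun v => ?_
  rw [sisom_mul_apply, uX_apply, uX_apply, uX_apply, AddSubgroup.coe_add, add_mulVec, smul_add]
  refine Prod.ext ?_ rfl
  simp only
  abel

theorem uX_mem_center (hσ : IsInvol σ) [Finite F] {ω : F} (hω : σ ω = -ω) (hω0 : ω ≠ 0)
    {S : hermMat σ l} (h : uX k hω S ∈ Subgroup.center (sisom (uForm σ l k))) : S = 0 := by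
  rcases isEmpty_or_nonempty l with hl | hl
  · exact Subtype.ext (Subsingleton.elim _ _)
  have : 0 < Fintype.card l := Fintype.card_pos
  obtain ⟨a, ha⟩ := ((isHerm_uForm hσ).mem_center_sisom_iff (by simp; omega)).mp h
  apply Subtype.ext
  apply matrix_ext_mulVec
  intro v
  have := congrArg Prod.fst (ha (0, v, 0))
  rw [uX_apply] at this
  simpa [hω0] using this

variable (k) in
/-- The Levi factor. -/
noncomputable def uL (hσ : IsInvol σ) (h h' : Matrix l l F) (hh : h * h' = 1) (ε : F)
    (hε : ε * σ ε = 1) (hd : h'.det * σ h.det * ε ^ Fintype.card k = 1) : sisom (uForm σ l k) :=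
  mkSisom ((Matrix.toLin' h').prodMap ((Matrix.toLin' (adj σ h)).prodMap (ε • LinearMap.id)))
    (fun u v => by
      have h1 : adj σ h' * adj σ h = 1 := by rw [← adj_mul, hh, adj_one]
      simp only [uForm_apply, LinearMap.prodMap_apply, toLin'_apply, LinearMap.smul_apply,
        LinearMap.id_apply, smul_left, smul_right, stdB_mulVec, adj_adj hσ, mulVec_mulVec, h1, hh,
        one_mulVec]
      linear_combination (stdB σ k u.2.2 v.2.2) * hε)
    (by
      rw [LinearMap.det_prodMap, LinearMap.det_prodMap, LinearMap.det_toLin', LinearMap.det_toLin',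
        LinearMap.det_smul, LinearMap.det_id, det_adj, Module.finrank_fintype_fun_eq_card, mul_one,
        ← mul_assoc, hd])

theorem uL_apply (hσ : IsInvol σ) (h h' : Matrix l l F) (hh : h * h' = 1) (ε : F)
    (hε : ε * σ ε = 1) (hd : h'.det * σ h.det * ε ^ Fintype.card k = 1)
    (v : (l → F) × (l → F) × (k → F)) :
    (uL k hσ h h' hh ε hε hd : _ ≃ₗ[F] _) v = (h' *ᵥ v.1, adj σ h *ᵥ v.2.1, ε • v.2.2) := rfl

/-- The action `S ↦ h S h*` on Hermitian matrices. -/
def hermConj (hσ : IsInvol σ) (h : Matrix l l F) (S : hermMat σ l) : hermMat σ l :=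
  ⟨h * S * adj σ h, by
    have hS : adj σ (S : Matrix l l F) = S := S.2
    show adj σ (h * (S : Matrix l l F) * adj σ h) = _
    rw [adj_mul, adj_mul, adj_adj hσ, hS, Matrix.mul_assoc]⟩

theorem uX_mul_uL (hσ : IsInvol σ) {ω : F} (hω : σ ω = -ω) (h h' : Matrix l l F) (hh : h * h' = 1)
    (ε : F) (hε : ε * σ ε = 1) (hd : h'.det * σ h.det * ε ^ Fintype.card k = 1)
    (S : hermMat σ l) :
    uX k hω S * uL k hσ h h' hh ε hε hd = uL k hσ h h' hh ε hε hd * uX k hω (hermConj hσ h S) := by
  refine sisom_ext fun v => ?_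
  rw [sisom_mul_apply, sisom_mul_apply, uX_apply, uX_apply, uL_apply, uL_apply]
  simp only [hermConj, mulVec_add, mulVec_smul, mulVec_mulVec, ← Matrix.mul_assoc,
    mul_eq_one_comm.mp hh, Matrix.one_mul]

/-- The rank one Hermitian matrix `c v v*`. -/
def hermSq (hσ : IsInvol σ) (c : F) (hc : σ c = c) (v : l → F) : hermMat σ l :=
  ⟨c • vecMulVec v (σ ∘ v), by
    show adj σ _ = _
    ext i j
    simp [adj, vecMulVec_apply, hc, hσ.invol, mul_comm]⟩

omit [DecidableEq l] in
theorem hermSq_mulVec (hσ : IsInvol σ) (c : F) (hc : σ c = c) (v w : l → F) :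
    (hermSq hσ c hc v : Matrix l l F) *ᵥ w = (c * stdB σ l v w) • v := by
  simp only [hermSq]
  rw [smul_mulVec, vecMulVec_mulVec, stdB_eq_dot, mul_smul]
  simp

variable (σ l) in
/-- The trace pairing of Hermitian matrices. -/
def hermPair : hermMat σ l →+ hermMat σ l →+ F where
  toFun H :=
    { toFun := fun S => trace ((H : Matrix l l F) * (S : Matrix l l F))
      map_zero' := by simp
      map_add' := fun S T => by simp [Matrix.mul_add] }
  map_zero' := by ext; simp
  map_add' H H' := by ext; simp [Matrix.add_mul]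

theorem hermPair_apply (H S : hermMat σ l) :
    hermPair σ l H S = trace ((H : Matrix l l F) * (S : Matrix l l F)) := rfl

/-- The Hermitian form of a matrix. -/
def hermForm' (H : Matrix l l F) : (l → F) →ₛₗ[σ] (l → F) →ₗ[F] F :=
  (stdB σ l).compl₂ (Matrix.toLin' H)

theorem hermForm'_apply (H : Matrix l l F) (u v : l → F) :
    hermForm' (σ := σ) H u v = stdB σ l u (H *ᵥ v) := rfl

theorem isHermSymm_hermForm' (hσ : IsInvol σ) (H : hermMat σ l) :
    IsHermSymm (hermForm' (σ := σ) (H : Matrix l l F)) := by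
  refine ⟨hσ, fun x y => ?_⟩
  have hH : adj σ (H : Matrix l l F) = H := H.2
  rw [hermForm'_apply, hermForm'_apply, (isHerm_stdB hσ l).symm, stdB_mulVec, hH]

theorem hermForm'_injective (hσ : IsInvol σ) :
    Function.Injective (hermForm' (σ := σ) : Matrix l l F → _) := by
  intro H H' h
  apply matrix_ext_mulVec
  intro v
  apply (isHerm_stdB hσ l).ext_right
  intro u
  rw [← hermForm'_apply, h, hermForm'_apply]

theorem hermPair_hermSq (hσ : IsInvol σ) (H : hermMat σ l) (c : F) (hc : σ c = c) (v : l → F) :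
    hermPair σ l H (hermSq hσ c hc v) = c * hermForm' (σ := σ) (H : Matrix l l F) v v := by
  rw [hermPair_apply, hermForm'_apply]
  simp only [hermSq]
  rw [Matrix.mul_smul, trace_smul, mul_vecMulVec, trace_vecMulVec, stdB_eq_dot, dotProduct_comm,
    smul_eq_mul]

theorem exists_hermForm'_ne_zero (hσ : IsInvol σ) {H : hermMat σ l} (hH : H ≠ 0) :
    ∃ v, hermForm' (σ := σ) (H : Matrix l l F) v v ≠ 0 := by
  by_contra h
  push Not at h
  apply hH
  apply Subtype.ext
  apply hermForm'_injective hσ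
  refine LinearMap.ext fun x => LinearMap.ext fun y => ?_
  rw [(isHermSymm_hermForm' hσ H).eq_zero_of_norm_zero (W := ⊤) (fun x _ => h x) trivial trivial,
    hermForm'_apply]
  simp

theorem exists_hermPair_eq_one (hσ : IsInvol σ) {H : hermMat σ l} (hH : H ≠ 0) :
    ∃ S, hermPair σ l H S = 1 := by
  obtain ⟨v, hv⟩ := exists_hermForm'_ne_zero hσ hH
  refine ⟨hermSq hσ (hermForm' (σ := σ) (H : Matrix l l F) v v)⁻¹
    (by rw [map_inv₀, (isHermSymm_hermForm' hσ H).norm_fixed]) v, ?_⟩
  rw [hermPair_hermSq, inv_mul_cancel₀ hv]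

theorem exists_addChar_one_ne_one (F : Type*) [Field F] [Finite F] :
    ∃ ψ : AddChar F ℂ, ψ 1 ≠ 1 := by
  have := Fintype.ofFinite F
  have h := AddChar.FiniteField.primitiveChar_to_Complex_isPrimitive F (a := 1) one_ne_zero
  rw [AddChar.mulShift_one] at h
  obtain ⟨r, hr⟩ := AddChar.ne_one_iff.mp h
  exact ⟨(AddChar.FiniteField.primitiveChar_to_Complex F).mulShift r, by simpa using hr⟩

theorem unitary_bound [Fintype F] [Nonempty l] {q : ℕ} (hF : Fintype.card F = q ^ 2)
    (hσ' : ∀ x, σ x = x ^ q) {W : Type*} [AddCommGroup W] [Module ℂ W] [FiniteDimensional ℂ W]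
    (ρ : Representation ℂ (sisom (uForm σ l k)) W)
    (hρ : ∀ g, ρ g = 1 → g ∈ Subgroup.center (sisom (uForm σ l k)))
    (hk : (Fintype.card k = 0 ∧ 2 ≤ Fintype.card l) ∨ Fintype.card k = 1) :
    (q ^ (2 * Fintype.card l) - 1) * q ^ Fintype.card k ≤ (q + 1) * finrank ℂ W := by
  classical
  have hσ := isInvol_of_pow hF hσ'
  obtain ⟨ω, hω0, hω⟩ := hσ.exists_skew
  obtain ⟨ψ, hψ⟩ := exists_addChar_one_ne_one F
  let χ := pairChar ψ (hermPair σ l)
  have hinj : Function.Injective χ := pairChar_injective _ _ fun H hH => by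
    obtain ⟨S, hS⟩ := exists_hermPair_eq_one hσ hH
    exact ⟨S, by rwa [hS]⟩
  let x : hermMat σ l → sisom (uForm σ l k) := uX k hω
  let s : Finset (hermMat σ l) := Finset.univ.filter fun H => H ≠ 0 ∧ wt ρ x (χ H) ≠ ⊥
  have hs : ∀ H, H ∈ s ↔ H ≠ 0 ∧ wt ρ x (χ H) ≠ ⊥ := fun H => by simp [s]
  obtain ⟨H₀, hH₀⟩ : ∃ H₀, H₀ ∈ s := by
    by_contra hc
    push Not at hc
    obtain ⟨i⟩ := ‹Nonempty l›
    have h1 := rep_eq_one_of_wt ρ x (uX_add hω) (M := hermMat σ l)
      (by exact_mod_cast Nat.card_pos.ne') χ (fun S hS => by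
        obtain ⟨H, hH⟩ := exists_hermPair_eq_one hσ hS
        refine ⟨H, ?_⟩
        rw [hermPair_apply, trace_mul_comm, ← hermPair_apply] at hH
        rwa [pairChar_apply, hH]) (hermSq hσ 1 (map_one σ) (Pi.single i 1)) (fun H hH => by
        have : H = 0 := by
          by_contra h0
          exact hc H ((hs H).mpr ⟨h0, hH⟩)
        rw [this, map_zero]; rfl)
    have h2 := uX_mem_center hσ hω hω0 (hρ _ h1)
    have h3 := congrFun (congrFun (congrArg Subtype.val h2) i) i
    simp [hermSq, vecMulVec_apply] at h3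
  have horb := herm_orbit_bound hF hσ'
    (T := (fun H : hermMat σ l => hermForm' (σ := σ) (H : Matrix l l F)) '' s)
    (s.finite_toSet.image _) (by rintro _ ⟨H, -, rfl⟩; exact isHermSymm_hermForm' hσ H)
    (fun e => ∃ ε : F, ε * σ ε = 1 ∧ σ (LinearMap.det (e : (l → F) →ₗ[F] (l → F)))⁻¹ *
      LinearMap.det (e : (l → F) →ₗ[F] (l → F)) * ε ^ Fintype.card k = 1)
    (fun e he => ⟨1, by simp, by
      rw [map_inv₀, he, inv_mul_cancel₀ (det_coe_ne_zero e), one_pow, mul_one]⟩)
    (by
      rcases hk with hk | hk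
      · left; simpa using hk.2
      · right
        intro e
        have h0 := det_coe_ne_zero e
        have h1 := (map_ne_zero σ).mpr h0
        refine ⟨σ (LinearMap.det (e : (l → F) →ₗ[F] (l → F))) /
          LinearMap.det (e : (l → F) →ₗ[F] (l → F)), ?_, ?_⟩
        · rw [map_div₀, hσ.invol]; field_simp
        · rw [hk, map_inv₀]; field_simp)
    (by
      rintro _ ⟨H, hH, rfl⟩ e ⟨ε, hε, hd⟩
      obtain ⟨hH0, hH1⟩ := (hs H).mp hH
      let g := LinearMap.toMatrix' (e : (l → F) →ₗ[F] (l → F))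
      let g' := LinearMap.toMatrix' (e.symm : (l → F) →ₗ[F] (l → F))
      have hg : g * g' = 1 := by rw [← LinearMap.toMatrix'_comp]; simp
      have hg1 : g.det = LinearMap.det (e : (l → F) →ₗ[F] (l → F)) := LinearMap.det_toMatrix' _
      have hg2 : g'.det = (LinearMap.det (e : (l → F) →ₗ[F] (l → F)))⁻¹ := by
        rw [← hg1]
        exact eq_inv_of_mul_eq_one_right (by rw [← det_mul, hg, det_one])
      have hform : ∀ u v, hermForm' (σ := σ) (hermConj hσ (adj σ g) H : Matrix l l F) u v =
          hermForm' (σ := σ) (H : Matrix l l F) (e u) (e v) := by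
        intro u v
        rw [hermForm'_apply, hermForm'_apply]
        simp only [hermConj]
        rw [adj_adj hσ, ← mulVec_mulVec, ← mulVec_mulVec, ← stdB_mulVec,
          LinearMap.toMatrix'_mulVec, LinearMap.toMatrix'_mulVec]
        rfl
      refine ⟨_, ⟨hermConj hσ (adj σ g) H, (hs _).mpr ⟨fun h0 => ?_, ?_⟩, rfl⟩, hform⟩
      · obtain ⟨v, hv⟩ := exists_hermForm'_ne_zero hσ hH0
        obtain ⟨v, rfl⟩ := e.surjective v
        rw [← hform, h0, hermForm'_apply] at hv
        simp at hv
      · have hε0 : ε ≠ 0 := left_ne_zero_of_mul_eq_one hε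
        refine wt_ne_bot_of_conj (uL k hσ g g' hg (σ ε) (by rw [hσ.invol, mul_comm, hε]) (by
          rw [hg1, hg2, ← hσ.invol (LinearMap.det (e : (l → F) →ₗ[F] (l → F)))⁻¹, ← map_pow,
            ← map_mul, ← map_mul, hd, map_one])) (fun S => ⟨hermConj hσ g S,
            uX_mul_uL hσ hω _ _ _ _ _ _ S, ?_⟩) hH1
        rw [pairChar_apply, pairChar_apply, hermPair_apply, hermPair_apply]
        simp only [hermConj]
        rw [adj_adj hσ, Matrix.mul_assoc, Matrix.mul_assoc, trace_mul_comm]
        simp only [Matrix.mul_assoc])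
    (B := hermForm' (σ := σ) (H₀ : Matrix l l F)) ⟨H₀, hH₀, rfl⟩ (by
      obtain ⟨v, hv⟩ := exists_hermForm'_ne_zero hσ ((hs H₀).mp hH₀).1
      intro h
      rw [h] at hv
      exact hv rfl)
  rw [Module.finrank_fintype_fun_eq_card, hF, ← pow_mul] at horb
  have h2 : ((fun H : hermMat σ l => hermForm' (σ := σ) (H : Matrix l l F)) '' s).ncard ≤ s.card := by
    rw [← Set.ncard_coe_finset]
    exact Set.ncard_image_le s.finite_toSet
  have h3 := card_mul_le_finrank ρ x χ hinj s (q ^ Fintype.card k) (by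
    intro H hH
    obtain ⟨hH0, hH1⟩ := (hs H).mp hH
    rcases hk with hk | hk
    · rw [hk.1, pow_zero, Nat.one_le_iff_ne_zero, Ne, Submodule.finrank_eq_zero]
      exact hH1
    · rw [hk, pow_one]
      obtain ⟨j, hj⟩ := Fintype.card_eq_one_iff.mp hk
      obtain ⟨u, hu⟩ := exists_hermForm'_ne_zero hσ hH0
      set a := hermForm' (σ := σ) (H : Matrix l l F) u u with ha
      have haσ : σ a = a := (isHermSymm_hermForm' hσ H).norm_fixed u
      have key : ∀ t : F, ∃ g : sisom (uForm σ l k), ∃ μ : F, ∀ v : (l → F) × (l → F) × (k → F),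
          (g : ((l → F) × (l → F) × (k → F)) ≃ₗ[F] _) v =
          (v.1 + (σ t * v.2.2 j - μ * stdB σ l u v.2.1) • u, v.2.1,
            v.2.2 - (stdB σ l u v.2.1 * t) • Pi.single j 1) := by
        intro t
        obtain ⟨μ, hμ⟩ := hσ.exists_trace_eq ((isHerm_uForm (l := l) (k := k) hσ).norm_fixed
          (0, 0, Pi.single j t))
        obtain ⟨g, hg, hg'⟩ := (isHerm_uForm (l := l) (k := k) hσ).exists_eichler_sisom
          (r := (u, 0, 0)) (y := (0, 0, Pi.single j t)) (by simp [uForm_apply])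
          (by simp [uForm_apply]) hμ
        refine ⟨⟨g, hg⟩, μ, fun v => ?_⟩
        rw [hg']
        simp only [uForm_apply, map_zero, LinearMap.zero_apply, zero_add, add_zero,
          stdB_single_left]
        refine Prod.ext ?_ (Prod.ext ?_ ?_)
        · simp [sub_smul, add_sub_assoc]
        · simp
        · ext i
          simp [Pi.single_apply]
      choose y μ hy using key
      have hcfix : ∀ s t : F, σ (ω⁻¹ * (σ s * t - σ t * s)) = ω⁻¹ * (σ s * t - σ t * s) := by
        intro s t
        rw [map_mul, map_inv₀, hω, map_sub, map_mul, map_mul, hσ.invol, hσ.invol]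
        field_simp
        ring
      have h4 := card_le_finrank_wt_sq ρ x (χ H) hH1 y (fun t S => by
          refine sisom_ext fun v => ?_
          rw [sisom_mul_apply, sisom_mul_apply, uX_apply, uX_apply, hy, hy]
          simp only [Prod.mk.injEq, and_true]
          abel)
        (fun s t => ψ (ω⁻¹ * (σ s * t - σ t * s) * a)) (by
          intro s s' hss
          by_contra hne
          have hd : σ (s - s') ≠ 0 := (map_ne_zero σ).mpr (sub_ne_zero.mpr hne)
          obtain ⟨θ, hθ⟩ := hσ.ne_id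
          have hθ' : θ - σ θ ≠ 0 := sub_ne_zero.mpr hθ.symm
          have hθ2 : σ θ - θ ≠ 0 := sub_ne_zero.mpr hθ
          obtain ⟨t, ht⟩ : ∃ t, t = θ * (ω / a / (θ - σ θ)) / σ (s - s') := ⟨_, rfl⟩
          have h5 := congrFun hss t
          simp only at h5
          apply hψ
          have h6 : ω⁻¹ * (σ s * t - σ t * s) * a = 1 + ω⁻¹ * (σ s' * t - σ t * s') * a := by
            have hd' : s - s' ≠ 0 := sub_ne_zero.mpr hne
            have e1 : σ (s - s') * t = θ * (ω / a / (θ - σ θ)) := by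
              rw [ht]; field_simp
            have e2 : σ t * (s - s') = σ θ * (ω / a / (θ - σ θ)) := by
              have := congrArg σ e1
              rw [map_mul, hσ.invol, map_mul, map_div₀, map_div₀, hω, haσ, map_sub,
                hσ.invol] at this
              rw [mul_comm, this]
              field_simp
              ring
            have e3 : (θ - σ θ) * (ω / a / (θ - σ θ)) * a = ω := by field_simp
            rw [map_sub] at e1
            field_simp
            linear_combination a * e1 - a * e2 + e3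
          rw [h6, AddChar.map_add_eq_mul] at h5
          exact mul_right_cancel₀ (ψ.val_isUnit _).ne_zero (h5.trans (one_mul _).symm))
        (fun s t => ⟨hermSq hσ _ (hcfix s t) u, by
          refine sisom_ext fun v => ?_
          rw [sisom_mul_apply, sisom_mul_apply, sisom_mul_apply, uX_apply, hy, hy, hy, hy,
            hermSq_mulVec]
          refine Prod.ext ?_ (Prod.ext rfl ?_)
          · simp only [Pi.sub_apply, Pi.smul_apply, Pi.single_eq_same, smul_eq_mul, mul_one,
              smul_smul, add_assoc, ← add_smul]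
            congr 2
            field_simp
            ring
          · simp only
            abel, by rw [pairChar_apply, hermPair_hermSq]⟩)
      rw [hF] at h4
      exact (Nat.pow_le_pow_iff_left two_ne_zero).mp h4)
  calc _ ≤ ((q + 1) * s.card) * q ^ Fintype.card k :=
        Nat.mul_le_mul_right _ (horb.trans (Nat.mul_le_mul_left _ h2))
    _ ≤ _ := by rw [mul_assoc]; exact Nat.mul_le_mul_left _ h3

theorem su_bound [Fintype F] {q : ℕ} (hF : Fintype.card F = q ^ 2) (m r : ℕ) (hm : 1 ≤ m)
    (hr : (r = 0 ∧ 2 ≤ m) ∨ r = 1) (hq : 4 ≤ m + m + r ∨ q ≠ 2) {W : Type*} [AddCommGroup W]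
    [Module ℂ W] [FiniteDimensional ℂ W] (ρ : Representation ℂ (SU (m + m + r) F q) W)
    (hρ : ρ.IsIrreducible) (h2 : 2 ≤ finrank ℂ W) :
    (q ^ (2 * m) - 1) * q ^ r ≤ (q + 1) * finrank ℂ W := by
  have hσ := isInvol_frobQ hF
  have hσ' : ∀ x, frobQ hF x = x ^ q := fun _ => rfl
  have hH := isHerm_uForm (l := Fin m) (k := Fin r) hσ
  have hfr : finrank F ((Fin m → F) × (Fin m → F) × (Fin r → F)) = m + m + r := by
    simp [add_assoc]
  obtain ⟨e⟩ := hH.nonempty_sisom_equiv_SU hF hσ' hfr
  have : Nonempty (Fin m) := ⟨⟨0, hm⟩⟩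
  let ρ' : Representation ℂ (sisom (uForm (frobQ hF) (Fin m) (Fin r))) W := ρ.comp e.toMonoidHom
  have hρ' : ρ'.IsIrreducible := (H11.isIrreducible_iff_of_surjective ρ' ρ e.toMonoidHom
    e.surjective (LinearEquiv.refl ℂ W) (fun _ _ => rfl)).mpr hρ
  have := unitary_bound hF hσ' ρ' (fun g hg => mem_center_of_rep_eq_one ρ' hρ' h2
    (hH.normal_le_center_or_eq_top (by
      rw [hfr]
      rcases hq with hq | hq
      · exact Or.inl hq
      · exact Or.inr ⟨by omega, exists_fixed_ne hF hσ' hq⟩)) hg) (by simpa using hr)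
  simpa using this

end Cfsg.Agent.H75
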