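import Mathlib
import Cfsg.Agent.H75.SumIrr
import Cfsg.Agent.H26.SLTrans

/-!
# The permutation character of `SL_n` on non-zero vectors
-/

namespace Cfsg.Agent.H75

open Matrix Module

/-- Non-zero column vectors. -/
def NZ (ι F : Type*) [Zero F] : Type _ := {v : ι → F // v ≠ 0}

variable {ι : Type*} [Fintype ι] [DecidableEq ι] {F : Type*} [Field F]

instance instFiniteNZ [Finite F] : Finite (NZ ι F) := inferInstanceAs (Finite {v : ι → F // v ≠ 0})

theorem sl_mulVec_ne_zero (g : SpecialLinearGroup ι F) {v : ι → F} (hv : v ≠ 0) :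
    (g : Matrix ι ι F) *ᵥ v ≠ 0 := fun h => hv (by
  have : ((g⁻¹ : SpecialLinearGroup ι F) : Matrix ι ι F) *ᵥ ((g : Matrix ι ι F) *ᵥ v) = v := by
    rw [mulVec_mulVec, ← Matrix.SpecialLinearGroup.coe_mul, inv_mul_cancel,
      Matrix.SpecialLinearGroup.coe_one, one_mulVec]
  rw [← this, h, mulVec_zero])

instance instMulActionSLNZ : MulAction (SpecialLinearGroup ι F) (NZ ι F) where
  smul g v := ⟨(g : Matrix ι ι F) *ᵥ v.1, sl_mulVec_ne_zero g v.2⟩
  one_smul v := Subtype.ext (one_mulVec v.1)
  mul_smul g h v := Subtype.ext (mulVec_mulVec v.1 g.1 h.1).symm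

instance instMulActionUnitsNZ : MulAction Fˣ (NZ ι F) where
  smul c v := ⟨(c : F) • v.1, smul_ne_zero c.ne_zero v.2⟩
  one_smul v := Subtype.ext (one_smul F v.1)
  mul_smul c d v := Subtype.ext (mul_smul (c : F) (d : F) v.1)

theorem nz_sl_smul (g : SpecialLinearGroup ι F) (v : NZ ι F) :
    (g • v).1 = (g : Matrix ι ι F) *ᵥ v.1 := rfl

omit [Fintype ι] [DecidableEq ι] in
theorem nz_units_smul (c : Fˣ) (v : NZ ι F) : (c • v).1 = (c : F) • v.1 := rfl

theorem nz_smul_comm (g : SpecialLinearGroup ι F) (c : Fˣ) (v : NZ ι F) :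
    g • c • v = c • g • v := Subtype.ext (mulVec_smul _ _ _)

theorem card_orbits_nz_le [Fintype F] (hn : 3 ≤ Fintype.card ι) :
    Nat.card (MulAction.orbitRel.Quotient (SpecialLinearGroup ι F) (NZ ι F × NZ ι F)) ≤
      Fintype.card F := by
  classical
  have : Nontrivial ι := Fintype.one_lt_card_iff_nontrivial.mp (by omega)
  obtain ⟨i, j, hij⟩ := exists_pair_ne ι
  let e : NZ ι F := ⟨Pi.single i 1, by simp⟩
  let e' : NZ ι F := ⟨Pi.single j 1, by simp⟩
  let f : Option Fˣ → MulAction.orbitRel.Quotient (SpecialLinearGroup ι F) (NZ ι F × NZ ι F) :=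
    fun o => o.elim (Quotient.mk _ (e, e')) (fun c => Quotient.mk _ (e, c • e))
  have hf : Function.Surjective f := by
    intro x
    obtain ⟨⟨v, w⟩, rfl⟩ := Quotient.exists_rep x
    by_cases h : LinearIndependent F ![v.1, w.1]
    · refine ⟨none, Quotient.sound ?_⟩
      have h' : LinearIndependent F ![e.1, e'.1] := by
        rw [LinearIndependent.pair_iff' e.2]
        intro c hc
        have := congrFun hc j
        simp [e, e', hij.symm] at this
      obtain ⟨g, hg⟩ := H26.exists_sl_map_linearIndependent h h'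
        (H26.span_ne_top_of_card_lt _ (by simp; omega))
      exact ⟨g, Prod.ext (Subtype.ext (hg 0)) (Subtype.ext (hg 1))⟩
    · rw [LinearIndependent.pair_iff' v.2] at h
      push Not at h
      obtain ⟨c, hc⟩ := h
      have hc0 : c ≠ 0 := by rintro rfl; exact w.2 (by rw [← hc, zero_smul])
      obtain ⟨g, hg⟩ := H26.exists_sl_mulVec_eq v.2 e.2
      refine ⟨some (Units.mk0 c hc0), Quotient.sound ⟨g, Prod.ext (Subtype.ext hg) (Subtype.ext ?_)⟩⟩
      show (g : Matrix ι ι F) *ᵥ w.1 = c • e.1
      rw [← hc, mulVec_smul, hg]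
  have := Nat.card_le_card_of_surjective f hf
  rw [Nat.card_eq_fintype_card (α := Option Fˣ), Fintype.card_option, Fintype.card_units] at this
  have h1 : 1 < Fintype.card F := Fintype.one_lt_card
  omega

variable (ι F) in
/-- The functions on non-zero vectors that are homogeneous for a given character. -/
noncomputable def weilSpace (θ : AddChar (Additive Fˣ) ℂ) : Submodule ℂ (NZ ι F → ℂ) :=
  wt (H11.permRep Fˣ (NZ ι F)) Additive.toMul θ

omit [Fintype ι] [DecidableEq ι] in
theorem mem_weilSpace {θ : AddChar (Additive Fˣ) ℂ} {f : NZ ι F → ℂ} :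
    f ∈ weilSpace ι F θ ↔ ∀ (c : Fˣ) v, f (c⁻¹ • v) = θ (Additive.ofMul c) * f v :=
  ⟨fun h c v => congrFun (h (Additive.ofMul c)) v, fun h c => funext fun v => h c.toMul v⟩

theorem weilSpace_invariant (θ : AddChar (Additive Fˣ) ℂ) (g : SpecialLinearGroup ι F) :
    weilSpace ι F θ ≤ (weilSpace ι F θ).comap (H11.permRep _ (NZ ι F) g) := by
  intro f hf
  rw [Submodule.mem_comap, mem_weilSpace]
  intro c v
  rw [H11.permRep_apply, H11.permRep_apply, nz_smul_comm, mem_weilSpace.mp hf]

variable (ι F) in
/-- The Weil representations of `SL_n` (for the trivial character, the permutation module of the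
projective space). -/
noncomputable def weilRep (θ : AddChar (Additive Fˣ) ℂ) :
    Representation ℂ (SpecialLinearGroup ι F) (weilSpace ι F θ) :=
  (H11.permRep _ (NZ ι F)).subrepresentation _ (weilSpace_invariant θ)

theorem permChar_nz_eq_sum [Finite F] [Fintype (AddChar (Additive Fˣ) ℂ)] :
    H11.permChar (SpecialLinearGroup ι F) (NZ ι F) = ∑ θ, (weilRep ι F θ).character := by
  classical
  refine Eq.trans ?_ (character_eq_sum_of_isInternal (H11.permRep _ (NZ ι F)) (weilSpace ι F)
    (isInternal_wt_complex _ _ (fun _ _ => rfl)) weilSpace_invariant)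
  ext g
  rw [H11.permRep_character]; rfl

omit [Fintype ι] [DecidableEq ι] in
theorem exists_mem_weilSpace (θ : AddChar (Additive Fˣ) ℂ) (v : NZ ι F) :
    ∃ f ∈ weilSpace ι F θ, f v = 1 ∧ ∀ w, (∀ c : Fˣ, w ≠ c • v) → f w = 0 := by
  classical
  have hinj : ∀ c d : Fˣ, c • v = d • v → c = d := fun c d h =>
    Units.ext (smul_left_injective F v.2 (congrArg Subtype.val h))
  refine ⟨fun w => if h : ∃ c : Fˣ, w = c • v then θ (-Additive.ofMul h.choose) else 0, ?_, ?_, ?_⟩
  · rw [mem_weilSpace]
    intro c w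
    by_cases h : ∃ d : Fˣ, w = d • v
    · have h' : ∃ d : Fˣ, c⁻¹ • w = d • v := ⟨c⁻¹ * h.choose, by rw [mul_smul, ← h.choose_spec]⟩
      rw [dif_pos h, dif_pos h', ← AddChar.map_add_eq_mul]
      have : h'.choose = c⁻¹ * h.choose :=
        hinj _ _ (by rw [← h'.choose_spec, mul_smul, ← h.choose_spec])
      rw [this]
      simp [add_comm]
    · have h' : ¬ ∃ d : Fˣ, c⁻¹ • w = d • v := fun ⟨d, hd⟩ =>
        h ⟨c * d, by rw [mul_smul, ← hd, smul_inv_smul]⟩
      rw [dif_neg h, dif_neg h', mul_zero]
  · have h : ∃ c : Fˣ, v = c • v := ⟨1, (one_smul _ _).symm⟩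
    have : h.choose = 1 := hinj _ _ (by rw [← h.choose_spec, one_smul])
    simp only [dif_pos h, this]
    simp
  · intro w hw
    exact dif_neg (fun ⟨c, hc⟩ => hw c hc)

open scoped Classical in
variable (ι F) in
/-- The Weil characters of `SL_n`. -/
noncomputable def weilChar (θ : AddChar (Additive Fˣ) ℂ) : SpecialLinearGroup ι F → ℂ :=
  if θ = 0 then (weilRep ι F θ).character - fun _ => 1 else (weilRep ι F θ).character

theorem permChar_nz_eq_one_add [Finite F] [Fintype (AddChar (Additive Fˣ) ℂ)] :
    H11.permChar (SpecialLinearGroup ι F) (NZ ι F) = (fun _ => 1) + ∑ θ, weilChar ι F θ := by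
  classical
  rw [permChar_nz_eq_sum, ← Finset.add_sum_erase _ _ (Finset.mem_univ 0),
    ← Finset.add_sum_erase _ (weilChar ι F) (Finset.mem_univ 0), weilChar, if_pos rfl,
    Finset.sum_congr rfl (fun θ hθ => show weilChar ι F θ = (weilRep ι F θ).character from
      if_neg (Finset.ne_of_mem_erase hθ))]
  abel

theorem weilChar_irr [Fintype F] (hn : 3 ≤ Fintype.card ι) :
    (∀ θ, IsIrrCharacter _ (weilChar ι F θ)) ∧ Function.Injective (weilChar ι F) ∧
      ∀ θ, weilChar ι F θ ≠ fun _ => 1 := by
  classical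
  have : Nontrivial ι := Fintype.one_lt_card_iff_nontrivial.mp (by omega)
  obtain ⟨i, j, hij⟩ := exists_pair_ne ι
  let e : NZ ι F := ⟨Pi.single i 1, by simp⟩
  let e' : NZ ι F := ⟨Pi.single j 1, by simp⟩
  have hone : (fun _ => 1 : NZ ι F → ℂ) ∈ weilSpace ι F 0 := by
    rw [mem_weilSpace]; simp
  let φ : Option (AddChar (Additive Fˣ) ℂ) → SpecialLinearGroup ι F → ℂ :=
    fun o => o.elim (fun _ => 1) (weilChar ι F)
  have h := irr_of_sum_of_classInner_le φ (by
      rintro (_ | θ)
      · exact H11.isCharacter_one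
      · show IsCharacter _ (weilChar ι F θ)
        unfold weilChar
        split_ifs with h
        · subst h
          refine H11.isCharacter_sub_irr (H11.isCharacter_character _) H11.isIrrCharacter_one ?_
          rw [H11.classInner_character_one_eq_finrank, Nat.cast_ne_zero, Ne,
            Submodule.finrank_eq_zero, ← Ne, Submodule.ne_bot_iff]
          refine ⟨⟨_, hone⟩, fun g => rfl, fun h => ?_⟩
          exact one_ne_zero (congrFun (congrArg Subtype.val h) e)
        · exact H11.isCharacter_character _) (by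
      rintro (_ | θ) h
      · exact one_ne_zero (congrFun h 1)
      · have h1 : weilChar ι F θ 1 = 0 := congrFun h 1
        obtain ⟨f, hf, hf1, hf2⟩ := exists_mem_weilSpace θ e
        unfold weilChar at h1
        split_ifs at h1 with h
        · subst h
          rw [Pi.sub_apply, Representation.char_one, sub_eq_zero, Nat.cast_eq_one] at h1
          obtain ⟨c, hc⟩ := (finrank_eq_one_iff_of_nonzero' ⟨f, hf⟩ (fun h => by
            have : f e = 0 := congrFun (congrArg Subtype.val h) e
            rw [hf1] at this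
            exact one_ne_zero this)).mp h1 ⟨_, hone⟩
          have h2 := congrFun (congrArg Subtype.val hc) e'
          have h3 : f e' = 0 := hf2 e' fun c hc => by
            have : e'.1 j = ((c : F) • e.1) j := congrFun (congrArg Subtype.val hc) j
            simp [e, e', hij.symm] at this
          simp [h3] at h2
        · rw [Representation.char_one, Nat.cast_eq_zero, Submodule.finrank_eq_zero] at h1
          rw [h1, Submodule.mem_bot] at hf
          rw [hf] at hf1
          exact zero_ne_one hf1)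
    (n := Nat.card (MulAction.orbitRel.Quotient (SpecialLinearGroup ι F) (NZ ι F × NZ ι F))) (by
      rw [Fintype.sum_option, ← H11.classInner_permChar_permChar, permChar_nz_eq_one_add (F := F)]
      rfl) (by
      refine (card_orbits_nz_le hn).trans ?_
      rw [Fintype.card_option, AddChar.card_eq, Fintype.card_additive, Fintype.card_units]
      omega)
  refine ⟨fun θ => h.1 (some θ), fun θ θ' hθ => Option.some.inj (h.2 (a₁ := some θ) hθ),
    fun θ hθ => ?_⟩
  exact Option.some_ne_none θ (h.2 (a₁ := some θ) (a₂ := none) hθ)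

end Cfsg.Agent.H75
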