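import Mathlib
import Cfsg.Agent.H75.ChevLin

/-!
# Weakly closed unipotent subgroups of Chevalley groups
-/

set_option autoImplicit false

namespace Cfsg.Agent.H75

open Equiv H34 H34.Split H40 H37 Cfsg.Lie
open scoped commutatorElement

section Abstract

variable {ι Φ : Type*} {S : SignedSys ι Φ} {G : Type*} [Group G] [Finite Φ] {P : Split S G}

theorem cl_rad (J : Set ι) : S.Cl {r | S.pos r ∧ r ∉ S.Phi J} := by
  have := S.cl_pos.inter_pos (S.wJ_mem_W J)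
  convert this using 1
  ext r
  exact ⟨fun h => ⟨h.1, S.pos_of_not_mem_Phi (S.wJ_mem J) h.1 h.2⟩,
    fun h => ⟨h.1, fun h' => (S.pos_wJ_iff h').1 h.2 h.1⟩⟩

theorem le_rad_of_weaklyClosed {X : Subgroup G} (hX : X ≤ P.Up)
    (hwc : ∀ g, (∀ x ∈ X, g * x * g⁻¹ ∈ P.Up) → ∀ x ∈ X, g * x * g⁻¹ ∈ X) :
    X ≤ rad P {i | X ≤ P.U {r | S.pos r ∧ r ≠ S.α i}} := by
  set J := {i | X ≤ P.U {r | S.pos r ∧ r ≠ S.α i}}
  have key : ∀ l : List ι, (∀ i ∈ l, i ∈ J) → ∃ n ∈ P.N, P.ν n = S.word l ∧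
      ∀ x ∈ X, n * x * n⁻¹ ∈ X := fun l hl => by
    induction l with
    | nil => exact ⟨1, one_mem _, ν_one, by simp⟩
    | cons i l ih =>
      obtain ⟨n, hn, e, h⟩ := ih fun j hj => hl j (List.mem_cons_of_mem _ hj)
      obtain ⟨m, hm, e'⟩ := P.exists_s i
      refine ⟨m * n, mul_mem hm hn, by rw [P.ν_mul _ hm _ hn, e, e', S.word_cons], fun x hx => ?_⟩
      have := hwc m (fun y hy => conj_U hm (fun r hr => e' ▸ S.s_pos i r hr.1 hr.2)
        (hl i List.mem_cons_self hy)) _ (h x hx)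
      rwa [show m * (n * x * n⁻¹) * m⁻¹ = m * n * x * (m * n)⁻¹ by group] at this
  obtain ⟨l, hl, e⟩ := S.mem_WJ_iff.1 (S.wJ_mem J)
  obtain ⟨n, hn, e', h⟩ := key l hl
  intro x hx
  refine U_sub (mem_U_pos_of_conj S.cl_pos hn (hX hx) (Up_le_B (hX (h x hx)))) fun r hr =>
    ⟨hr.1, fun h' => (S.pos_wJ_iff h').1 ?_ hr.1⟩
  rw [← e, ← e']
  exact hr.2

theorem le_of_le_sup_comm {X R : Subgroup G} (hXU : X ≤ P.Up)
    (hX : ∀ u ∈ P.Up, ∀ x ∈ X, u * x * u⁻¹ ∈ X)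
    (hR : R ≤ P.Up) (h : R ≤ X ⊔ ⁅R, P.Up⁆) : R ≤ X := by
  have key : ∀ k, ∀ g ∈ R, ∃ x ∈ X, x⁻¹ * g ∈ P.U {t | t ∈ {r | S.pos r} ∧ k ≤ P.ht t} := by
    intro k
    induction k with
    | zero => exact fun g hg => ⟨1, one_mem _, by
        rw [inv_one, one_mul]; exact U_sub (hR hg) fun r hr => ⟨hr, Nat.zero_le _⟩⟩
    | succ k ih =>
      let K : Subgroup G :=
        { carrier := {g | ∃ x ∈ X, x⁻¹ * g ∈ P.U {t | t ∈ {r | S.pos r} ∧ k + 1 ≤ P.ht t}}
          one_mem' := ⟨1, one_mem _, by rw [inv_one, one_mul]; exact one_mem _⟩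
          mul_mem' := by
            rintro g g' ⟨x, hx, h1⟩ ⟨x', hx', h2⟩
            refine ⟨x * x', mul_mem hx hx', ?_⟩
            have := mul_mem (conj_mem_ht S.cl_pos _ (inv_mem (hXU hx')) h1) h2
            rwa [show x'⁻¹ * (x⁻¹ * g) * x'⁻¹⁻¹ * (x'⁻¹ * g') = (x * x')⁻¹ * (g * g') by group]
              at this
          inv_mem' := by
            rintro g ⟨x, hx, h1⟩
            refine ⟨x⁻¹, inv_mem hx, ?_⟩
            have := conj_mem_ht S.cl_pos _ (hXU hx) (inv_mem h1)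
            rwa [show x * (x⁻¹ * g)⁻¹ * x⁻¹ = x⁻¹⁻¹ * g⁻¹ by group] at this }
      refine h.trans (sup_le (fun x hx => ⟨x, hx, by rw [inv_mul_cancel]; exact one_mem _⟩)
        (Subgroup.commutator_le.2 fun g hg u hu => ?_) : _ ≤ K)
      obtain ⟨x, hx, h1⟩ := ih g hg
      refine ⟨x * (u * x⁻¹ * u⁻¹), mul_mem hx (hX u hu _ (inv_mem hx)), ?_⟩
      have := conj_mem_ht S.cl_pos _ (mul_mem hu (hXU hx)) (comm_mem S.cl_pos k (inv_mem hu) h1)
      rwa [show u * x * (u⁻¹ * (x⁻¹ * g) * u⁻¹⁻¹ * (x⁻¹ * g)⁻¹) * (u * x)⁻¹ =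
        (x * (u * x⁻¹ * u⁻¹))⁻¹ * ⁅g, u⁆ by rw [commutatorElement_def]; group] at this
  obtain ⟨M, hM⟩ := P.exists_ht_bound
  intro g hg
  obtain ⟨x, hx, h1⟩ := key M g hg
  exact inv_mul_eq_one.1 (eq_one_of_mem_U (fun r hr => (hM r).not_ge hr.2) h1) ▸ hx

theorem mem_U_of_forall {A : Set Φ} (hA : S.Cl A) [Finite ι] {g : G} (hg : g ∈ P.U A)
    (h : ∀ i, g ∈ P.U {r | S.pos r ∧ r ≠ S.α i}) : g ∈ P.U {r | r ∈ A ∧ ∀ i, r ≠ S.α i} := by
  have key : ∀ l : List ι, ∃ A', S.Cl A' ∧ A' ⊆ A ∧ (∀ r ∈ A', ∀ i ∈ l, r ≠ S.α i) ∧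
      g ∈ P.U A' := fun l => by
    induction l with
    | nil => exact ⟨A, hA, le_rfl, by simp, hg⟩
    | cons i l ih =>
      obtain ⟨A', h1, h2, h3, h4⟩ := ih
      obtain ⟨m, hm, e⟩ := P.exists_s i
      refine ⟨_, h1.inter_pos (S.s_mem_W i), Set.inter_subset_left.trans h2, fun r hr j hj => ?_,
        e ▸ mem_U_pos_of_conj h1 hm h4 (Up_le_B (conj_U hm
          (fun r hr => e ▸ S.s_pos i r hr.1 hr.2) (h i)))⟩
      rcases List.mem_cons.1 hj with rfl | hj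
      · rintro rfl
        exact (S.pos_neg _).1 (S.s_α j ▸ hr.2) (S.pos_α j)
      · exact h3 r hr.1 j hj
  have := Fintype.ofFinite ι
  obtain ⟨A', -, h2, h3, h4⟩ := key Finset.univ.toList
  exact U_sub h4 fun r hr => ⟨h2 hr, fun i => h3 r hr i (by simp)⟩

end Abstract

section Field

variable {F : Type*} [Field F] [Fintype F]

theorem exists_notMem_of_lt [DecidableEq F] (s : Finset F) (h : s.card < Fintype.card F) :
    ∃ t, t ∉ s := by
  obtain ⟨t, -, ht⟩ := Finset.exists_mem_notMem_of_card_lt_card (t := Finset.univ) h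
  exact ⟨t, ht⟩

theorem addSubgroup_eq_top {T : AddSubgroup F} (h : ∀ c : F, c ≠ 0 → ∀ t ∈ T, c ^ 2 * t ∈ T)
    {a : F} (ha : a ∈ T) (h0 : a ≠ 0) (t : F) : t ∈ T := by
  have h1 : ∀ c : F, c ^ 2 * a ∈ T := fun c => by
    by_cases hc : c = 0
    · simp [hc]
    · exact h c hc a ha
  by_cases h2 : (2 : F) = 0
  · have : CharP F 2 := CharTwo.of_one_ne_zero_of_two_eq_zero one_ne_zero h2
    obtain ⟨c, hc⟩ := (bijective_frobenius F 2).2 (t / a)
    have := h1 c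
    rwa [← frobenius_def, hc, div_mul_cancel₀ _ h0] at this
  · have := sub_mem (sub_mem (h1 (t / (2 * a) + 1)) (h1 (t / (2 * a)))) (h1 1)
    convert this using 1
    field_simp
    ring

theorem eq_zero_of_rel3 {A : Type*} [AddCommGroup A] (h4 : 4 ≤ Fintype.card F) {f g k : F →+ A}
    (h : ∀ t u, f (t * u) + g (t ^ 2 * u) + k (t ^ 3 * u) = 0) : f = 0 ∧ g = 0 ∧ k = 0 := by
  classical
  have h1 : ∀ t : F, t ∉ ({0, 1} : Finset F) → ∀ v, g v + k ((t + 1) * v) = 0 := fun t ht v => by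
    simp only [Finset.mem_insert, Finset.mem_singleton, not_or] at ht
    have h5 : t ^ 2 - t ≠ 0 := by
      rw [show t ^ 2 - t = t * (t - 1) by ring]
      exact mul_ne_zero ht.1 (sub_ne_zero.2 ht.2)
    obtain ⟨u, rfl⟩ := mul_left_surjective₀ h5 v
    have h2 := h t u
    have h3 := h 1 (t * u)
    beta_reduce
    rw [show (t + 1) * ((t ^ 2 - t) * u) = t ^ 3 * u - t * u by ring, sub_mul, map_sub, map_sub]
    simp only [one_pow, one_mul] at h3
    linear_combination (norm := abel) h2 - h3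
  obtain ⟨t, ht⟩ := exists_notMem_of_lt ({0, 1} : Finset F) (Finset.card_le_two.trans_lt (by omega))
  obtain ⟨t', ht'⟩ := exists_notMem_of_lt (insert t {0, 1} : Finset F)
    (Finset.card_le_three.trans_lt (by omega))
  rw [Finset.mem_insert, not_or] at ht'
  have hk : k = 0 := AddMonoidHom.ext fun v => by
    obtain ⟨u, rfl⟩ := mul_left_surjective₀ (sub_ne_zero.2 ht'.1) v
    have := add_left_cancel ((h1 t' ht'.2 u).trans (h1 t ht u).symm)
    beta_reduce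
    rw [show (t' - t) * u = (t' + 1) * u - (t + 1) * u by ring, map_sub, this, sub_self]
    rfl
  have hg : g = 0 := AddMonoidHom.ext fun v => by simpa [hk] using h1 t ht v
  exact ⟨AddMonoidHom.ext fun v => by simpa [hk, hg] using h 1 v, hg, hk⟩

end Field

section Chev

variable {D : ChevalleyDatum} (C : Cert D) (F : Type*) [Field F]

theorem exists_comp (i : Fin D.rank) {u : D.group F} (hu : u ∈ (C.split F).Up) :
    ∃ t, (C.xg F (D.simple i) t)⁻¹ * u ∈ (C.split F).U {r | C.S.pos r ∧ r ≠ C.S.α i} := by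
  obtain ⟨a, ha, c, hc, rfl⟩ := collect C.S.cl_pos {C.S.α i} {r | r ≠ C.S.α i}
    (fun r _ => eq_or_ne r _) hu
  obtain ⟨t, rfl⟩ := Cert.mem_X.1 (U_le_X (fun s hs => hs.2) ha)
  exact ⟨t, by rw [← C.simple_val]; exact (inv_mul_cancel_left _ c).symm ▸ hc⟩

open Classical in
/-- The component at a simple root. -/
noncomputable def comp (u : D.group F) (i : Fin D.rank) : F :=
  if h : u ∈ (C.split F).Up then (exists_comp C F i h).choose else 0

variable {C F}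

theorem xg_simple_mem (i : Fin D.rank) (t : F) :
    C.xg F (D.simple i) t ∈ (C.split F).X (C.S.α i) := C.simple_val i ▸ Cert.xg_mem_X (C.S.α i) t

theorem xg_simple_mem_Up (i : Fin D.rank) (t : F) : C.xg F (D.simple i) t ∈ (C.split F).Up :=
  mem_U (C.S.pos_α i) (xg_simple_mem i t)

theorem comp_spec {u : D.group F} (hu : u ∈ (C.split F).Up) (i : Fin D.rank) :
    (C.xg F (D.simple i) (comp C F u i))⁻¹ * u ∈ (C.split F).U {r | C.S.pos r ∧ r ≠ C.S.α i} := by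
  rw [comp, dif_pos hu]
  exact (exists_comp C F i hu).choose_spec

theorem comp_eq {u : D.group F} {i : Fin D.rank} {t : F}
    (h : (C.xg F (D.simple i) t)⁻¹ * u ∈ (C.split F).U {r | C.S.pos r ∧ r ≠ C.S.α i}) :
    comp C F u i = t := by
  have hu : u ∈ (C.split F).Up := by
    simpa using mul_mem (xg_simple_mem_Up i t) (U_sub h fun _ h => h.1)
  exact Cert.xg_injective (C.simple_val i ▸ (C.S.α i).2) (simple_comp_unique i (xg_simple_mem i _)
    (comp_spec hu i) (xg_simple_mem i _) h (by simp)).1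

theorem comp_mul {u v : D.group F} (hu : u ∈ (C.split F).Up) (hv : v ∈ (C.split F).Up) :
    comp C F (u * v) = comp C F u + comp C F v := funext fun i => comp_eq (by
  have := mul_mem (conj_mem_U_ne i (inv_mem (xg_simple_mem_Up i (comp C F v i))) (comp_spec hu i))
    (comp_spec hv i)
  rw [Pi.add_apply, Cert.xg_add]
  convert this using 1
  group)

theorem comp_eq_zero {u : D.group F} {i : Fin D.rank}
    (h : u ∈ (C.split F).U {r | C.S.pos r ∧ r ≠ C.S.α i}) : comp C F u i = 0 :=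
  comp_eq (by simpa [Cert.xg_zero] using h)

theorem mem_of_comp_eq_zero {u : D.group F} (hu : u ∈ (C.split F).Up) {i : Fin D.rank}
    (h : comp C F u i = 0) : u ∈ (C.split F).U {r | C.S.pos r ∧ r ≠ C.S.α i} := by
  simpa [h, Cert.xg_zero] using comp_spec hu i

theorem comp_inv {u : D.group F} (hu : u ∈ (C.split F).Up) : comp C F u⁻¹ = - comp C F u := by
  rw [eq_neg_iff_add_eq_zero, ← comp_mul (inv_mem hu) hu, inv_mul_cancel]
  exact funext fun i => comp_eq_zero (one_mem _)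

theorem comp_xg (i : Fin D.rank) (t : F) : comp C F (C.xg F (D.simple i) t) = Pi.single i t := by
  funext j
  by_cases h : j = i
  · subst h
    rw [Pi.single_eq_same]
    exact comp_eq (by rw [inv_mul_cancel]; exact one_mem _)
  · rw [Pi.single_eq_of_ne h]
    exact comp_eq_zero (mem_U (by exact ⟨C.S.pos_α i, fun e => h (C.S.α_inj e).symm⟩)
      (xg_simple_mem i t))

theorem comp_hg {r : ℕ} (hr : r < D.nroots) {c : F} (hc : c ≠ 0) {u : D.group F}
    (hu : u ∈ (C.split F).Up) (i : Fin D.rank) : comp C F (C.hg F r c * u * (C.hg F r c)⁻¹) i =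
      c ^ D.pairing r (D.simple i) * comp C F u i := comp_eq (by
  have h1 : C.hg F r c * C.xg F (D.simple i) (comp C F u i) =
      C.xg F (D.simple i) (c ^ D.pairing r (D.simple i) * comp C F u i) * C.hg F r c :=
    Subtype.ext (C.V.hG_conj hr (C.simple_val i ▸ (C.S.α i).2) hc _)
  have := conj_U_H (Cert.hg_mem_H hr hc) (comp_spec hu i)
  rw [← mul_inv_eq_iff_eq_mul.2 h1]
  convert this using 1
  group)

/-- The simple roots are separated by the torus. -/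
def Sep (D : ChevalleyDatum) (b : Bool) : Prop :=
  ∀ i < D.rank, D.pairing (D.simple i) (D.simple i) = 2 ∧ ∀ j < D.rank, i = j ∨ ∃ r < D.nroots,
    D.pairing r (D.simple j) = 0 ∧
      (D.pairing r (D.simple i) = 1 ∨ b = true ∧ D.pairing r (D.simple i) = 2)

theorem exists_comp_eq [Fintype F] {b : Bool} (hs : Sep D b) (h3 : 3 ≤ Fintype.card F)
    (h4 : b = true → 4 ≤ Fintype.card F) {X : Subgroup (D.group F)} (hX : X ≤ (C.split F).Up)
    (hH : ∀ h ∈ (C.split F).H, ∀ x ∈ X, h * x * h⁻¹ ∈ X) {i : Fin D.rank}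
    (hi : ¬ X ≤ (C.split F).U {r | C.S.pos r ∧ r ≠ C.S.α i}) (t : F) :
    ∃ x ∈ X, comp C F x = Pi.single i t := by
  classical
  have key : ∀ l : List (Fin D.rank), ∃ x ∈ X, comp C F x i ≠ 0 ∧
      ∀ j ∈ l, j ≠ i → comp C F x j = 0 := fun l => by
    induction l with
    | nil =>
      obtain ⟨x, hx, h⟩ := SetLike.not_le_iff_exists.1 hi
      exact ⟨x, hx, fun e => h (mem_of_comp_eq_zero (hX hx) e), by simp⟩
    | cons j l ih =>
      obtain ⟨x, hx, h1, h2⟩ := ih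
      obtain e | ⟨r, hr, e1, e2⟩ := (hs i i.2).2 j j.2
      · exact ⟨x, hx, h1, fun k hk hki => h2 k ((List.mem_cons.1 hk).resolve_left
          fun e' => hki (e'.trans (Fin.ext e).symm)) hki⟩
      obtain ⟨c, hc, hc'⟩ : ∃ c : F, c ≠ 0 ∧ c ^ D.pairing r (D.simple i) ≠ 1 := by
        rcases e2 with e2 | ⟨hb, e2⟩
        · obtain ⟨c, h⟩ := exists_notMem_of_lt ({0, 1} : Finset F)
            (Finset.card_le_two.trans_lt (by omega))
          simp only [Finset.mem_insert, Finset.mem_singleton, not_or] at h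
          exact ⟨c, h.1, by rw [e2, zpow_one]; exact h.2⟩
        · obtain ⟨c, h⟩ := exists_notMem_of_lt ({0, 1, -1} : Finset F)
            (Finset.card_le_three.trans_lt (h4 hb))
          simp only [Finset.mem_insert, Finset.mem_singleton, not_or] at h
          exact ⟨c, h.1, by rw [e2, zpow_two, Ne, mul_self_eq_one_iff, not_or]; exact h.2⟩
      have h5 := hH _ (Cert.hg_mem_H hr hc) x hx
      have h6 : ∀ k, comp C F (C.hg F r c * x * (C.hg F r c)⁻¹ * x⁻¹) k =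
          (c ^ D.pairing r (D.simple k) - 1) * comp C F x k := fun k => by
        rw [comp_mul (hX h5) (inv_mem (hX hx)), comp_inv (hX hx), Pi.add_apply, comp_hg hr hc (hX hx),
          Pi.neg_apply]
        ring
      refine ⟨_, mul_mem h5 (inv_mem hx), h6 i ▸ mul_ne_zero (sub_ne_zero.2 hc') h1,
        fun k hk hki => ?_⟩
      rcases List.mem_cons.1 hk with rfl | hk
      · rw [h6, e1, zpow_zero, sub_self, zero_mul]
      · rw [h6, h2 k hk hki, mul_zero]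
  obtain ⟨x, hx, h1, h2⟩ := key Finset.univ.toList
  let T : AddSubgroup F :=
    { carrier := {t | ∃ x ∈ X, comp C F x = Pi.single i t}
      zero_mem' := ⟨1, one_mem _, funext fun j => by simp [comp_eq_zero (one_mem _)]⟩
      add_mem' := by
        rintro s t ⟨x, hx, e⟩ ⟨y, hy, e'⟩
        exact ⟨x * y, mul_mem hx hy, by rw [comp_mul (hX hx) (hX hy), e, e', Pi.single_add]⟩
      neg_mem' := by
        rintro t ⟨x, hx, e⟩
        exact ⟨x⁻¹, inv_mem hx, by rw [comp_inv (hX hx), e, Pi.single_neg]⟩ }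
  refine addSubgroup_eq_top (T := T) ?_ ⟨x, hx, funext fun j => ?_⟩ h1 t
  · rintro c hc t ⟨x, hx, e⟩
    have hr : D.simple i < D.nroots := C.simple_val i ▸ (C.S.α i).2
    refine ⟨_, hH _ (Cert.hg_mem_H hr hc) x hx, funext fun j => ?_⟩
    rw [comp_hg hr hc (hX hx), e]
    by_cases h : j = i
    · subst h
      simp [(hs j j.2).1, zpow_two, sq]
    · simp [Pi.single_eq_of_ne h]
  · by_cases h : j = i
    · subst h
      simp
    · rw [Pi.single_eq_of_ne h, h2 j (by simp) h]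

/-- The `i`-th root of a list of commutator terms. -/
def tk (L : List (ℕ × ℤ × ℕ × ℕ)) (i : ℕ) : ℕ := (L.getD i (0, 0, 0, 0)).1

/-- The `i`-th coefficient of a list of commutator terms. -/
def te (L : List (ℕ × ℤ × ℕ × ℕ)) (i : ℕ) : ℤ := (L.getD i (0, 0, 0, 0)).2.1

/-- The root is the sum of two positive roots spanning a system of type `A₂`. -/
def T1 (D : ChevalleyDatum) (k : ℕ) : Prop :=
  ∃ r ∈ D.posRoots, ∃ e ∈ (D.chain.getD r #[]).toList,
    (e.2.toList.map Prod.fst).head? = some k ∧ D.IsPosRoot e.1 ∧ e.1 ≠ r ∧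
      D.commTerms r e.1 = [(k, te (D.commTerms r e.1) 0, 1, 1)] ∧ te (D.commTerms r e.1) 0 ^ 2 = 1

instance (D : ChevalleyDatum) (k : ℕ) : Decidable (T1 D k) := by unfold T1; infer_instance

/-- The commutator terms are of type `B₂` or `G₂`. -/
def T2 (D : ChevalleyDatum) (k : ℕ) (L : List (ℕ × ℤ × ℕ × ℕ)) : Prop :=
  te L 0 ^ 2 = 1 ∧ te L 1 ^ 2 = 1 ∧
    (L = [(tk L 0, te L 0, 1, 1), (tk L 1, te L 1, 2, 1)] ∧ (k = tk L 0 ∨ k = tk L 1) ∨
    L = [(tk L 0, te L 0, 1, 1), (tk L 1, te L 1, 2, 1), (tk L 2, te L 2, 3, 1),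
      (tk L 3, te L 3, 3, 2)] ∧ te L 2 ^ 2 = 1 ∧ T1 D (tk L 3) ∧
      (k = tk L 0 ∨ k = tk L 1 ∨ k = tk L 2))

instance (D : ChevalleyDatum) (k : ℕ) (L : List (ℕ × ℤ × ℕ × ℕ)) : Decidable (T2 D k L) := by
  unfold T2; infer_instance

/-- Every positive root is simple or appears in a suitable commutator relation. -/
def CommOK (D : ChevalleyDatum) (b : Bool) : Prop :=
  ∀ k ∈ D.posRoots, (∃ i < D.rank, k = D.simple i) ∨ T1 D k ∨
    b = true ∧ ∃ r ∈ D.posRoots, ∃ s ∈ D.posRoots, s ≠ r ∧ T2 D k (D.commTerms r s)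

theorem mem_posRoots {r : ℕ} : r ∈ D.posRoots ↔ D.IsPosRoot r := by
  simp only [ChevalleyDatum.posRoots, List.mem_filter, List.mem_range, decide_eq_true_eq]
  exact ⟨fun h => h.2, fun h => ⟨h.1, h⟩⟩

theorem term_iff {r s : ℕ} (hr : D.IsPosRoot r) (hs : D.IsPosRoot s) {c : ℕ × ℤ × ℕ × ℕ}
    (hc : c ∈ D.commTerms r s) (J : Set (Fin D.rank)) : ∃ h : c.1 < D.nroots, C.S.pos ⟨c.1, h⟩ ∧
      (⟨c.1, h⟩ ∈ C.S.Phi J ↔ ⟨r, hr.1⟩ ∈ C.S.Phi J ∧ ⟨s, hs.1⟩ ∈ C.S.Phi J) := by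
  obtain ⟨h1, h2, h3, h4⟩ := C.commTerms_spec hr.1 hs.1 c hc
  have h5 := C.rc_of_cartan (k := ⟨c.1, h1⟩) (r := ⟨r, hr.1⟩) (s := ⟨s, hs.1⟩) h4
  have h6 : 0 ≤ C.R.rc ⟨r, hr.1⟩ := C.pos_of_isPosRoot hr
  have h7 : 0 ≤ C.R.rc ⟨s, hs.1⟩ := C.pos_of_isPosRoot hs
  refine ⟨h1, C.btw_of_rc (by positivity) (by positivity) h5 1 (one_mem _) h6 h7, ?_⟩
  simp only [mem_Phi_iff, h5, Pi.add_apply, Pi.smul_apply, smul_eq_mul, ← forall_and]
  refine forall₂_congr fun k _ => ?_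
  have h8 := h6 k
  have h9 := h7 k
  simp only [Pi.zero_apply] at h8 h9
  have h10 : (0 : ℤ) < c.2.2.1 := by exact_mod_cast h2
  have h11 : (0 : ℤ) < c.2.2.2 := by exact_mod_cast h3
  exact ⟨fun h => ⟨by nlinarith, by nlinarith⟩, fun h => by simp [h.1, h.2]⟩

theorem word_mem {J : Set (Fin D.rank)} {r s : ℕ} (hr : D.IsPosRoot r) (hs : D.IsPosRoot s)
    (hne : s ≠ r) (h : ¬ (⟨r, hr.1⟩ ∈ C.S.Phi J ∧ ⟨s, hs.1⟩ ∈ C.S.Phi J)) (t u : F) :
    ((D.commWord F r s t u).map fun p => C.xg F p.1 p.2).prod ∈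
      ⁅rad (C.split F) J, (C.split F).Up⁆ := by
  have h1 := C.pos_of_isPosRoot (r := ⟨r, hr.1⟩) hr
  have h2 := C.pos_of_isPosRoot (r := ⟨s, hs.1⟩) hs
  have e := Cert.xg_comm (C := C) (F := F) hr.1 hs.1 hne
    (fun e => C.S.neg_ne_of_pos h1 h2 (Fin.ext ((C.neg_val _).trans e.symm))) t u
  rw [← inv_mul_eq_iff_eq_mul.2 e, show ∀ a b : D.group F, (a * b)⁻¹ * (b * a) = ⁅b⁻¹, a⁻¹⁆ by
    intros; rw [commutatorElement_def]; group]
  rcases not_and_or.1 h with h | h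
  · rw [Subgroup.commutator_comm]
    exact Subgroup.commutator_mem_commutator (inv_mem (Cert.xg_mem_U hs.1 h2 _))
      (inv_mem (Cert.xg_mem_U hr.1 (by exact ⟨h1, h⟩) _))
  · exact Subgroup.commutator_mem_commutator (inv_mem (Cert.xg_mem_U hs.1 (by exact ⟨h2, h⟩) _))
      (inv_mem (Cert.xg_mem_U hr.1 h1 _))

theorem exists_mul_eq {e : ℤ} (he : e ^ 2 = 1) (t : F) : ∃ u, (e : F) * u = t :=
  ⟨e * t, by rw [← mul_assoc, ← sq, ← Int.cast_pow, he, Int.cast_one, one_mul]⟩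

theorem mem_of_T1 {J : Set (Fin D.rank)} {k : ℕ} (h : T1 D k) {hk : k < D.nroots}
    (hJ : ⟨k, hk⟩ ∉ C.S.Phi J) (t : F) : C.xg F k t ∈ ⁅rad (C.split F) J, (C.split F).Up⁆ := by
  obtain ⟨r, hr, ⟨s, l⟩, -, -, hs, hne, e, he⟩ := h
  rw [mem_posRoots] at hr
  obtain ⟨_, -, h1⟩ := term_iff (C := C) hr hs (e ▸ List.mem_singleton_self _) J
  obtain ⟨u, rfl⟩ := exists_mul_eq he t
  have := word_mem (F := F) hr hs hne (h1.not.1 hJ) (-1) u
  rw [ChevalleyDatum.commWord, e] at this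
  simpa using this

universe u in
theorem exists_abel {G : Type u} [Group G] {R Y : Subgroup G} (h : ⁅R, R⁆ ≤ Y) :
    ∃ (A : Type u) (_ : AddCommGroup A) (ψ : G → A), (∀ g ∈ R, ∀ g' ∈ R, ψ (g * g') = ψ g + ψ g') ∧
      ∀ g ∈ R, ψ g = 0 ↔ g ∈ Y := by
  classical
  have h1 : commutator R ≤ Y.subgroupOf R := Subgroup.commutator_le.2 fun a _ b _ =>
    h (Subgroup.commutator_mem_commutator a.2 b.2)
  have : (Y.subgroupOf R).Normal := ⟨fun x hx g => by
    simpa [commutatorElement_def] using mul_mem (h1 (Subgroup.commutator_mem_commutator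
      (Subgroup.mem_top g) (Subgroup.mem_top x))) hx⟩
  have := (Subgroup.Normal.quotient_commutative_iff_commutator_le (N := Y.subgroupOf R)).2 h1
  let _ : CommGroup (R ⧸ Y.subgroupOf R) := { mul_comm := this.is_comm.comm }
  refine ⟨Additive (R ⧸ Y.subgroupOf R), inferInstance,
    fun g => if hg : g ∈ R then Additive.ofMul (QuotientGroup.mk ⟨g, hg⟩) else 0,
    fun g hg g' hg' => ?_, fun g hg => ?_⟩
  · simp only [dif_pos hg, dif_pos hg', dif_pos (mul_mem hg hg')]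
    rfl
  · simp only [dif_pos hg, ofMul_eq_zero, QuotientGroup.eq_one_iff, Subgroup.mem_subgroupOf]

theorem mem_of_T2 [Fintype F] (h4 : 4 ≤ Fintype.card F) {J : Set (Fin D.rank)} {k r s : ℕ}
    (hr : D.IsPosRoot r) (hs : D.IsPosRoot s) (hne : s ≠ r) (h : T2 D k (D.commTerms r s))
    {hk : k < D.nroots} (hJ : ⟨k, hk⟩ ∉ C.S.Phi J) (t : F) :
    C.xg F k t ∈ ⁅rad (C.split F) J, (C.split F).Up⁆ := by
  obtain ⟨A, _, ψ, h1, h2⟩ := exists_abel (R := rad (C.split F) J)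
    (Subgroup.commutator_mono le_rfl (U_mono fun _ h => h.1) : _ ≤ ⁅_, (C.split F).Up⁆)
  have h3 := fun c hc => term_iff (C := C) hr hs (c := c) hc J
  have h5 := word_mem (C := C) (F := F) (J := J) hr hs hne
  simp only [ChevalleyDatum.commWord] at h5
  generalize D.commTerms r s = L at h h3 h5
  unfold T2 at h
  generalize tk L 0 = k0, tk L 1 = k1, tk L 2 = k2, tk L 3 = k3, te L 0 = e0, te L 1 = e1,
    te L 2 = e2, te L 3 = e3 at h
  have h6 : ¬ (⟨r, hr.1⟩ ∈ C.S.Phi J ∧ ⟨s, hs.1⟩ ∈ C.S.Phi J) := fun h' => by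
    obtain ⟨-, -, ⟨rfl, rfl | rfl⟩ | ⟨rfl, -, -, rfl | rfl | rfl⟩⟩ := h <;>
      simp only [List.forall_mem_cons, h', and_self, iff_true] at h3 <;> tauto
  have h7 : ∀ c ∈ L, ∀ t, C.xg F c.1 t ∈ rad (C.split F) J := fun c hc t => by
    obtain ⟨h, h', h''⟩ := h3 c hc
    exact Cert.xg_mem_U h (by exact ⟨h', h''.not.2 h6⟩) t
  replace h5 := h5 h6
  let φ : ∀ k, (∀ t, C.xg F k t ∈ rad (C.split F) J) → F → F →+ A := fun k h e =>
    AddMonoidHom.mk' (fun t => ψ (C.xg F k (e * t))) fun a b => by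
      rw [mul_add, Cert.xg_add, h1 _ (h _) _ (h _)]
  have h8 : ∀ k h (e : ℤ), e ^ 2 = 1 → φ k h e = 0 →
      C.xg F k t ∈ ⁅rad (C.split F) J, (C.split F).Up⁆ := fun k h e he h0 => by
    obtain ⟨u, rfl⟩ := exists_mul_eq he t
    exact (h2 _ (h _)).1 (DFunLike.congr_fun h0 u)
  obtain ⟨a0, a1, ⟨rfl, h⟩ | ⟨rfl, a2, a3, h⟩⟩ := h
  · simp only [List.forall_mem_cons] at h7
    obtain ⟨b0, b1, -⟩ := eq_zero_of_rel3 h4 (f := φ _ h7.1 e0) (g := φ _ h7.2.1 e1) (k := 0)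
      fun t u => by
        have := (h2 _ (mul_mem (h7.1 _) (h7.2.1 _))).2 (by simpa using h5 (-t) u)
        rw [h1 _ (h7.1 _) _ (h7.2.1 _)] at this
        simpa [φ, mul_assoc] using this
    rcases h with rfl | rfl
    exacts [h8 _ h7.1 _ a0 b0, h8 _ h7.2.1 _ a1 b1]
  · simp only [List.forall_mem_cons] at h7 h3
    obtain ⟨c3, -, d3⟩ := h3.2.2.2.1
    obtain ⟨b0, b1, b2⟩ := eq_zero_of_rel3 h4 (f := φ _ h7.1 e0) (g := φ _ h7.2.1 e1)
      (k := φ _ h7.2.2.1 e2) fun t u => by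
        have := (h2 _ (mul_mem (h7.1 _) (mul_mem (h7.2.1 _) (mul_mem (h7.2.2.1 _)
          (h7.2.2.2.1 _))))).2 (by simpa using h5 (-t) u)
        rw [h1 _ (h7.1 _) _ (mul_mem (h7.2.1 _) (mul_mem (h7.2.2.1 _) (h7.2.2.2.1 _))),
          h1 _ (h7.2.1 _) _ (mul_mem (h7.2.2.1 _) (h7.2.2.2.1 _)),
          h1 _ (h7.2.2.1 _) _ (h7.2.2.2.1 _),
          (h2 _ (h7.2.2.2.1 _)).2 (mem_of_T1 a3 (d3.not.2 h6) _)] at this
        simpa [φ, mul_assoc, add_assoc] using this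
    rcases h with rfl | rfl | rfl
    exacts [h8 _ h7.1 _ a0 b0, h8 _ h7.2.1 _ a1 b1, h8 _ h7.2.2.1 _ a2 b2]

theorem eq_rad_of_weaklyClosed [Fintype F] {b : Bool} (hs : Sep D b) (hc : CommOK D b)
    (h3 : 3 ≤ Fintype.card F) (h4 : b = true → 4 ≤ Fintype.card F) {X : Subgroup (D.group F)}
    (hX : X ≤ (C.split F).Up)
    (hwc : ∀ g, (∀ x ∈ X, g * x * g⁻¹ ∈ (C.split F).Up) → ∀ x ∈ X, g * x * g⁻¹ ∈ X) :
    ∃ J, X = rad (C.split F) J := by
  have h1 := le_rad_of_weaklyClosed hX hwc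
  set J := {i | X ≤ (C.split F).U {r | C.S.pos r ∧ r ≠ C.S.α i}}
  have hB : ∀ g ∈ (C.split F).B, ∀ x ∈ X, g * x * g⁻¹ ∈ X := fun g hg =>
    hwc g fun x hx => conj_Up_B hg (hX hx)
  have hR : rad (C.split F) J ≤ (C.split F).Up := U_mono fun _ h => h.1
  have h2 : (C.split F).U {r | r ∈ {r | C.S.pos r ∧ r ∉ C.S.Phi J} ∧ ∀ i, r ≠ C.S.α i} ≤
      ⁅rad (C.split F) J, (C.split F).Up⁆ := U_le fun r hr x hx => by
    obtain ⟨t, rfl⟩ := Cert.mem_X.1 hx
    obtain ⟨i, hi, e⟩ | h | ⟨hb, r', hr', s, hs, hne, h⟩ :=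
      hc r (mem_posRoots.2 ((C.pos_iff r).1 hr.1.1))
    · exact absurd (Fin.ext (e.trans (C.simple_val ⟨i, hi⟩).symm)) (hr.2 ⟨i, hi⟩)
    · exact mem_of_T1 h hr.1.2 t
    · exact mem_of_T2 (h4 hb) (mem_posRoots.1 hr') (mem_posRoots.1 hs) hne h hr.1.2 t
  refine ⟨J, le_antisymm h1 (le_of_le_sup_comm hX (fun u hu => hB u (Up_le_B hu)) hR
    (U_le fun r hr x hx => ?_))⟩
  by_cases h : ∀ i, r ≠ C.S.α i
  · exact Subgroup.mem_sup_right (h2 (mem_U (by exact ⟨hr, h⟩) hx))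
  obtain ⟨i, rfl⟩ : ∃ i, r = C.S.α i := by simpa using h
  have hxR : x ∈ rad (C.split F) J := mem_U hr hx
  obtain ⟨t, rfl⟩ := Cert.mem_X.1 hx
  obtain ⟨y, hy, e⟩ := exists_comp_eq hs h3 h4 hX (fun h hh => hB h (H_le_B hh)) (i := i)
    (fun h => hr.2 (C.S.α_mem_Phi h)) t
  have h5 := mul_mem (inv_mem (h1 hy)) hxR
  rw [← mul_inv_cancel_left y (C.xg F _ t)]
  refine mul_mem (Subgroup.mem_sup_left hy) (Subgroup.mem_sup_right (h2
    (mem_U_of_forall (cl_rad J) h5 fun j => mem_of_comp_eq_zero (hR h5) ?_)))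
  rw [comp_mul (inv_mem (hX hy)) (hR hxR), comp_inv (hX hy), e, show (C.S.α i : ℕ) = D.simple i from
    C.simple_val i, comp_xg, neg_add_cancel]
  rfl

end Chev

theorem sep_G2 : Sep chevG2 true := by unfold Sep; decide +kernel
theorem sep_B2 : Sep chevB2 true := by unfold Sep; decide +kernel
theorem sep_D4 : Sep chevD4 true := by unfold Sep; decide +kernel
theorem sep_F4 : Sep chevF4 true := by unfold Sep; decide +kernel
theorem sep_E6 : Sep chevE6 false := by unfold Sep; decide +kernel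
theorem sep_E7 : Sep chevE7 false := by unfold Sep; decide +kernel
theorem sep_E8 : Sep chevE8 false := by unfold Sep; decide +kernel
theorem commOK_G2 : CommOK chevG2 true := by unfold CommOK; decide +kernel
theorem commOK_B2 : CommOK chevB2 true := by unfold CommOK; decide +kernel
theorem commOK_D4 : CommOK chevD4 true := by unfold CommOK; decide +kernel
theorem commOK_F4 : CommOK chevF4 true := by unfold CommOK; decide +kernel
theorem commOK_E6 : CommOK chevE6 false := by unfold CommOK; decide +kernel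
theorem commOK_E7 : CommOK chevE7 false := by unfold CommOK; decide +kernel
theorem commOK_E8 : CommOK chevE8 false := by unfold CommOK; decide +kernel

end Cfsg.Agent.H75
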